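-- helper93 library: piece TS of helper16's CALL S3716 (TI-sum formula for the class function cfW).
import Mathlib
import Cfsg.Agent.Helper16.D8Core

set_option autoImplicit false

open Cfsg Cfsg.Agent.Helper16 DihedralGroup
open scoped ComplexConjugate

namespace Cfsg.Agent.Helper93

theorem d8_card_WM : (Finset.univ : Finset WM).card = 72 := by
  rw [Finset.card_univ]
  rfl

theorem d8_E_conj (k m : WM) (hm : wCls m ≠ 0) : wCls (k⁻¹ * m * k) ≠ 0 := by
  have := wCls_conj k⁻¹ m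
  rw [inv_inv] at this
  rw [this]
  exact hm

theorem d8_fiber_card {G : Type*} [Group G] [Fintype G] [DecidableEq G] {φ : WM →* G}
    (h : D8Cfg φ) (x₀ : G) (m₀ : WM) (hm₀ : wCls m₀ ≠ 0) :
    (((Finset.univ : Finset G) ×ˢ Finset.univ.filter (fun m : WM => wCls m ≠ 0)).filter
      (fun p : G × WM => p.1 * φ p.2 * p.1⁻¹ = x₀ * φ m₀ * x₀⁻¹)).card = 72 := by
  rw [← d8_card_WM]
  symm
  refine Finset.card_bij (fun k _ => (x₀ * φ k, k⁻¹ * m₀ * k)) ?_ ?_ ?_
  · intro k _
    simp only [Finset.mem_filter, Finset.mem_product, Finset.mem_univ, true_and]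
    refine ⟨d8_E_conj k m₀ hm₀, ?_⟩
    simp only [map_mul, map_inv]
    group
  · intro k _ k' _ hkk
    have h1 := congrArg Prod.fst hkk
    simp only [mul_right_inj] at h1
    exact h.inj h1
  · intro p hp
    simp only [Finset.mem_filter, Finset.mem_product, Finset.mem_univ, true_and] at hp
    obtain ⟨hpE, hpeq⟩ := hp
    have h1 : (x₀⁻¹ * p.1) * φ p.2 * (x₀⁻¹ * p.1)⁻¹ = φ m₀ := by
      have h2 : (x₀⁻¹ * p.1) * φ p.2 * (x₀⁻¹ * p.1)⁻¹ = x₀⁻¹ * (p.1 * φ p.2 * p.1⁻¹) * x₀ := by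
        group
      rw [h2, hpeq]
      group
    obtain ⟨k, hk⟩ := h.ti p.2 ((wCls_ne_zero_iff p.2).mp hpE) (x₀⁻¹ * p.1)
      (by rw [h1]; exact ⟨m₀, rfl⟩)
    refine ⟨k, Finset.mem_univ _, ?_⟩
    have hp1 : p.1 = x₀ * φ k := by rw [hk]; group
    have hp2 : p.2 = k⁻¹ * m₀ * k := by
      apply h.inj
      rw [← hk] at h1
      rw [map_mul, map_mul, map_inv, ← h1]
      group
    exact Prod.ext hp1.symm hp2.symm

theorem d8_cfW_eq_zero {G : Type*} [Group G] {φ : WM →* G} (v : Fin 5 → ℤ) (g : G)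
    (hg : ¬ ∃ x : G, ∃ m : WM, wCls m ≠ 0 ∧ x * g * x⁻¹ = φ m) : cfW φ v g = 0 := by
  unfold cfW
  refine Finset.sum_eq_zero (fun k _ => ?_)
  rw [if_neg]
  rintro ⟨x, m, hm, hk, hx⟩
  exact hg ⟨x, m, by rw [hm]; exact hk, hx⟩

theorem d8_cfW_inner {G : Type*} [Group G] [Fintype G] {φ : WM →* G} (h : D8Cfg φ) (v : Fin 5 → ℤ)
    (f : G → ℂ) (hf : IsClassFunction G f) :
    classInner (cfW φ v) f =
      (1 / 72 : ℂ) * ∑ m : WM, (if wCls m = 0 then 0 else (v (wCls m) : ℂ)) * conj (f (φ m)) := by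
  classical
  obtain ⟨E, hE⟩ : ∃ E : Finset WM, E = Finset.univ.filter (fun m : WM => wCls m ≠ 0) :=
    ⟨_, rfl⟩
  obtain ⟨F, hF⟩ : ∃ F : G → ℂ, F = fun g => cfW φ v g * conj (f g) := ⟨_, rfl⟩
  have hFc : ∀ g x : G, F (x * g * x⁻¹) = F g := by
    intro g x
    rw [hF]
    simp only
    rw [hf g x, cfW_isClassFunction φ v g x]
  have hFφ : ∀ m : WM, F (φ m) =
      (if wCls m = 0 then 0 else (v (wCls m) : ℂ)) * conj (f (φ m)) := by
    intro m
    rw [hF]
    simp only
    rw [h.cfW_apply v m]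
  have hA : ∑ p ∈ (Finset.univ : Finset G) ×ˢ E, F (p.1 * φ p.2 * p.1⁻¹)
      = (Fintype.card G : ℂ) * ∑ m : WM,
          (if wCls m = 0 then 0 else (v (wCls m) : ℂ)) * conj (f (φ m)) := by
    rw [Finset.sum_product]
    simp only [hFc]
    rw [Finset.sum_const, Finset.card_univ, nsmul_eq_mul]
    congr 1
    rw [hE, Finset.sum_filter]
    refine Finset.sum_congr rfl (fun m _ => ?_)
    rw [hFφ m]
    by_cases hm : wCls m = 0
    · simp [hm]
    · simp [hm]
  have hB : ∑ p ∈ (Finset.univ : Finset G) ×ˢ E, F (p.1 * φ p.2 * p.1⁻¹)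
      = 72 * ∑ g : G, F g := by
    rw [Finset.sum_comp F (fun p : G × WM => p.1 * φ p.2 * p.1⁻¹)]
    have himg : ∀ b ∈ ((Finset.univ : Finset G) ×ˢ E).image
        (fun p : G × WM => p.1 * φ p.2 * p.1⁻¹),
        ((((Finset.univ : Finset G) ×ˢ E).filter
          (fun p : G × WM => p.1 * φ p.2 * p.1⁻¹ = b)).card • F b = 72 * F b) := by
      intro b hb
      obtain ⟨p₀, hp₀, rfl⟩ := Finset.mem_image.mp hb
      have hp₀E : wCls p₀.2 ≠ 0 := by
        have h1 := (Finset.mem_product.mp hp₀).2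
        rw [hE] at h1
        exact (Finset.mem_filter.mp h1).2
      have hc := d8_fiber_card h p₀.1 p₀.2 hp₀E
      rw [hE, hc]
      rw [nsmul_eq_mul]
      push_cast
      ring
    rw [Finset.sum_congr rfl himg, ← Finset.mul_sum]
    congr 1
    apply Finset.sum_subset (Finset.subset_univ _)
    intro g _ hg
    have h0 : cfW φ v g = 0 := by
      apply d8_cfW_eq_zero
      rintro ⟨x, m, hm, hx⟩
      apply hg
      rw [Finset.mem_image]
      refine ⟨(x⁻¹, m), ?_, ?_⟩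
      · rw [hE]
        simp [hm]
      · simp only
        rw [← hx]
        group
    rw [hF]
    simp only
    rw [h0, zero_mul]
  unfold classInner
  have hcard : (Nat.card G : ℂ) = (Fintype.card G : ℂ) := by rw [Nat.card_eq_fintype_card]
  have hne : (Fintype.card G : ℂ) ≠ 0 := by exact_mod_cast Fintype.card_ne_zero
  have key : ∑ g : G, cfW φ v g * conj (f g)
      = (Fintype.card G : ℂ) / 72 * ∑ m : WM,
          (if wCls m = 0 then 0 else (v (wCls m) : ℂ)) * conj (f (φ m)) := by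
    have h1 := hA.symm.trans hB
    rw [hF] at h1
    simp only at h1
    linear_combination (-1 / 72 : ℂ) * h1
  rw [key, hcard]
  field_simp

end Cfsg.Agent.Helper93
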