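/-
helper93: piece B6 of CALL S2479 (helper40): the determinant of multiplication by `h` on `F[X]/(p^e)` is the
`e`-th power of its determinant on `F[X]/(p)`.  More generally the determinant is multiplicative in the modulus.
-/
import Mathlib
import Cfsg.Agent.Helper40.KGLDefs
import Cfsg.Agent.Helper40.KSLDefs

set_option autoImplicit false

namespace Cfsg.Agent.Helper93

open Polynomial Cfsg.Agent.Helper40.KGL Cfsg.Agent.Helper40.KSL
open scoped DirectSum
open Classical

universe u v

/-- The determinant of multiplication by `h` is invariant under `F[X]`-linear equivalences. -/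
theorem det_lsmul_congr {F : Type u} [Field F] {A B : Type*} [AddCommGroup A] [AddCommGroup B]
    [Module F[X] A] [Module F A] [IsScalarTower F F[X] A]
    [Module F[X] B] [Module F B] [IsScalarTower F F[X] B]
    (φ : A ≃ₗ[F[X]] B) (h : F[X]) :
    LinearMap.det ((LinearMap.lsmul F[X] A h).restrictScalars F) =
      LinearMap.det ((LinearMap.lsmul F[X] B h).restrictScalars F) := by
  rw [← LinearMap.det_conj ((LinearMap.lsmul F[X] A h).restrictScalars F) (φ.restrictScalars F)]
  congr 1
  ext b
  simp

/-- Multiplicativity of the determinant of multiplication by `h` in the modulus. -/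
theorem det_mulQ_mul {F : Type u} [Field F] (a b : F[X]) (ha : a.Monic) (hb : b.Monic) (h : F[X]) :
    LinearMap.det (mulQ (a * b) h) = LinearMap.det (mulQ a h) * LinearMap.det (mulQ b h) := by
  have hfin : Module.Finite F (F[X] ⧸ Submodule.span F[X] {a * b}) := (ha.mul hb).finite_adjoinRoot
  have hb0 : b ≠ 0 := hb.ne_zero
  have hST : Submodule.span F[X] {a * b} ≤ Submodule.span F[X] {b} := by
    rw [Submodule.span_singleton_le_iff_mem, Submodule.mem_span_singleton]
    exact ⟨a, rfl⟩
  set WX : Submodule F[X] (F[X] ⧸ Submodule.span F[X] {a * b}) :=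
    (Submodule.span F[X] {b}).map (Submodule.span F[X] {a * b}).mkQ with hWX
  have he : WX.restrictScalars F ≤ (WX.restrictScalars F).comap (mulQ (a * b) h) := by
    intro w hw
    exact WX.smul_mem h hw
  rw [LinearMap.det_eq_det_mul_det (WX.restrictScalars F) (mulQ (a * b) h) he]
  congr 1
  · -- the restriction to `WX ≅ F[X]/(a)`
    let g0 : F[X] →ₗ[F[X]] (F[X] ⧸ Submodule.span F[X] {a * b}) :=
      (Submodule.span F[X] {a * b}).mkQ ∘ₗ LinearMap.toSpanSingleton F[X] F[X] b
    have hrange : LinearMap.range g0 = WX := by
      rw [hWX, LinearMap.range_comp, ← LinearMap.span_singleton_eq_range]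
    let g : F[X] →ₗ[F[X]] WX := g0.codRestrict WX (fun x => hrange ▸ LinearMap.mem_range_self g0 x)
    have hsurj : Function.Surjective g := by
      rintro ⟨w, hw⟩
      rw [← hrange] at hw
      obtain ⟨x, hx⟩ := hw
      exact ⟨x, Subtype.ext hx⟩
    have hker : LinearMap.ker g = Submodule.span F[X] {a} := by
      ext x
      rw [LinearMap.mem_ker, Submodule.mem_span_singleton]
      constructor
      · intro hx
        have h1 : g0 x = 0 := congrArg Subtype.val hx
        have h2 : x * b ∈ Submodule.span F[X] {a * b} := by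
          have : (Submodule.span F[X] {a * b}).mkQ (x • b) = 0 := h1
          rwa [Submodule.mkQ_apply, Submodule.Quotient.mk_eq_zero, smul_eq_mul] at this
        obtain ⟨c, hc⟩ := Submodule.mem_span_singleton.mp h2
        refine ⟨c, ?_⟩
        have h3 : (c * a) * b = x * b := by rw [← hc, smul_eq_mul]; ring
        exact mul_right_cancel₀ hb0 h3
      · rintro ⟨c, rfl⟩
        apply Subtype.ext
        change (Submodule.span F[X] {a * b}).mkQ ((c • a) • b) = 0
        rw [Submodule.mkQ_apply, Submodule.Quotient.mk_eq_zero, Submodule.mem_span_singleton]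
        exact ⟨c, by simp only [smul_eq_mul]; ring⟩
    let φ1 : (F[X] ⧸ Submodule.span F[X] {a}) ≃ₗ[F[X]] WX :=
      (Submodule.quotEquivOfEq _ _ hker.symm).trans (g.quotKerEquivOfSurjective hsurj)
    have e1 := det_lsmul_congr φ1 h
    exact e1.symm
  · -- the quotient `≅ F[X]/(b)`
    let ψ : ((F[X] ⧸ Submodule.span F[X] {a * b}) ⧸ WX.restrictScalars F) ≃ₗ[F]
        (F[X] ⧸ Submodule.span F[X] {b}) :=
      (Submodule.Quotient.restrictScalarsEquiv F WX).trans
        ((Submodule.quotientQuotientEquivQuotient _ _ hST).restrictScalars F)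
    rw [← LinearMap.det_conj ((WX.restrictScalars F).mapQ (WX.restrictScalars F) (mulQ (a * b) h) he) ψ]
    congr 1
    apply LinearMap.ext
    intro y
    obtain ⟨x, rfl⟩ := ψ.surjective y
    induction x using Submodule.Quotient.induction_on with
    | _ v =>
      simp only [LinearMap.comp_apply, LinearEquiv.coe_coe, LinearEquiv.symm_apply_apply,
        Submodule.mapQ_apply]
      have hψ : ∀ u : F[X] ⧸ Submodule.span F[X] {a * b},
          ψ (Submodule.Quotient.mk u) =
            (Submodule.quotientQuotientEquivQuotient _ _ hST) (Submodule.Quotient.mk u) :=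
        fun u => rfl
      rw [hψ, hψ]
      change (Submodule.quotientQuotientEquivQuotient _ _ hST) (Submodule.Quotient.mk (h • v)) = h • _
      rw [Submodule.Quotient.mk_smul, map_smul]

/-- PIECE B6 of CALL S2479. -/
theorem det_mulQ_pow {F : Type u} [Field F] (p : F[X]) (hm : p.Monic) (h : F[X]) (e : ℕ) :
    LinearMap.det (mulQ (p ^ e) h) = LinearMap.det (mulQ p h) ^ e := by
  induction e with
  | zero =>
    rw [pow_zero, pow_zero]
    have hsub : Subsingleton (F[X] ⧸ Submodule.span F[X] {(1 : F[X])}) := by
      rw [Submodule.Quotient.subsingleton_iff]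
      rw [eq_top_iff]
      intro x _
      rw [Submodule.mem_span_singleton]
      exact ⟨x, by simp⟩
    exact LinearMap.det_eq_one_of_subsingleton _
  | succ e ih =>
    rw [pow_succ, det_mulQ_mul (p ^ e) p (hm.pow e) hm h, ih, pow_succ]

end Cfsg.Agent.Helper93
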