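-- helper93 library: piece W1 of helper40's CALL S2480 (properties of the expanded sequence).
import Mathlib
import Cfsg.Agent.Helper40.KGLDefs
import Cfsg.Agent.Helper40.KSLDefs
import Cfsg.Agent.Helper40.KPSLDefs

set_option autoImplicit false

namespace Cfsg.Agent.Helper93

open Polynomial Cfsg.Agent.Helper40.KGL Cfsg.Agent.Helper40.KSL Cfsg.Agent.Helper40.KPSL
open scoped DirectSum
open Classical

universe u v

theorem w1_prod_fin_castLE {M : Type*} [CommMonoid M] {m N : ℕ} (hmN : m ≤ N) (f : Fin N → M)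
    (hf : ∀ j : Fin N, m ≤ j.val → f j = 1) :
    ∏ j : Fin N, f j = ∏ i : Fin m, f (Fin.castLE hmN i) := by
  have hinj : Set.InjOn (Fin.castLE hmN) ((Finset.univ : Finset (Fin m)) : Set (Fin m)) := by
    intro a _ b _ hab
    have := congrArg Fin.val hab
    exact Fin.ext (by simpa using this)
  rw [← Finset.prod_image (s := Finset.univ) (g := Fin.castLE hmN) (f := f) hinj]
  symm
  apply Finset.prod_subset (Finset.subset_univ _)
  intro j _ hj
  apply hf
  by_contra hlt
  have hlt := Nat.lt_of_not_le hlt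
  exact hj (Finset.mem_image.mpr ⟨⟨j.val, hlt⟩, Finset.mem_univ _, Fin.ext rfl⟩)

theorem w1_sum_fin_castLE {M : Type*} [AddCommMonoid M] {m N : ℕ} (hmN : m ≤ N) (f : Fin N → M)
    (hf : ∀ j : Fin N, m ≤ j.val → f j = 0) :
    ∑ j : Fin N, f j = ∑ i : Fin m, f (Fin.castLE hmN i) := by
  have hinj : Set.InjOn (Fin.castLE hmN) ((Finset.univ : Finset (Fin m)) : Set (Fin m)) := by
    intro a _ b _ hab
    have := congrArg Fin.val hab
    exact Fin.ext (by simpa using this)
  rw [← Finset.sum_image (s := Finset.univ) (g := Fin.castLE hmN) (f := f) hinj]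
  symm
  apply Finset.sum_subset (Finset.subset_univ _)
  intro j _ hj
  apply hf
  by_contra hlt
  have hlt := Nat.lt_of_not_le hlt
  exact hj (Finset.mem_image.mpr ⟨⟨j.val, hlt⟩, Finset.mem_univ _, Fin.ext rfl⟩)

theorem w1_gcd_filter_castLE {F : Type u} [Field F] {m N : ℕ} (hmN : m ≤ N) (G : Fin N → F[X])
    (H : Fin m → F[X]) (h1 : ∀ i : Fin m, G (Fin.castLE hmN i) ≠ 1 ↔ H i ≠ 1)
    (h2 : ∀ j : Fin N, m ≤ j.val → G j = 1)
    {_ : DecidablePred fun j : Fin N => G j ≠ 1} {_ : DecidablePred fun i : Fin m => H i ≠ 1} :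
    (Finset.univ.filter fun j : Fin N => G j ≠ 1).gcd (fun j => j.val + 1) =
      (Finset.univ.filter fun i : Fin m => H i ≠ 1).gcd (fun i => i.val + 1) := by
  have : (Finset.univ.filter fun j : Fin N => G j ≠ 1) =
      (Finset.univ.filter fun i : Fin m => H i ≠ 1).image (Fin.castLE hmN) := by
    ext j
    simp only [Finset.mem_filter, Finset.mem_univ, true_and, Finset.mem_image]
    constructor
    · intro hj
      have hlt : j.val < m := by
        by_contra hge
        exact hj (h2 j (by omega))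
      exact ⟨⟨j.val, hlt⟩, (h1 ⟨j.val, hlt⟩).mp hj, Fin.ext rfl⟩
    · rintro ⟨i, hi, rfl⟩
      exact (h1 i).mpr hi
  rw [this, Finset.gcd_image]
  rfl

theorem w1_expSeq_lt {F : Type u} [Field F] (o n : ℕ) {m : ℕ} (H : Fin m → F[X]) (j : Fin n)
    (h : j.val < m) : expSeq o n H j = Polynomial.expand F o (H ⟨j.val, h⟩) := by
  unfold expSeq
  rw [dif_pos h]

theorem w1_expSeq_ge {F : Type u} [Field F] (o n : ℕ) {m : ℕ} (H : Fin m → F[X]) (j : Fin n)
    (h : m ≤ j.val) : expSeq o n H j = 1 := by
  unfold expSeq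
  rw [dif_neg (by omega)]

/-- PIECE W1 -/
theorem expSeq_props {F : Type u} [Field F] (q o m : ℕ) (ho : 1 ≤ o) (H : Fin m → F[X])
    (hH : IsSeq m m H) :
    IsSeq (o * m) (o * m) (expSeq o (o * m) H) ∧
      gamSeq q (expSeq o (o * m) H) = gamSeq q H ∧
      detSeq (expSeq o (o * m) H) = (-1) ^ ((o - 1) * m) * detSeq H := by
  have hmN : m ≤ o * m := Nat.le_mul_of_pos_left m ho
  have ho' : 0 < o := ho
  have hG1 : ∀ i : Fin m, expSeq o (o * m) H (Fin.castLE hmN i) = expand F o (H i) := by
    intro i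
    exact w1_expSeq_lt o (o * m) H (Fin.castLE hmN i) i.isLt
  have hGge : ∀ j : Fin (o * m), m ≤ j.val → expSeq o (o * m) H j = 1 :=
    fun j hj => w1_expSeq_ge o (o * m) H j hj
  refine ⟨⟨?_, ?_⟩, ?_, ?_⟩
  · intro j
    by_cases h : j.val < m
    · rw [w1_expSeq_lt _ _ _ _ h]
      refine ⟨(hH.1 _).1.expand ho', ?_⟩
      rw [coeff_expand ho']
      simpa using (hH.1 _).2
    · rw [hGge j (by omega)]
      exact ⟨monic_one, by simp⟩
  · rw [w1_sum_fin_castLE hmN _ (fun j hj => by rw [hGge j hj]; simp)]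
    have hterm : ∀ i : Fin m, ((Fin.castLE hmN i).val + 1) *
        (expSeq o (o * m) H (Fin.castLE hmN i)).natDegree =
        o * ((i.val + 1) * (H i).natDegree) := by
      intro i
      rw [hG1, natDegree_expand]
      show (i.val + 1) * ((H i).natDegree * o) = _
      ring
    rw [Finset.sum_congr rfl (fun i _ => hterm i), ← Finset.mul_sum, hH.2]
  · unfold gamSeq
    congr 1
    apply w1_gcd_filter_castLE hmN
    · intro i
      rw [hG1]
      constructor
      · intro h hi
        apply h
        rw [hi]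
        simp
      · intro h hi
        apply h
        have h1 : expand F o (H i) = expand F o 1 := by rw [hi]; simp
        exact expand_injective ho' h1
    · exact hGge
  · unfold detSeq
    rw [w1_prod_fin_castLE hmN _ (fun j hj => by rw [hGge j hj]; simp [nu])]
    have hterm : ∀ i : Fin m, nu (expSeq o (o * m) H (Fin.castLE hmN i)) ^
        ((Fin.castLE hmN i).val + 1) =
        ((-1 : F) ^ (o - 1)) ^ ((i.val + 1) * (H i).natDegree) * nu (H i) ^ (i.val + 1) := by
      intro i
      rw [hG1]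
      have hnu : nu (expand F o (H i)) = (-1) ^ ((o - 1) * (H i).natDegree) * nu (H i) := by
        unfold nu
        rw [natDegree_expand, coeff_expand ho']
        simp only [dvd_zero, if_true, Nat.zero_div]
        rw [← mul_assoc, ← pow_add]
        congr 2
        obtain ⟨o', rfl⟩ : ∃ o', o = o' + 1 := ⟨o - 1, by omega⟩
        simp only [Nat.add_sub_cancel]
        ring
      show nu (expand F o (H i)) ^ (i.val + 1) = _
      rw [hnu, mul_pow]
      congr 1
      rw [← pow_mul, ← pow_mul]
      congr 1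
      ring
    rw [Finset.prod_congr rfl (fun i _ => hterm i), Finset.prod_mul_distrib,
      Finset.prod_pow_eq_pow_sum, hH.2, ← pow_mul]

end Cfsg.Agent.Helper93
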