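import Mathlib
import Cfsg.Prelude.Def_GeometricClasses

/-!
Transvections in `GL ι F` as explicit matrices, and subspace stabilisers.
-/

set_option autoImplicit false

namespace Cfsg.Agent.Helper93

open Matrix

section Transv

variable {ι : Type} [Fintype ι] [DecidableEq ι] {F : Type*} [Field F]

/-- The transvection `x ↦ x + (φ ⬝ᵥ x) • v` (with `φ ⬝ᵥ v = 0`) as an element of `GL ι F`. -/
def tv (v φ : ι → F) (h : φ ⬝ᵥ v = 0) : GL ι F where
  val := 1 + vecMulVec v φ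
  inv := 1 - vecMulVec v φ
  val_inv := by
    have h0 : vecMulVec v φ * vecMulVec v φ = 0 := by
      rw [vecMulVec_mul_vecMulVec, h, zero_smul]
      ext i j
      simp [vecMulVec]
    rw [add_mul, mul_sub, mul_sub, one_mul, mul_one, one_mul, h0]
    abel
  inv_val := by
    have h0 : vecMulVec v φ * vecMulVec v φ = 0 := by
      rw [vecMulVec_mul_vecMulVec, h, zero_smul]
      ext i j
      simp [vecMulVec]
    rw [sub_mul, mul_add, mul_add, one_mul, mul_one, one_mul, h0]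
    abel

theorem tv_val (v φ : ι → F) (h : φ ⬝ᵥ v = 0) :
    ((tv v φ h : GL ι F) : Matrix ι ι F) = 1 + vecMulVec v φ := rfl

theorem tv_mulVec (v φ : ι → F) (h : φ ⬝ᵥ v = 0) (x : ι → F) :
    ((tv v φ h : GL ι F) : Matrix ι ι F) *ᵥ x = x + (φ ⬝ᵥ x) • v := by
  rw [tv_val, add_mulVec, one_mulVec, vecMulVec_mulVec]
  congr 1
  ext i
  simp [mul_comm]

theorem tv_mem_SL (v φ : ι → F) (h : φ ⬝ᵥ v = 0) :
    tv v φ h ∈ Cfsg.Geo.specialLinear ι F := by
  unfold Cfsg.Geo.specialLinear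
  rw [MonoidHom.mem_ker]
  apply Units.ext
  rw [Matrix.GeneralLinearGroup.val_det_apply, tv_val, vecMulVec_eq Unit,
    det_one_add_replicateCol_mul_replicateRow, h, add_zero, Units.val_one]

theorem gl_inv_mulVec (g : GL ι F) (x : ι → F) :
    ((g⁻¹ : GL ι F) : Matrix ι ι F) *ᵥ ((g : Matrix ι ι F) *ᵥ x) = x := by
  rw [mulVec_mulVec, ← Units.val_mul, inv_mul_cancel, Units.val_one, one_mulVec]

theorem gl_mulVec_injective (g : GL ι F) :
    Function.Injective (fun x : ι → F => (g : Matrix ι ι F) *ᵥ x) := by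
  intro x y hxy
  have := congrArg (fun z => ((g⁻¹ : GL ι F) : Matrix ι ι F) *ᵥ z) hxy
  simpa [gl_inv_mulVec] using this

theorem mem_subspaceStabilizer_iff' (W : Submodule F (ι → F)) (g : GL ι F) :
    g ∈ Cfsg.Geo.subspaceStabilizer W ↔ ∀ x, x ∈ W ↔ (g : Matrix ι ι F) *ᵥ x ∈ W :=
  Iff.rfl

/-- an element fixing `W` pointwise stabilises it -/
theorem mem_stab_of_fix (W : Submodule F (ι → F)) (g : GL ι F)
    (hfix : ∀ x ∈ W, (g : Matrix ι ι F) *ᵥ x = x) : g ∈ Cfsg.Geo.subspaceStabilizer W := by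
  rw [mem_subspaceStabilizer_iff']
  intro x
  constructor
  · intro hx
    rw [hfix x hx]; exact hx
  · intro hgx
    have h2 := hfix _ hgx
    have := gl_mulVec_injective g h2
    rw [← this]; exact hgx

/-- a functional (as a dot product) vanishing on `W` but not at `x ∉ W` -/
theorem exists_dot_of_not_mem (W : Submodule F (ι → F)) (x : ι → F) (hx : x ∉ W) :
    ∃ φ : ι → F, (∀ w ∈ W, φ ⬝ᵥ w = 0) ∧ φ ⬝ᵥ x ≠ 0 := by
  obtain ⟨f, hfx, hfW⟩ := Submodule.exists_dual_map_eq_bot_of_notMem hx inferInstance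
  have hrep : ∀ y : ι → F, f y = (fun i => f (Pi.single i 1)) ⬝ᵥ y := by
    intro y
    rw [LinearMap.pi_apply_eq_sum_univ f y]
    simp only [dotProduct, smul_eq_mul]
    apply Finset.sum_congr rfl
    intro i _
    rw [mul_comm]
    congr 2
    ext j
    simp [Pi.single_apply, eq_comm]
  refine ⟨fun i => f (Pi.single i 1), ?_, ?_⟩
  · intro w hw
    rw [← hrep]
    have : f w ∈ W.map f := ⟨w, hw, rfl⟩
    rw [hfW] at this
    simpa using this
  · rw [← hrep]; exact hfx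

/-- a vector of `ker φ` outside a proper subspace `U` on which `φ` does not vanish -/
theorem exists_ker_not_mem (φ : ι → F) (U : Submodule F (ι → F)) (u0 : ι → F) (hu0 : u0 ∈ U)
    (hφ : φ ⬝ᵥ u0 ≠ 0) (hU : U ≠ ⊤) : ∃ v, φ ⬝ᵥ v = 0 ∧ v ∉ U := by
  obtain ⟨y, hy⟩ : ∃ y, y ∉ U := by
    by_contra hcon
    exact hU (eq_top_iff.mpr fun y _ => by_contra fun hy => hcon ⟨y, hy⟩)
  refine ⟨y - ((φ ⬝ᵥ y) / (φ ⬝ᵥ u0)) • u0, ?_, ?_⟩
  · rw [dotProduct_sub, dotProduct_smul, smul_eq_mul, div_mul_cancel₀ _ hφ, sub_self]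
  · intro hmem
    apply hy
    have := U.add_mem hmem (U.smul_mem ((φ ⬝ᵥ y) / (φ ⬝ᵥ u0)) hu0)
    rwa [sub_add_cancel] at this

/-- an element of `SL` fixing `W` pointwise and not stabilising `U`, when `U ≠ ⊤` and `U ⊄ W` -/
theorem exists_SL_fix_not_stab (W U : Submodule F (ι → F)) (hU1 : U ≠ ⊤) (hUW : ¬ U ≤ W) :
    ∃ g : GL ι F, g ∈ Cfsg.Geo.specialLinear ι F ∧ (∀ x ∈ W, (g : Matrix ι ι F) *ᵥ x = x) ∧
      g ∉ Cfsg.Geo.subspaceStabilizer U := by
  obtain ⟨u0, hu0U, hu0W⟩ := Set.not_subset.mp hUW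
  obtain ⟨φ, hφW, hφu⟩ := exists_dot_of_not_mem W u0 hu0W
  obtain ⟨v, hφv, hvU⟩ := exists_ker_not_mem φ U u0 hu0U hφu hU1
  refine ⟨tv v φ hφv, tv_mem_SL v φ hφv, ?_, ?_⟩
  · intro x hx
    rw [tv_mulVec, hφW x hx, zero_smul, add_zero]
  · intro hstab
    rw [mem_subspaceStabilizer_iff'] at hstab
    have h1 := (hstab u0).mp hu0U
    rw [tv_mulVec] at h1
    have h2 := U.sub_mem h1 hu0U
    rw [add_sub_cancel_left] at h2
    have h3 := U.smul_mem (φ ⬝ᵥ u0)⁻¹ h2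
    rw [smul_smul, inv_mul_cancel₀ hφu, one_smul] at h3
    exact hvU h3

/-- For `W ≠ ⊥, ⊤`, `U ≠ ⊤`, `U ⊄ W`: the stabiliser of the pair in `SL` is properly contained
in the stabiliser of `W` in `SL`, which is a proper subgroup of `SL`. -/
theorem stab_pair_lt_stab_lt (W U : Submodule F (ι → F)) (hW0 : W ≠ ⊥) (hW1 : W ≠ ⊤)
    (hU1 : U ≠ ⊤) (hUW : ¬ U ≤ W) :
    Cfsg.Geo.subspaceStabilizer W ⊓ Cfsg.Geo.subspaceStabilizer U ⊓ Cfsg.Geo.specialLinear ι F <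
        Cfsg.Geo.subspaceStabilizer W ⊓ Cfsg.Geo.specialLinear ι F ∧
      Cfsg.Geo.subspaceStabilizer W ⊓ Cfsg.Geo.specialLinear ι F < Cfsg.Geo.specialLinear ι F := by
  constructor
  · rw [SetLike.lt_iff_le_and_exists]
    refine ⟨fun g hg => ⟨hg.1.1, hg.2⟩, ?_⟩
    obtain ⟨g, hgSL, hgfix, hgU⟩ := exists_SL_fix_not_stab W U hU1 hUW
    exact ⟨g, ⟨mem_stab_of_fix W g hgfix, hgSL⟩, fun hg => hgU hg.1.2⟩
  · rw [SetLike.lt_iff_le_and_exists]
    refine ⟨inf_le_right, ?_⟩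
    have hWbot : ¬ W ≤ (⊥ : Submodule F (ι → F)) := fun h => hW0 (le_bot_iff.mp h)
    obtain ⟨g, hgSL, _, hgW⟩ := exists_SL_fix_not_stab ⊥ W hW1 hWbot
    exact ⟨g, hgSL, fun hg => hgW hg.1⟩

end Transv

end Cfsg.Agent.Helper93
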