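import Mathlib
import Cfsg.Prelude.Def_GeometricClasses
import Cfsg.Agent.Helper93.Transv

/-!
Generation of `SL` by transvections (in the form `tv v φ`) and maximality of the
stabiliser of a subspace in `SL`.
-/

set_option autoImplicit false

namespace Cfsg.Agent.Helper93

open Matrix

section TransvMax

variable {ι : Type} [Fintype ι] [DecidableEq ι] {F : Type*} [Field F]

/-- a transvection with centre `u = h w` is a conjugate of one with centre `w` -/
theorem tv_eq_conj (h : GL ι F) (w u ψ : ι → F) (hu : h.val *ᵥ w = u) (hψ : ψ ⬝ᵥ u = 0) :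
    ∃ hφ : (ψ ᵥ* h.val) ⬝ᵥ w = 0, tv u ψ hψ = h * tv w (ψ ᵥ* h.val) hφ * h⁻¹ := by
  have hφ : (ψ ᵥ* h.val) ⬝ᵥ w = 0 := by
    rw [← Matrix.dotProduct_mulVec, hu, hψ]
  refine ⟨hφ, ?_⟩
  apply Units.ext
  rw [Units.val_mul, Units.val_mul, tv_val, tv_val, mul_add, add_mul, mul_one, mul_vecMulVec,
    vecMulVec_mul, hu, Matrix.vecMul_vecMul, ← Units.val_mul, mul_inv_cancel, Units.val_one,
    Matrix.vecMul_one]

theorem tv_mem_stab_of_mem (W : Submodule F (ι → F)) (v φ : ι → F) (h : φ ⬝ᵥ v = 0)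
    (hv : v ∈ W) : tv v φ h ∈ Cfsg.Geo.subspaceStabilizer W := by
  rw [mem_subspaceStabilizer_iff']
  intro x
  rw [tv_mulVec]
  constructor
  · intro hx
    exact W.add_mem hx (W.smul_mem _ hv)
  · intro hx
    have := W.sub_mem hx (W.smul_mem (φ ⬝ᵥ x) hv)
    rwa [add_sub_cancel_right] at this

/-- a functional (as dot product) vanishing on `W` with value `1` at `x ∉ W` -/
theorem exists_dot_one (W : Submodule F (ι → F)) (x : ι → F) (hx : x ∉ W) :
    ∃ φ : ι → F, (∀ w ∈ W, φ ⬝ᵥ w = 0) ∧ φ ⬝ᵥ x = 1 := by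
  obtain ⟨φ0, hφW, hφx⟩ := exists_dot_of_not_mem W x hx
  refine ⟨(φ0 ⬝ᵥ x)⁻¹ • φ0, ?_, ?_⟩
  · intro w hw
    rw [smul_dotProduct, hφW w hw, smul_zero]
  · rw [smul_dotProduct, smul_eq_mul, inv_mul_cancel₀ hφx]

/-- moving a suitable vector of a scalar-closed set `W'` onto `u ∉ W` by an element of the
stabiliser of `W` in `SL` -/
theorem exists_tv_move (W : Submodule F (ι → F)) (W' : Set (ι → F))
    (hsmul : ∀ c : F, ∀ x ∈ W', c • x ∈ W') (w1 : ι → F) (hw1 : w1 ∈ W') (hw1W : w1 ∉ W)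
    (u : ι → F) (hu : u ∉ W) :
    ∃ w' ∈ W', ∃ t : GL ι F,
      t ∈ Cfsg.Geo.subspaceStabilizer W ⊓ Cfsg.Geo.specialLinear ι F ∧ t.val *ᵥ w' = u := by
  by_cases hex : ∃ w' ∈ W', u - w' ∈ W
  · obtain ⟨w', hw', hd⟩ := hex
    have hw'W : w' ∉ W := by
      intro hmem
      apply hu
      have := W.add_mem hd hmem
      rwa [sub_add_cancel] at this
    obtain ⟨φ, hφW, hφw⟩ := exists_dot_one W w' hw'W
    have h0 : φ ⬝ᵥ (u - w') = 0 := hφW _ hd
    refine ⟨w', hw', tv (u - w') φ h0, ⟨tv_mem_stab_of_mem W _ _ h0 hd, tv_mem_SL _ _ h0⟩, ?_⟩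
    rw [tv_mulVec, hφw, one_smul, add_sub_cancel]
  · have hex' : ∀ w' ∈ W', u - w' ∉ W := fun w' hw' hd => hex ⟨w', hw', hd⟩
    have hw1W1 : w1 ∉ W ⊔ Submodule.span F {u - w1} := by
      intro hmem
      rw [Submodule.mem_sup] at hmem
      obtain ⟨w, hw, z, hz, hwz⟩ := hmem
      rw [Submodule.mem_span_singleton] at hz
      obtain ⟨c, rfl⟩ := hz
      by_cases hc : c = 0
      · rw [hc, zero_smul, add_zero] at hwz
        exact hw1W (hwz ▸ hw)
      · apply hex' (((1 + c) / c) • w1) (hsmul _ w1 hw1)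
        have hueq : u - ((1 + c) / c) • w1 = (-c⁻¹) • w := by
          have h1 : w = w1 - c • (u - w1) := eq_sub_of_add_eq hwz
          rw [h1]
          ext k
          simp only [Pi.sub_apply, Pi.smul_apply, smul_eq_mul]
          field_simp
          ring
        rw [hueq]
        exact W.smul_mem _ hw
    obtain ⟨φ, hφW1, hφw⟩ := exists_dot_one _ w1 hw1W1
    have hφW : ∀ w ∈ W, φ ⬝ᵥ w = 0 := fun w hw => hφW1 w (Submodule.mem_sup_left hw)
    have h0 : φ ⬝ᵥ (u - w1) = 0 :=
      hφW1 _ (Submodule.mem_sup_right (Submodule.mem_span_singleton_self _))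
    refine ⟨w1, hw1, tv (u - w1) φ h0, ⟨mem_stab_of_fix W _ ?_, tv_mem_SL _ _ h0⟩, ?_⟩
    · intro x hx
      rw [tv_mulVec, hφW x hx, zero_smul, add_zero]
    · rw [tv_mulVec, hφw, one_smul, add_sub_cancel]

/-- an overgroup of the stabiliser of `W` in `SL` containing an element moving `W` contains all
transvections -/
theorem all_tv_mem (W : Submodule F (ι → F)) (M : Subgroup (GL ι F))
    (hPM : Cfsg.Geo.subspaceStabilizer W ⊓ Cfsg.Geo.specialLinear ι F ≤ M) (g : GL ι F)
    (hgM : g ∈ M) (w0 : ι → F) (hw0 : w0 ∈ W) (hgw0 : g.val *ᵥ w0 ∉ W) (u ψ : ι → F)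
    (hψ : ψ ⬝ᵥ u = 0) : tv u ψ hψ ∈ M := by
  by_cases huW : u ∈ W
  · exact hPM ⟨tv_mem_stab_of_mem W u ψ hψ huW, tv_mem_SL u ψ hψ⟩
  · obtain ⟨w', ⟨w, hw, rfl⟩, t, ht, htw⟩ := exists_tv_move W {y | ∃ w ∈ W, g.val *ᵥ w = y}
      (by
        rintro c x ⟨w, hw, rfl⟩
        exact ⟨c • w, W.smul_mem c hw, Matrix.mulVec_smul _ _ _⟩)
      (g.val *ᵥ w0) ⟨w0, hw0, rfl⟩ hgw0 u huW
    have hh : (t * g).val *ᵥ w = u := by
      rw [Units.val_mul, ← mulVec_mulVec, htw]
    obtain ⟨hφ, heq⟩ := tv_eq_conj (t * g) w u ψ hh hψ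
    rw [heq]
    have htgM : t * g ∈ M := M.mul_mem (hPM ht) hgM
    exact M.mul_mem (M.mul_mem htgM
      (hPM ⟨tv_mem_stab_of_mem W w _ hφ hw, tv_mem_SL _ _ _⟩)) (M.inv_mem htgM)

/-- the diagonal matrix `diag(c, c⁻¹)` in coordinates `i ≠ j` is a product of six
transvections -/
theorem diag2_eq_prod {i j : ι} (hij : i ≠ j) (c : F) (hc : c ≠ 0) (g : GL ι F)
    (hg : g.val = diagonal (fun k => if k = i then c else if k = j then c⁻¹ else 1))
    (M : Subgroup (GL ι F)) (hM : ∀ (u ψ : ι → F) (h : ψ ⬝ᵥ u = 0), tv u ψ h ∈ M) :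
    g ∈ M := by
  have hA : ∀ a : F, (Pi.single j (1 : F) : ι → F) ⬝ᵥ (Pi.single i a : ι → F) = 0 := by
    intro a
    rw [single_dotProduct, one_mul, Pi.single_apply, if_neg (Ne.symm hij)]
  have hB : ∀ b : F, (Pi.single i (1 : F) : ι → F) ⬝ᵥ (Pi.single j b : ι → F) = 0 := by
    intro b
    rw [single_dotProduct, one_mul, Pi.single_apply, if_neg hij]
  have key : g = tv (Pi.single i c) (Pi.single j 1) (hA c) *
      tv (Pi.single j (-c⁻¹)) (Pi.single i 1) (hB _) *
      tv (Pi.single i c) (Pi.single j 1) (hA c) *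
      tv (Pi.single i (-1)) (Pi.single j 1) (hA _) *
      tv (Pi.single j 1) (Pi.single i 1) (hB _) *
      tv (Pi.single i (-1)) (Pi.single j 1) (hA _) := by
    apply Units.ext
    apply Matrix.toLin'.injective
    apply LinearMap.ext
    intro x
    simp only [Matrix.toLin'_apply, Units.val_mul, ← mulVec_mulVec, tv_mulVec, hg]
    ext k
    by_cases hki : k = i
    · subst hki
      simp [mulVec_diagonal, single_dotProduct, hij, Ne.symm hij]
      field_simp
      ring
    · by_cases hkj : k = j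
      · subst hkj
        simp [mulVec_diagonal, single_dotProduct, hij, Ne.symm hij]
        field_simp
        ring
      · simp [mulVec_diagonal, single_dotProduct, Pi.single_apply, hki, hkj]
  rw [key]
  exact M.mul_mem (M.mul_mem (M.mul_mem (M.mul_mem (M.mul_mem (hM _ _ _) (hM _ _ _))
    (hM _ _ _)) (hM _ _ _)) (hM _ _ _)) (hM _ _ _)

/-- a subgroup of `GL` containing all transvections contains `SL` -/
theorem SL_le_of_all_tv [Nontrivial ι] (M : Subgroup (GL ι F))
    (hM : ∀ (u ψ : ι → F) (h : ψ ⬝ᵥ u = 0), tv u ψ h ∈ M) :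
    Cfsg.Geo.specialLinear ι F ≤ M := by
  intro g hg
  have hdet : g.val.det = 1 := by
    have h1 := MonoidHom.mem_ker.mp hg
    have h2 := congrArg Units.val h1
    simpa using h2
  have key : ∀ s : Matrix.SpecialLinearGroup ι F, ∀ g : GL ι F, g.val = s.val → g ∈ M := by
    intro s
    refine Matrix.SpecialLinearGroup.diagonal_transvection_induction'
      (fun s => ∀ g : GL ι F, g.val = s.val → g ∈ M) s ?_ ?_ ?_
    · intro i j hij c hc g hg
      exact diag2_eq_prod hij c hc g hg M hM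
    · intro i j hij a g hg
      have h0 : (Pi.single j (1 : F) : ι → F) ⬝ᵥ (Pi.single i a : ι → F) = 0 := by
        rw [single_dotProduct, one_mul, Pi.single_apply, if_neg (Ne.symm hij)]
      have : g = tv (Pi.single i a) (Pi.single j 1) h0 := by
        apply Units.ext
        rw [hg, tv_val, Matrix.SpecialLinearGroup.transvection_coe]
        congr 1
        ext k l
        rw [Matrix.single_apply, vecMulVec_apply, Pi.single_apply, Pi.single_apply]
        by_cases h1 : k = i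
        · by_cases h2 : l = j
          · rw [if_pos ⟨h1.symm, h2.symm⟩, if_pos h1, if_pos h2, mul_one]
          · rw [if_neg (fun h => h2 h.2.symm), if_pos h1, if_neg h2, mul_zero]
        · rw [if_neg (fun h => h1 h.1.symm), if_neg h1, zero_mul]
      rw [this]
      exact hM _ _ _
    · intro A B hA hB g hg
      have : g = Matrix.SpecialLinearGroup.toGL A * Matrix.SpecialLinearGroup.toGL B := by
        apply Units.ext
        rw [hg]
        rfl
      rw [this]
      exact M.mul_mem (hA _ rfl) (hB _ rfl)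
  exact key ⟨g.val, hdet⟩ g rfl

/-- **Maximality of the stabiliser of a proper non-zero subspace in `SL`.** -/
theorem stab_maximal [Nontrivial ι] (W : Submodule F (ι → F)) (hW0 : W ≠ ⊥) (hW1 : W ≠ ⊤) :
    Cfsg.Geo.IsMaximalIn (Cfsg.Geo.specialLinear ι F)
      (Cfsg.Geo.subspaceStabilizer W ⊓ Cfsg.Geo.specialLinear ι F) := by
  refine ⟨?_, ?_⟩
  · rw [SetLike.lt_iff_le_and_exists]
    refine ⟨inf_le_right, ?_⟩
    have hWbot : ¬ W ≤ (⊥ : Submodule F (ι → F)) := fun h => hW0 (le_bot_iff.mp h)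
    obtain ⟨g, hgSL, _, hgW⟩ := exists_SL_fix_not_stab ⊥ W hW1 hWbot
    exact ⟨g, hgSL, fun hg => hgW hg.1⟩
  · intro M hPM hMSL
    by_cases hMP : M = Cfsg.Geo.subspaceStabilizer W ⊓ Cfsg.Geo.specialLinear ι F
    · exact Or.inl hMP
    · right
      apply le_antisymm hMSL
      -- an element of M not stabilising W
      have hex : ∃ g ∈ M, g ∉ Cfsg.Geo.subspaceStabilizer W := by
        by_contra hcon
        apply hMP
        apply le_antisymm _ hPM
        intro g hg
        refine ⟨?_, hMSL hg⟩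
        by_contra hgs
        exact hcon ⟨g, hg, hgs⟩
      obtain ⟨g, hgM, hgs⟩ := hex
      -- some element of M maps a vector of W outside W
      have hex2 : ∃ g' ∈ M, ∃ w0 ∈ W, g'.val *ᵥ w0 ∉ W := by
        rw [mem_subspaceStabilizer_iff'] at hgs
        by_contra hcon
        apply hgs
        intro x
        constructor
        · intro hx
          by_contra hgx
          exact hcon ⟨g, hgM, x, hx, hgx⟩
        · intro hgx
          by_contra hx
          apply hcon
          refine ⟨g⁻¹, M.inv_mem hgM, g.val *ᵥ x, hgx, ?_⟩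
          rw [gl_inv_mulVec]
          exact hx
      obtain ⟨g', hg'M, w0, hw0, hgw0⟩ := hex2
      exact SL_le_of_all_tv M (fun u ψ h => all_tv_mem W M hPM g' hg'M w0 hw0 hgw0 u ψ h)

end TransvMax

end Cfsg.Agent.Helper93
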