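import Cfsg.Agent.Helper85.CXDefs

set_option autoImplicit false

namespace Cfsg.Agent.Helper93.CXIFF

open Cfsg Cfsg.FusionSystem Cfsg.Agent.Helper85 Cfsg.Agent.Helper88

variable {Ω : Type*} [Group Ω] {S : Subgroup Ω}

-- piece IFF
theorem inCX_iff {F : FusionSystem S} {T : Subgroup Ω} {E : FusionSystem T}
    (hsub : E.IsSubsystemOf F) (hTS : T ≤ S) {X : Subgroup Ω} (hX : X ≤ centralizerIn S T) :
    (∀ P : Subgroup Ω, E.Hom P ⊆ F.centralizerHom X P) ↔
      ∀ (P : Subgroup Ω) (f : Ω → Ω), IsMap E P f → FixX F X P f := by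
  constructor
  · intro h P f hf
    obtain ⟨φ, hφ, hφf⟩ := hf
    have hc : IsCMap F X P (extHom φ) := (mem_centralizerHom_iff F X φ).1 (h P hφ)
    obtain ⟨-, -, -, f', hf', h1, h2⟩ := hc
    refine ⟨f', hf', fun x hx => ?_, h2⟩
    rw [h1 x hx, extHom_apply' φ hx]
    exact hφf ⟨x, hx⟩
  · intro h P φ hφ
    rw [mem_centralizerHom_iff]
    have hE : IsMap E P (extHom φ) := isMap_extHom hφ
    obtain ⟨f', hf', h1, h2⟩ := h P (extHom φ) hE
    have hPT : P ≤ T := hE.le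
    have hcomm : ∀ t ∈ T, t ∈ centralizerIn S X := by
      intro t ht
      refine mem_centralizerIn_iff.2 ⟨hTS ht, fun w hw => ?_⟩
      exact ((mem_centralizerIn_iff.1 (hX hw)).2 t ht).symm
    exact ⟨isMap_of_isSubsystemOf hsub hE, fun y hy => hcomm y (hPT hy),
      fun y hy => hcomm _ (hE.mem hy), f', hf', h1, h2⟩

end Cfsg.Agent.Helper93.CXIFF
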