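/-
helper93: shared lemmas for CALL S0984 (helper82) pieces U4, V4S, BC, KJ: a Sylow 3-subgroup of
order 9, involutions acting on it.
-/
import Mathlib

set_option autoImplicit false

universe u

namespace Cfsg.Agent.Helper93

/-- a Sylow 3-subgroup of order 9 is abelian -/
theorem a7h_comm {G : Type u} [Group G] (P : Sylow 3 G) (hP9 : Nat.card (P : Subgroup G) = 9) :
    ∀ a ∈ (P : Subgroup G), ∀ b ∈ (P : Subgroup G), a * b = b * a := by
  have : Fact (Nat.Prime 3) := ⟨by norm_num⟩
  have h := IsPGroup.isMulCommutative_of_card_eq_prime_sq (p := 3) (G := (P : Subgroup G))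
    (by rw [hP9]; norm_num)
  intro a ha b hb
  have h1 := h.is_comm.comm ⟨a, ha⟩ ⟨b, hb⟩
  exact congrArg Subtype.val h1

/-- the order of a Sylow 3-subgroup of a group of order 2520 -/
theorem a7h_card_sylow3 {G : Type u} [Group G] [Finite G] (hG : Nat.card G = 2520)
    (P : Sylow 3 G) : Nat.card (P : Subgroup G) = 9 := by
  have : Fact (Nat.Prime 3) := ⟨by norm_num⟩
  rw [Sylow.card_eq_multiplicity, hG]
  have h : (2520 : ℕ) = 3 ^ 2 * 280 := by norm_num
  rw [h, Nat.factorization_mul (by norm_num) (by norm_num), Finsupp.add_apply,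
    Nat.Prime.factorization_pow (by norm_num), Finsupp.single_eq_same,
    Nat.factorization_eq_zero_of_not_dvd (by norm_num)]
  norm_num

/-- an involution cannot centralize `P` when `|C(P)| = 9` -/
theorem a7h_not_cent {G : Type u} [Group G] [Finite G] (P : Sylow 3 G)
    (hCP : Nat.card (Subgroup.centralizer ((P : Subgroup G) : Set G)) = 9) (τ : G)
    (hτ : orderOf τ = 2) (h : ∀ y ∈ (P : Subgroup G), τ * y * τ⁻¹ = y) : False := by
  have hmem : τ ∈ Subgroup.centralizer ((P : Subgroup G) : Set G) := by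
    rw [Subgroup.mem_centralizer_iff]
    intro y hy
    have h1 := h y hy
    calc y * τ = τ * y * τ⁻¹ * τ := by rw [h1]
      _ = τ * y := by group
  have hdvd := Subgroup.orderOf_dvd_natCard _ hmem
  rw [hτ, hCP] at hdvd
  omega

/-- an involution normalizing the abelian group `P` without nontrivial fixed points inverts it -/
theorem a7h_invert {G : Type u} [Group G] (P : Subgroup G)
    (hcomm : ∀ a ∈ P, ∀ b ∈ P, a * b = b * a) (s : G) (hs : s * s = 1)
    (hsN : ∀ y ∈ P, s * y * s⁻¹ ∈ P)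
    (hfix : ∀ y ∈ P, s * y = y * s → y = 1) : ∀ y ∈ P, s * y * s⁻¹ = y⁻¹ := by
  intro y hy
  have hw : y * (s * y * s⁻¹) ∈ P := P.mul_mem hy (hsN y hy)
  have h1 : s * (y * (s * y * s⁻¹)) = y * (s * y * s⁻¹) * s := by
    have h2 : s * (y * (s * y * s⁻¹)) * s⁻¹ = (s * y * s⁻¹) * (s * s * y * (s * s)⁻¹) := by group
    have h3 : s * (y * (s * y * s⁻¹)) * s⁻¹ = y * (s * y * s⁻¹) := by
      rw [h2, hs, one_mul, inv_one, mul_one]
      exact hcomm _ (hsN y hy) _ hy
    calc s * (y * (s * y * s⁻¹)) = s * (y * (s * y * s⁻¹)) * s⁻¹ * s := by group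
      _ = y * (s * y * s⁻¹) * s := by rw [h3]
  have h4 := hfix _ hw h1
  exact (eq_inv_of_mul_eq_one_right h4)

end Cfsg.Agent.Helper93
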