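/-
helper93: CALL S0984 (helper82), piece BC (`a7_complement`).
-/
import Mathlib
import Cfsg.Agent.Helper93.A7Inv

set_option autoImplicit false

universe u

namespace Cfsg.Agent.Helper93

theorem a7bc_mem_cent {G : Type u} [Group G] (x g : G) :
    g ∈ Subgroup.centralizer ({x} : Set G) ↔ g * x = x * g := by
  rw [Subgroup.mem_centralizer_iff]
  simp only [Set.mem_singleton_iff, forall_eq]
  exact eq_comm

/-- membership in the normalizer of `P ⊓ H` inside `H` -/
theorem a7bc_norm {G : Type u} [Group G] (P H : Subgroup G) (hPH : P ≤ H) (h : H)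
    (hh : h ∈ Subgroup.normalizer ((P.subgroupOf H : Subgroup H) : Set H)) :
    (h : G) ∈ Subgroup.normalizer (P : Set G) := by
  rw [Subgroup.mem_normalizer_iff]
  intro y
  constructor
  · intro hy
    have h1 := (Subgroup.mem_normalizer_iff.mp hh ⟨y, hPH hy⟩).mp (Subgroup.mem_subgroupOf.mpr hy)
    exact Subgroup.mem_subgroupOf.mp h1
  · intro hy
    have hyH : y ∈ H := by
      have h2 : y = (h : G)⁻¹ * ((h : G) * y * (h : G)⁻¹) * (h : G) := by group
      rw [h2]
      exact mul_mem (mul_mem (inv_mem h.2) (hPH hy)) h.2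
    have h1 := (Subgroup.mem_normalizer_iff.mp hh ⟨y, hyH⟩).mpr (Subgroup.mem_subgroupOf.mpr hy)
    exact Subgroup.mem_subgroupOf.mp h1

/-- Burnside's normal complement inside a subgroup `H ≥ P` in which `P` is self-normalizing -/
theorem a7bc_core {G : Type u} [Group G] [Finite G] (P : Sylow 3 G)
    (hcomm : ∀ a ∈ (P : Subgroup G), ∀ b ∈ (P : Subgroup G), a * b = b * a)
    (H : Subgroup G) (hPH : (P : Subgroup G) ≤ H)
    (hN : ∀ h ∈ H, h ∈ Subgroup.normalizer ((P : Subgroup G) : Set G) → h ∈ (P : Subgroup G)) :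
    ∃ L : Subgroup G, L ≤ H ∧ (∀ g ∈ H, ∀ l ∈ L, g * l * g⁻¹ ∈ L) ∧
      Nat.card L * Nat.card (P : Subgroup G) = Nat.card H := by
  classical
  have : Fact (Nat.Prime 3) := ⟨by norm_num⟩
  have hNC : Subgroup.normalizer ((P.subtype hPH : Sylow 3 H) : Set H) ≤
      Subgroup.centralizer ((P.subtype hPH : Sylow 3 H) : Set H) := by
    intro h hh
    have h1 : (h : G) ∈ (P : Subgroup G) := hN _ h.2 (a7bc_norm (P : Subgroup G) H hPH h hh)
    rw [Subgroup.mem_centralizer_iff]
    intro y hy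
    have hy' : (y : G) ∈ (P : Subgroup G) := Subgroup.mem_subgroupOf.mp hy
    exact Subtype.ext (hcomm _ hy' _ h1)
  have hcompl := MonoidHom.ker_transferSylow_isComplement' (P.subtype hPH) hNC
  have hcard := hcompl.card_mul_card
  have hP' : Nat.card ((P.subtype hPH : Sylow 3 H) : Subgroup H) = Nat.card (P : Subgroup G) :=
    Nat.card_congr (Subgroup.subgroupOfEquivOfLe hPH).toEquiv
  rw [hP'] at hcard
  refine ⟨(MonoidHom.transferSylow (P.subtype hPH) hNC).ker.map H.subtype, ?_, ?_, ?_⟩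
  · rintro _ ⟨l, -, rfl⟩
    exact l.2
  · intro g hgH l hl
    obtain ⟨l0, hl0, rfl⟩ := hl
    have hn : (MonoidHom.transferSylow (P.subtype hPH) hNC).ker.Normal := MonoidHom.normal_ker _
    have h3 := hn.conj_mem l0 hl0 ⟨g, hgH⟩
    refine Subgroup.mem_map.mpr ⟨_, h3, ?_⟩
    rw [map_mul, map_mul, map_inv]
    rfl
  · rw [Subgroup.card_subtype]
    exact hcard

/-- PIECE BC -/
theorem a7_complement {G : Type u} [Group G] [Finite G] (P : Sylow 3 G)
    (hP9 : Nat.card (P : Subgroup G) = 9) (x : G) (hxP : x ∈ (P : Subgroup G))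
    (hcent : ∀ m ∈ Subgroup.normalizer ((P : Subgroup G) : Set G), m * x = x * m →
      m ∈ (P : Subgroup G)) :
    ∃ L : Subgroup G, L ≤ Subgroup.centralizer ({x} : Set G) ∧
      (∀ g : G, g * x = x * g → ∀ l ∈ L, g * l * g⁻¹ ∈ L) ∧
      Nat.card L * 9 = Nat.card (Subgroup.centralizer ({x} : Set G)) := by
  have hcomm := a7h_comm P hP9
  have hPH : (P : Subgroup G) ≤ Subgroup.centralizer ({x} : Set G) :=
    fun y hy => (a7bc_mem_cent x y).mpr (hcomm y hy x hxP)
  obtain ⟨L, hL1, hL2, hL3⟩ := a7bc_core P hcomm (Subgroup.centralizer ({x} : Set G)) hPH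
    (fun h hh hn => hcent h hn ((a7bc_mem_cent x h).mp hh))
  rw [hP9] at hL3
  exact ⟨L, hL1, fun g hg l hl => hL2 g ((a7bc_mem_cent x g).mpr hg) l hl, hL3⟩

end Cfsg.Agent.Helper93
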