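/-
helper93: CALL S0984 (helper82), piece KJ (`a7_cent_card`).
-/
import Mathlib
import Cfsg.Agent.Helper93.A7BC

set_option autoImplicit false

universe u

namespace Cfsg.Agent.Helper93

/-- Sylow counting in a subgroup `H ≥ P, Q` in which `P` is self-normalizing -/
theorem a7kj_core {G : Type u} [Group G] [Finite G] (P Q : Sylow 3 G) (hQ : Q ≠ P)
    (H : Subgroup G) (hPH : (P : Subgroup G) ≤ H) (hQH : (Q : Subgroup G) ≤ H)
    (hN : ∀ h ∈ H, h ∈ Subgroup.normalizer ((P : Subgroup G) : Set G) → h ∈ (P : Subgroup G)) :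
    ∃ n : ℕ, Nat.card H = Nat.card (P : Subgroup G) * n ∧ n % 3 = 1 ∧ 1 < n := by
  classical
  have : Fact (Nat.Prime 3) := ⟨by norm_num⟩
  have hnorm : Subgroup.normalizer ((P.subtype hPH : Sylow 3 H) : Set H) =
      ((P.subtype hPH : Sylow 3 H) : Subgroup H) := by
    apply le_antisymm
    · intro h hh
      exact Subgroup.mem_subgroupOf.mpr (hN _ h.2 (a7bc_norm (P : Subgroup G) H hPH h hh))
    · exact Subgroup.le_normalizer
  have h1 : Nat.card (Sylow 3 H) = ((P.subtype hPH : Sylow 3 H) : Subgroup H).index := by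
    rw [← hnorm]
    exact Sylow.card_eq_index_normalizer (P.subtype hPH)
  have h2 := Subgroup.card_mul_index ((P.subtype hPH : Sylow 3 H) : Subgroup H)
  have hP' : Nat.card ((P.subtype hPH : Sylow 3 H) : Subgroup H) = Nat.card (P : Subgroup G) :=
    Nat.card_congr (Subgroup.subgroupOfEquivOfLe hPH).toEquiv
  rw [hP', ← h1] at h2
  refine ⟨Nat.card (Sylow 3 H), h2.symm, ?_, ?_⟩
  · exact card_sylow_modEq_one 3 H
  · rw [Finite.one_lt_card_iff_nontrivial]
    exact ⟨⟨P.subtype hPH, Q.subtype hQH, fun h => hQ (Sylow.subtype_injective h).symm⟩⟩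

/-- PIECE KJ -/
theorem a7_cent_card {G : Type u} [Group G] [Finite G] [IsSimpleGroup G]
    (hG : Nat.card G = 2520)
    (hC7 : ∀ P : Sylow 7 G, Nat.card (Subgroup.centralizer ((P : Subgroup G) : Set G)) = 7)
    (hidx : ∀ H : Subgroup G, H ≠ ⊤ → 7 ≤ H.index)
    (P Q : Sylow 3 G) (hQ : Q ≠ P) (x : G) (hxP : x ∈ (P : Subgroup G))
    (hxQ : x ∈ (Q : Subgroup G)) (hx : orderOf x = 3)
    (hcent : ∀ m ∈ Subgroup.normalizer ((P : Subgroup G) : Set G), m * x = x * m →
      m ∈ (P : Subgroup G)) :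
    Nat.card (Subgroup.centralizer ({x} : Set G)) = 36 ∨
      Nat.card (Subgroup.centralizer ({x} : Set G)) = 90 ∨
      Nat.card (Subgroup.centralizer ({x} : Set G)) = 360 := by
  classical
  have hP9 := a7h_card_sylow3 hG P
  have hQ9 := a7h_card_sylow3 hG Q
  have hPH : (P : Subgroup G) ≤ Subgroup.centralizer ({x} : Set G) :=
    fun y hy => (a7bc_mem_cent x y).mpr (a7h_comm P hP9 y hy x hxP)
  have hQH : (Q : Subgroup G) ≤ Subgroup.centralizer ({x} : Set G) :=
    fun y hy => (a7bc_mem_cent x y).mpr (a7h_comm Q hQ9 y hy x hxQ)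
  obtain ⟨n, hn1, hn2, hn3⟩ := a7kj_core P Q hQ _ hPH hQH
    (fun h hh hn => hcent h hn ((a7bc_mem_cent x h).mp hh))
  rw [hP9] at hn1
  have h7 : ¬ 7 ∣ Nat.card (Subgroup.centralizer ({x} : Set G)) := by
    intro hd
    have : Fact (Nat.Prime 7) := ⟨by norm_num⟩
    obtain ⟨z, hz⟩ := exists_prime_orderOf_dvd_card'
      (G := Subgroup.centralizer ({x} : Set G)) 7 hd
    have hz7 : orderOf (z : G) = 7 := by
      rw [Subgroup.orderOf_coe]
      exact hz
    have hzx : (z : G) * x = x * (z : G) := (a7bc_mem_cent x _).mp z.2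
    have hpg : IsPGroup 7 (Subgroup.zpowers (z : G)) :=
      IsPGroup.of_card (n := 1) (by rw [Nat.card_zpowers, hz7, pow_one])
    obtain ⟨S, hS⟩ := hpg.exists_le_sylow
    have hS7 : Nat.card (S : Subgroup G) = 7 := by
      rw [Sylow.card_eq_multiplicity, hG]
      have h : (2520 : ℕ) = 7 ^ 1 * 360 := by norm_num
      rw [h, Nat.factorization_mul (by norm_num) (by norm_num), Finsupp.add_apply,
        Nat.Prime.factorization_pow (by norm_num), Finsupp.single_eq_same,
        Nat.factorization_eq_zero_of_not_dvd (by norm_num)]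
      norm_num
    have hSz : Subgroup.zpowers (z : G) = (S : Subgroup G) :=
      Subgroup.eq_of_le_of_card_ge hS (by rw [hS7, Nat.card_zpowers, hz7])
    have hxC : x ∈ Subgroup.centralizer ((S : Subgroup G) : Set G) := by
      rw [Subgroup.mem_centralizer_iff]
      intro y hy
      have hy' : y ∈ Subgroup.zpowers (z : G) := by rw [hSz]; exact hy
      obtain ⟨j, rfl⟩ := Subgroup.mem_zpowers_iff.mp hy'
      have hc : Commute (z : G) x := hzx
      exact (hc.zpow_left j).eq
    have hdv := Subgroup.orderOf_dvd_natCard _ hxC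
    rw [hx, hC7 S] at hdv
    omega
  have hmul := Subgroup.card_mul_index (Subgroup.centralizer ({x} : Set G))
  rw [hG] at hmul
  obtain ⟨c, hc⟩ : ∃ c, c = Nat.card (Subgroup.centralizer ({x} : Set G)) := ⟨_, rfl⟩
  obtain ⟨i, hi⟩ : ∃ i, i = (Subgroup.centralizer ({x} : Set G)).index := ⟨_, rfl⟩
  rw [← hc] at hn1 h7 hmul ⊢
  rw [← hi] at hmul
  subst hn1
  have hn40 : n ∣ 40 := by
    have h1 : n ∣ 280 := by
      have h0 : 9 * n ∣ 9 * 280 := ⟨i, by omega⟩
      exact Nat.dvd_of_mul_dvd_mul_left (by norm_num) h0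
    have h2 : Nat.Coprime n 7 := by
      rw [Nat.coprime_comm]
      apply (Nat.Prime.coprime_iff_not_dvd (by norm_num)).mpr
      intro h
      exact h7 (Dvd.dvd.mul_left h 9)
    have h3 : n ∣ 7 * 40 := h1
    exact h2.dvd_of_dvd_mul_left h3
  have hmem : n ∈ Nat.divisors 40 := Nat.mem_divisors.mpr ⟨hn40, by norm_num⟩
  have h40 : Nat.divisors 40 = {1, 2, 4, 5, 8, 10, 20, 40} := by decide
  rw [h40] at hmem
  simp only [Finset.mem_insert, Finset.mem_singleton] at hmem
  rcases hmem with rfl | rfl | rfl | rfl | rfl | rfl | rfl | rfl <;> omega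

end Cfsg.Agent.Helper93
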