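/-
helper93: CALL S0984 (helper82), piece U4 (`a7_sq_invert`).
-/
import Mathlib
import Cfsg.Agent.Helper93.A7Inv

set_option autoImplicit false

universe u

namespace Cfsg.Agent.Helper93

theorem a7u4_zmod3 : ∀ r : ZMod 3, r * r + 1 ≠ 0 := by decide

/-- PIECE U4 -/
theorem a7_sq_invert {G : Type u} [Group G] [Finite G] (P : Sylow 3 G)
    (hP9 : Nat.card (P : Subgroup G) = 9)
    (hCP : Nat.card (Subgroup.centralizer ((P : Subgroup G) : Set G)) = 9)
    (u : G) (huN : u ∈ Subgroup.normalizer ((P : Subgroup G) : Set G)) (hu : orderOf u = 4) :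
    ∀ y ∈ (P : Subgroup G), u * u * y * (u * u)⁻¹ = y⁻¹ := by
  classical
  have hcomm := a7h_comm P hP9
  obtain ⟨τ, hτdef⟩ : ∃ τ : G, τ = u * u := ⟨_, rfl⟩
  rw [← hτdef]
  have hτ2 : τ * τ = 1 := by
    have h1 := pow_orderOf_eq_one u
    rw [hu] at h1
    rw [hτdef]
    calc u * u * (u * u) = u ^ 4 := by rw [show (4 : ℕ) = 2 + 2 from rfl, pow_add, pow_two]
      _ = 1 := h1
  have hτord : orderOf τ = 2 := by
    have h1 : τ = u ^ 2 := by rw [hτdef, pow_two]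
    rw [h1, orderOf_pow' u (by norm_num), hu]
    rfl
  have huP : ∀ y ∈ (P : Subgroup G), u * y * u⁻¹ ∈ (P : Subgroup G) :=
    fun y hy => (Subgroup.mem_normalizer_iff.mp huN y).mp hy
  have hτN : ∀ y ∈ (P : Subgroup G), τ * y * τ⁻¹ ∈ (P : Subgroup G) := by
    intro y hy
    have h1 : τ * y * τ⁻¹ = u * (u * y * u⁻¹) * u⁻¹ := by rw [hτdef]; group
    rw [h1]
    exact huP _ (huP y hy)
  -- the subgroup of inverted elements
  let I : Subgroup G :=
    { carrier := {y | y ∈ (P : Subgroup G) ∧ τ * y * τ⁻¹ = y⁻¹}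
      mul_mem' := by
        rintro a b ⟨ha, ha'⟩ ⟨hb, hb'⟩
        refine ⟨mul_mem ha hb, ?_⟩
        have h1 : τ * (a * b) * τ⁻¹ = (τ * a * τ⁻¹) * (τ * b * τ⁻¹) := by group
        rw [h1, ha', hb', ← mul_inv_rev, hcomm b hb a ha]
      one_mem' := ⟨one_mem _, by simp⟩
      inv_mem' := by
        rintro a ⟨ha, ha'⟩
        refine ⟨inv_mem ha, ?_⟩
        have h1 : τ * a⁻¹ * τ⁻¹ = (τ * a * τ⁻¹)⁻¹ := by group
        rw [h1, ha'] }
  have hIP : I ≤ (P : Subgroup G) := fun y hy => hy.1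
  have hdvd : Nat.card I ∣ 9 := hP9 ▸ Subgroup.card_dvd_of_le hIP
  have hmemI : ∀ y ∈ (P : Subgroup G), y⁻¹ * (τ * y * τ⁻¹) ∈ I := by
    intro y hy
    refine ⟨mul_mem (inv_mem hy) (hτN y hy), ?_⟩
    calc τ * (y⁻¹ * (τ * y * τ⁻¹)) * τ⁻¹
        = τ * y⁻¹ * τ⁻¹ * ((τ * τ) * y * (τ * τ)⁻¹) := by group
      _ = τ * y⁻¹ * τ⁻¹ * y := by rw [hτ2]; group
      _ = (y⁻¹ * (τ * y * τ⁻¹))⁻¹ := by group
  have hcard : Nat.card I = 1 ∨ Nat.card I = 3 ∨ Nat.card I = 9 := by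
    have h1 : Nat.card I ∈ Nat.divisors 9 := Nat.mem_divisors.mpr ⟨hdvd, by norm_num⟩
    have h9 : Nat.divisors 9 = {1, 3, 9} := by decide
    rw [h9] at h1
    simpa using h1
  rcases hcard with h1 | h3 | h9
  · exfalso
    have hbot : I = ⊥ := Subgroup.card_eq_one.mp h1
    apply a7h_not_cent P hCP τ hτord
    intro y hy
    have h2 := hmemI y hy
    rw [hbot, Subgroup.mem_bot] at h2
    exact (inv_mul_eq_one.mp h2).symm
  · exfalso
    obtain ⟨e, heI, he1⟩ : ∃ e ∈ I, e ≠ 1 := by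
      by_contra hcon
      push Not at hcon
      have h2 : I = ⊥ := (Subgroup.eq_bot_iff_forall _).mpr hcon
      rw [h2] at h3
      simp at h3
    have he3 : orderOf e = 3 := by
      have hd := Subgroup.orderOf_dvd_natCard I heI
      rw [h3] at hd
      rcases (Nat.dvd_prime (by norm_num : Nat.Prime 3)).mp hd with h | h
      · exact absurd (orderOf_eq_one_iff.mp h) he1
      · exact h
    have hueI : u * e * u⁻¹ ∈ I := by
      refine ⟨huP e heI.1, ?_⟩
      have h2 : τ * (u * e * u⁻¹) * τ⁻¹ = u * (τ * e * τ⁻¹) * u⁻¹ := by rw [hτdef]; group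
      rw [h2, heI.2]
      group
    have hIz : Subgroup.zpowers e = I := by
      apply Subgroup.eq_of_le_of_card_ge (Subgroup.zpowers_le.mpr heI)
      rw [Nat.card_zpowers, he3, h3]
    rw [← hIz] at hueI
    obtain ⟨j, hj⟩ := Subgroup.mem_zpowers_iff.mp hueI
    have h4 : τ * e * τ⁻¹ = e ^ (j * j) := by
      have h5 : τ * e * τ⁻¹ = u * (u * e * u⁻¹) * u⁻¹ := by rw [hτdef]; group
      rw [h5, ← hj, ← conj_zpow, ← hj, ← zpow_mul]
    rw [heI.2] at h4
    have h6 : e ^ (j * j + 1) = 1 := by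
      rw [zpow_add, ← h4, zpow_one, inv_mul_cancel]
    have h7 := (orderOf_dvd_iff_zpow_eq_one).mpr h6
    rw [he3] at h7
    have h8 : ((j * j + 1 : ℤ) : ZMod 3) = 0 := by
      exact (ZMod.intCast_zmod_eq_zero_iff_dvd (j * j + 1) 3).mpr (by exact_mod_cast h7)
    push_cast at h8
    exact a7u4_zmod3 _ h8
  · intro y hy
    have hIP' : I = (P : Subgroup G) := Subgroup.eq_of_le_of_card_ge hIP (by rw [h9, hP9])
    have h2 : y ∈ I := hIP' ▸ hy
    exact h2.2

end Cfsg.Agent.Helper93
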