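/-
helper93: CALL S0984 (helper82), piece V4S (`a7_v4_fixed`).
-/
import Mathlib
import Cfsg.Agent.Helper93.A7Inv

set_option autoImplicit false

universe u

namespace Cfsg.Agent.Helper93

theorem a7v4s_two_ne {α : Type*} [Finite α] (h : 2 < Nat.card α) (o : α) :
    ∃ a b : α, a ≠ o ∧ b ≠ o ∧ a ≠ b := by
  classical
  have := Fintype.ofFinite α
  rw [Nat.card_eq_fintype_card] at h
  obtain ⟨a, b, c, hab, hac, hbc⟩ := Fintype.two_lt_card_iff.mp h
  by_cases ha : a = o
  · exact ⟨b, c, fun h => hab (ha.trans h.symm), fun h => hac (ha.trans h.symm), hbc⟩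
  · by_cases hb : b = o
    · exact ⟨a, c, ha, fun h => hbc (hb.trans h.symm), hac⟩
    · exact ⟨a, b, ha, hb, hab⟩

/-- PIECE V4S -/
theorem a7_v4_fixed {G : Type u} [Group G] [Finite G]
    (hG : Nat.card G = 2520) (h70 : Nat.card (Sylow 3 G) = 70) (P : Sylow 3 G)
    (hCP : Nat.card (Subgroup.centralizer ((P : Subgroup G) : Set G)) = 9)
    (h4 : ∀ u ∈ Subgroup.normalizer ((P : Subgroup G) : Set G), orderOf u ≠ 4) :
    ∃ s : G, s ∈ Subgroup.normalizer ((P : Subgroup G) : Set G) ∧ orderOf s = 2 ∧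
      ∃ y : G, y ∈ (P : Subgroup G) ∧ y ≠ 1 ∧ s * y = y * s := by
  classical
  have : Fact (Nat.Prime 3) := ⟨by norm_num⟩
  have : Fact (Nat.Prime 2) := ⟨by norm_num⟩
  have hP9 := a7h_card_sylow3 hG P
  have hcomm := a7h_comm P hP9
  have hN : Nat.card (Subgroup.normalizer ((P : Subgroup G) : Set G)) = 36 := by
    have h1 : Nat.card (Sylow 3 G) = (Subgroup.normalizer ((P : Subgroup G) : Set G)).index :=
      Sylow.card_eq_index_normalizer P
    have h2 := Subgroup.card_mul_index (Subgroup.normalizer ((P : Subgroup G) : Set G))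
    rw [← h1, h70, hG] at h2
    omega
  obtain ⟨K, hK⟩ := Sylow.exists_subgroup_card_pow_prime
    (G := Subgroup.normalizer ((P : Subgroup G) : Set G)) 2 (n := 2) (by rw [hN]; norm_num)
  have hK4 : Nat.card K = 4 := by rw [hK]; norm_num
  obtain ⟨a, b, ha, hb, hab⟩ := a7v4s_two_ne (α := K) (by rw [hK4]; norm_num) 1
  -- nonidentity elements of K have order 2
  have hord : ∀ c : K, c ≠ 1 → orderOf ((c : Subgroup.normalizer ((P : Subgroup G) : Set G)) : G) = 2 := by
    intro c hc
    have h1 : orderOf c ∣ 4 := hK4 ▸ orderOf_dvd_natCard c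
    have h2 : orderOf ((c : Subgroup.normalizer ((P : Subgroup G) : Set G)) : G) = orderOf c := by
      rw [Subgroup.orderOf_coe, Subgroup.orderOf_coe]
    rw [h2]
    have h3 : orderOf c ≠ 4 := by
      rw [← h2]
      exact h4 _ (c : Subgroup.normalizer ((P : Subgroup G) : Set G)).2
    have h5 : orderOf c ≠ 1 := fun h => hc (orderOf_eq_one_iff.mp h)
    have h6 : orderOf c ∈ Nat.divisors 4 := Nat.mem_divisors.mpr ⟨h1, by norm_num⟩
    have h7 : Nat.divisors 4 = {1, 2, 4} := by decide
    rw [h7] at h6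
    simp only [Finset.mem_insert, Finset.mem_singleton] at h6
    omega
  have hmemN : ∀ c : K, ((c : Subgroup.normalizer ((P : Subgroup G) : Set G)) : G) ∈
      Subgroup.normalizer ((P : Subgroup G) : Set G) :=
    fun c => (c : Subgroup.normalizer ((P : Subgroup G) : Set G)).2
  by_contra hcon
  push Not at hcon
  -- an involution of `N` inverts `P`
  have hinv : ∀ s : G, s ∈ Subgroup.normalizer ((P : Subgroup G) : Set G) → orderOf s = 2 →
      ∀ y ∈ (P : Subgroup G), s * y * s⁻¹ = y⁻¹ := by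
    intro s hsN hs2
    have hss : s * s = 1 := by
      have h1 := pow_orderOf_eq_one s
      rw [hs2, pow_two] at h1
      exact h1
    apply a7h_invert (P : Subgroup G) hcomm s hss
      (fun y hy => (Subgroup.mem_normalizer_iff.mp hsN y).mp hy)
    intro y hy hsy
    by_contra hy1
    exact hcon s hsN hs2 y hy hy1 hsy
  have hab1 : a * b ≠ 1 := by
    intro h
    have h1 : orderOf a = 2 := by
      have h2 := hord a ha
      rw [Subgroup.orderOf_coe, Subgroup.orderOf_coe] at h2
      exact h2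
    have h3 : a * a = 1 := by
      have h5 := pow_orderOf_eq_one a
      rw [h1, pow_two] at h5
      exact h5
    apply hab
    calc a = a * (a * b) := by rw [h, mul_one]
      _ = (a * a) * b := by group
      _ = b := by rw [h3, one_mul]
  have hA := hinv _ (hmemN a) (hord a ha)
  have hB := hinv _ (hmemN b) (hord b hb)
  have hAB := hord (a * b) hab1
  apply a7h_not_cent P hCP _ hAB
  intro y hy
  have e1 : (((a * b : K) : Subgroup.normalizer ((P : Subgroup G) : Set G)) : G) =
      ((a : Subgroup.normalizer ((P : Subgroup G) : Set G)) : G) *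
        ((b : Subgroup.normalizer ((P : Subgroup G) : Set G)) : G) := rfl
  rw [e1]
  have e2 : ∀ s t : G, s * t * y * (s * t)⁻¹ = s * (t * y * t⁻¹) * s⁻¹ := by
    intro s t; group
  rw [e2, hB y hy]
  have e3 : ∀ s : G, s * y⁻¹ * s⁻¹ = (s * y * s⁻¹)⁻¹ := by
    intro s; group
  rw [e3, hA y hy, inv_inv]

end Cfsg.Agent.Helper93
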