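import Cfsg.Agent.Helper85.CEDefs

set_option autoImplicit false
set_option maxHeartbeats 1000000
open Cfsg

/-! # Piece EXTB of the call for S5155

A `p'`-automorphism of `C_S(Y) Y` in the system which preserves `Y` and fixes `T` pointwise moves
the elements of `C_S(Y)` by elements of `Y`, once `Y` contains the focal generators of `C_F(T)`. -/

namespace Cfsg.Agent.Helper93.CEEXTB

open Cfsg.FusionSystem
open Cfsg.Agent.Helper85 Cfsg.Agent.Helper88

variable {Ω : Type*} [Group Ω] {S : Subgroup Ω}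

theorem autFun_map_pow' {P : Subgroup Ω} (α : MulAut P) {x : Ω} (hx : x ∈ P) (n : ℕ) :
    autFun α (x ^ n) = autFun α x ^ n := by
  induction n with
  | zero =>
    rw [pow_zero, pow_zero]
    have h := autFun_map_mul α P.one_mem P.one_mem
    rw [mul_one] at h
    exact mul_left_cancel (a := autFun α 1) (by rw [mul_one]; exact h.symm)
  | succ n ih => rw [pow_succ, autFun_map_mul α (P.pow_mem hx n) hx, ih, pow_succ]

theorem ce_extb [Finite S] {p : ℕ} [Fact p.Prime] (hS : IsPGroup p S) {F : FusionSystem S}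
    {T : Subgroup Ω} (hTS : T ≤ S) (hTn : ∀ s ∈ S, ∀ t ∈ T, s * t * s⁻¹ ∈ T) {Y : Subgroup Ω}
    (hYS : Y ≤ S) (hTY : T ≤ centralizerIn S Y) (hfoc : ∀ g, IsFocalGen F T g → g ∈ Y)
    {β : MulAut ↥(centralizerIn S Y ⊔ Y)} (hβ : β ∈ F.autGroup (centralizerIn S Y ⊔ Y)) {b : ℕ}
    (hbp : b.Coprime p) (hβb : β ^ b = 1) (hβY : ∀ y ∈ Y, autFun β y ∈ Y)
    (hβT : ∀ t ∈ T, autFun β t = t) : ∀ c ∈ centralizerIn S Y, c⁻¹ * autFun β c ∈ Y := by
  have hp : p.Prime := Fact.out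
  have hCS : centralizerIn S Y ≤ S := inf_le_left
  have hQS : centralizerIn S Y ⊔ Y ≤ S := sup_le hCS hYS
  have hβmap : IsMap F (centralizerIn S Y ⊔ Y) (autFun β) := IsMap.of_mem_autGroup hQS hβ
  have hCQ : ∀ {x : Ω}, x ∈ centralizerIn S Y → x ∈ centralizerIn S Y ⊔ Y := fun hx =>
    Subgroup.mem_sup_left hx
  have hYQ : ∀ {x : Ω}, x ∈ Y → x ∈ centralizerIn S Y ⊔ Y := fun hx => Subgroup.mem_sup_right hx
  have hTQ : ∀ {x : Ω}, x ∈ T → x ∈ centralizerIn S Y ⊔ Y := fun hx => hCQ (hTY hx)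
  have hbpos : 0 < b := by
    rcases Nat.eq_zero_or_pos b with h0 | h0
    · rw [h0] at hbp
      exact absurd ((Nat.coprime_zero_left p).1 hbp) hp.ne_one
    · exact h0
  -- powers of `β` preserve `Y`
  have hpowY : ∀ j : ℕ, ∀ y ∈ Y, autFun (β ^ j) y ∈ Y := by
    intro j
    induction j with
    | zero => intro y hy; rw [pow_zero, autFun_one (hYQ hy)]; exact hy
    | succ j ih =>
      intro y hy
      rw [pow_succ, autFun_mul _ _ (hYQ hy)]
      exact ih _ (hβY y hy)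
  have hsurj : ∀ y ∈ Y, ∃ r ∈ Y, autFun β r = y := by
    intro y hy
    refine ⟨autFun (β ^ (b - 1)) y, hpowY _ y hy, ?_⟩
    rw [← autFun_mul _ _ (hYQ hy), ← pow_succ', Nat.sub_add_cancel hbpos, hβb, autFun_one (hYQ hy)]
  have hβC : ∀ {x : Ω}, x ∈ centralizerIn S Y → autFun β x ∈ centralizerIn S Y := fun hx =>
    cs_cent_mem hβmap hsurj hx
  -- elements of `C_S(Y)` commuting with `T` are moved by elements of `Y`
  have hkey : ∀ x ∈ centralizerIn S Y, (∀ t ∈ T, t * x = x * t) → x⁻¹ * autFun β x ∈ Y := by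
    intro x hx hxT
    have hxS : x ∈ S := hCS hx
    have hxCT : x ∈ centralizerIn S T := mem_centralizerIn_iff.2 ⟨hxS, hxT⟩
    have hzC : Subgroup.zpowers x ≤ centralizerIn S Y := by
      rw [Subgroup.zpowers_le]; exact hx
    have hzCT : Subgroup.zpowers x ≤ centralizerIn S T := by
      rw [Subgroup.zpowers_le]; exact hxCT
    have hzQ : Subgroup.zpowers x ≤ centralizerIn S Y ⊔ Y := hzC.trans le_sup_left
    have hTQ' : T ≤ centralizerIn S Y ⊔ Y := hTY.trans le_sup_left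
    apply hfoc
    refine ⟨Subgroup.zpowers x, autFun β, x, ⟨hβmap.restrict hzQ, hzCT, fun w hw => ?_, autFun β,
      hβmap.restrict (sup_le hzQ hTQ'), fun _ _ => rfl, hβT⟩, Subgroup.mem_zpowers x, rfl⟩
    have hwC := hzC hw
    refine mem_centralizerIn_iff.2 ⟨hCS (hβC hwC), fun t ht => ?_⟩
    have h1 : t * w = w * t := (mem_centralizerIn_iff.1 (hzCT hw)).2 t ht
    calc t * autFun β w = autFun β t * autFun β w := by rw [hβT t ht]
      _ = autFun β (t * w) := (autFun_map_mul β (hTQ ht) (hCQ hwC)).symm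
      _ = autFun β (w * t) := by rw [h1]
      _ = autFun β w * autFun β t := autFun_map_mul β (hCQ hwC) (hTQ ht)
      _ = autFun β w * t := by rw [hβT t ht]
  intro c hc
  have hcQ := hCQ hc
  have hcS := hCS hc
  obtain ⟨a₁, ha₁def⟩ : ∃ a₁, a₁ = c⁻¹ * autFun β c := ⟨_, rfl⟩
  rw [← ha₁def]
  have ha₁C : a₁ ∈ centralizerIn S Y := by
    rw [ha₁def]; exact Subgroup.mul_mem _ (Subgroup.inv_mem _ hc) (hβC hc)
  have ha₁Q := hCQ ha₁C
  have hφc : autFun β c = c * a₁ := by rw [ha₁def]; group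
  have ha₁T : ∀ t ∈ T, t * a₁ = a₁ * t := by
    intro t ht
    have h1 : c * t * c⁻¹ ∈ T := hTn c hcS t ht
    have h2 := hβT _ h1
    rw [autFun_map_mul β ((Subgroup.mul_mem _ hcQ (hTQ ht))) (Subgroup.inv_mem _ hcQ),
      autFun_map_mul β hcQ (hTQ ht), hβmap.map_inv hcQ, hβT t ht, hφc] at h2
    have h3 : a₁ * t * a₁⁻¹ = t := by
      have e : a₁ * t * a₁⁻¹ = c⁻¹ * (c * a₁ * t * (c * a₁)⁻¹) * c := by group
      rw [e, h2]; group
    calc t * a₁ = a₁ * t * a₁⁻¹ * a₁ := by rw [h3]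
      _ = a₁ * t := by group
  obtain ⟨z₁, hz₁def⟩ : ∃ z₁, z₁ = a₁⁻¹ * autFun β a₁ := ⟨_, rfl⟩
  have hz₁Y : z₁ ∈ Y := by rw [hz₁def]; exact hkey a₁ ha₁C ha₁T
  have hφa : autFun β a₁ = a₁ * z₁ := by rw [hz₁def]; group
  have hcomm : Commute a₁ z₁ := ((mem_centralizerIn_iff.1 ha₁C).2 z₁ hz₁Y).symm
  have hpow : ∀ j : ℕ, ∃ z ∈ Y, autFun (β ^ j) c = c * a₁ ^ j * z := by
    intro j
    induction j with
    | zero => exact ⟨1, Y.one_mem, by rw [pow_zero, autFun_one hcQ, pow_zero, mul_one, mul_one]⟩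
    | succ j ih =>
      obtain ⟨z, hz, hj⟩ := ih
      refine ⟨z₁ ^ j * autFun β z, Y.mul_mem (Y.pow_mem hz₁Y j) (hβY z hz), ?_⟩
      have haj : a₁ ^ j ∈ centralizerIn S Y ⊔ Y := Subgroup.pow_mem _ ha₁Q j
      rw [pow_succ', autFun_mul _ _ hcQ, hj,
        autFun_map_mul β (Subgroup.mul_mem _ hcQ haj) (hYQ hz),
        autFun_map_mul β hcQ haj, autFun_map_pow' β ha₁Q j, hφc, hφa, hcomm.mul_pow, pow_succ']
      simp only [mul_assoc]
  obtain ⟨z, hz, hb⟩ := hpow b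
  rw [hβb, autFun_one hcQ] at hb
  have hab : a₁ ^ b ∈ Y := by
    have h1 : a₁ ^ b = z⁻¹ := by
      have h : c * (a₁ ^ b * z) = c * 1 := by rw [mul_one, ← mul_assoc]; exact hb.symm
      exact eq_inv_of_mul_eq_one_left (mul_left_cancel h)
    rw [h1]; exact Y.inv_mem hz
  obtain ⟨k₀, hk₀⟩ := pow_card_eq_one_of_mem hS
  exact mem_of_pow_mem_of_coprime Y hab (hk₀ _ (hCS ha₁C)) (Nat.Coprime.pow_right k₀ hbp)

end Cfsg.Agent.Helper93.CEEXTB
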