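-- helper93 library: piece SU3 of helper16's CALL S3716 (the model homomorphism is a `D8Cfg`).
import Mathlib
import Cfsg.Agent.Helper16.D8Core

set_option autoImplicit false

namespace Cfsg.Agent.Helper93

open Cfsg Cfsg.Agent.Helper16 DihedralGroup

set_option maxRecDepth 1000000 in
theorem d8su3_wm_rep : ∀ m : WM, ∃ i j : ZMod 3, ∃ k l : ZMod 2, ∃ c : Bool,
    m = ⟨(r i * sr 0 ^ k.val, r j * sr 0 ^ l.val), c⟩ := by
  decide

set_option maxRecDepth 1000000 in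
theorem d8su3_wm_pow4 : ∀ m : WM, m ^ 4 ≠ 1 →
    ∃ i j : ZMod 3, m ^ 4 = ⟨(r i, r j), false⟩ ∧ (⟨(r i, r j), false⟩ : WM) ≠ 1 := by
  decide

theorem d8su3_card_WM : Nat.card WM = 72 := by
  rw [Nat.card_eq_fintype_card]
  rfl

/-- PIECE SU3 of CALL S3716. -/
theorem d8_cfg_of_gens {G : Type*} [Group G] [Finite G] (M : Sylow 3 G)
    (hM9 : Nat.card ↥(M : Subgroup G) = 9)
    (N : Subgroup G) (hN : N = Subgroup.normalizer ((M : Subgroup G) : Set G))
    (hN72 : Nat.card N = 72)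
    (hCg : ∀ g ∈ (M : Subgroup G), g ≠ 1 → Subgroup.centralizer ({g} : Set G) ≤ N)
    (t₁ t₂ a b τ : G) (hg : D8Gens (M : Subgroup G) N t₁ t₂ a b τ) (φ : WM →* G)
    (hφ : ∀ (i j : ZMod 3) (k l : ZMod 2) (c : Bool),
      φ ⟨(r i * sr 0 ^ k.val, r j * sr 0 ^ l.val), c⟩ =
        t₁ ^ i.val * a ^ k.val * (t₂ ^ j.val * b ^ l.val) * (if c then τ else 1)) :
    D8Cfg φ := by
  have hφ0 : ∀ i j : ZMod 3, φ ⟨(r i, r j), false⟩ = t₁ ^ i.val * t₂ ^ j.val := by
    intro i j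
    have h1 := hφ i j 0 0 false
    simpa using h1
  have hτpow : ∀ c : ℕ, τ ^ c = if c % 2 = 1 then τ else 1 := by
    intro c
    rw [pow_eq_pow_mod c hg.τ2]
    rcases Nat.mod_two_eq_zero_or_one c with h0 | h1
    · rw [h0]; simp
    · rw [h1]; simp
  have hφN : ∀ m : WM, φ m ∈ N := by
    intro m
    obtain ⟨i, j, k, l, c, rfl⟩ := d8su3_wm_rep m
    rw [hφ, hg.memN]
    refine ⟨i.val, j.val, k.val, l.val, (if c then 1 else 0), ?_⟩
    have hc : a ^ k.val * t₂ ^ j.val = t₂ ^ j.val * a ^ k.val :=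
      ((show Commute a t₂ from hg.at₂).pow_pow _ _).eq
    have hτc : (if c then τ else 1) = τ ^ (if c then 1 else 0) := by
      cases c <;> simp
    rw [hτc]
    congr 1
    calc t₁ ^ i.val * a ^ k.val * (t₂ ^ j.val * b ^ l.val)
        = t₁ ^ i.val * (a ^ k.val * t₂ ^ j.val) * b ^ l.val := by simp only [mul_assoc]
      _ = t₁ ^ i.val * t₂ ^ j.val * a ^ k.val * b ^ l.val := by rw [hc]; simp only [mul_assoc]
  have hrange : φ.range = N := by
    apply le_antisymm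
    · rintro _ ⟨m, rfl⟩; exact hφN m
    · intro x hx
      obtain ⟨i, j, k, l, c, rfl⟩ := (hg.memN x).1 hx
      refine ⟨⟨(r (i : ZMod 3) * sr 0 ^ ((k : ZMod 2)).val,
        r (j : ZMod 3) * sr 0 ^ ((l : ZMod 2)).val), decide (c % 2 = 1)⟩, ?_⟩
      rw [hφ, ZMod.val_natCast, ZMod.val_natCast, ZMod.val_natCast, ZMod.val_natCast,
        ← pow_eq_pow_mod i hg.t₁3, ← pow_eq_pow_mod j hg.t₂3, ← pow_eq_pow_mod k hg.a2,
        ← pow_eq_pow_mod l hg.b2, hτpow c]
      have hc : a ^ k * t₂ ^ j = t₂ ^ j * a ^ k := ((show Commute a t₂ from hg.at₂).pow_pow _ _).eq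
      have hd : (if decide (c % 2 = 1) = true then τ else 1) = if c % 2 = 1 then τ else 1 := by
        by_cases h1 : c % 2 = 1 <;> simp [h1]
      rw [hd]
      congr 1
      calc t₁ ^ i * a ^ k * (t₂ ^ j * b ^ l) = t₁ ^ i * (a ^ k * t₂ ^ j) * b ^ l := by
            simp only [mul_assoc]
        _ = t₁ ^ i * t₂ ^ j * a ^ k * b ^ l := by rw [hc]; simp only [mul_assoc]
  have hinj : Function.Injective φ := by
    have hsurj : Function.Surjective φ.rangeRestrict := φ.rangeRestrict_surjective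
    have hc : Nat.card WM ≤ Nat.card φ.range := by
      rw [hrange, hN72, d8su3_card_WM]
    have hbij := hsurj.bijective_of_nat_card_le hc
    intro x y hxy
    apply hbij.1
    exact Subtype.ext hxy
  refine ⟨hinj, ?_⟩
  have hcommM : ∀ x ∈ (M : Subgroup G), ∀ y ∈ (M : Subgroup G), x * y = y * x := by
    intro x hx y hy
    obtain ⟨i, j, rfl⟩ := (hg.memM x).1 hx
    obtain ⟨i', j', rfl⟩ := (hg.memM y).1 hy
    have h12 : Commute t₁ t₂ := hg.tt
    have : Commute (t₁ ^ i * t₂ ^ j) (t₁ ^ i' * t₂ ^ j') := by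
      apply Commute.mul_left <;> apply Commute.mul_right
      · exact (Commute.refl t₁).pow_pow _ _
      · exact h12.pow_pow _ _
      · exact h12.symm.pow_pow _ _
      · exact (Commute.refl t₂).pow_pow _ _
    exact this.eq
  have hsq : ∀ (m m' : WM) (g : G), m ^ 4 ≠ 1 → g * φ m * g⁻¹ = φ m' → m' ^ 4 ≠ 1 := by
    intro m m' g hm hgm h1
    apply hm
    apply hinj
    have h2 : (g * φ m * g⁻¹) ^ 4 = 1 := by rw [hgm, ← map_pow, h1, map_one]
    rw [conj_pow] at h2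
    have h3 : φ m ^ 4 = 1 := by
      have h4 := congrArg (fun y => g⁻¹ * y * g) h2
      simpa [mul_assoc] using h4
    rw [map_pow, h3, map_one]
  have key : ∀ (m m' : WM) (g : G), m ^ 4 ≠ 1 → g * φ m * g⁻¹ = φ m' →
      ∀ t ∈ (M : Subgroup G), g * t * g⁻¹ ∈ (M : Subgroup G) := by
    intro m m' g hm hgm t ht
    obtain ⟨i, j, hm4, hne⟩ := d8su3_wm_pow4 m hm
    have hxT : φ (m ^ 4) ∈ (M : Subgroup G) := by
      rw [hm4, hφ0, hg.memM]; exact ⟨_, _, rfl⟩
    have hm' : m' ^ 4 ≠ 1 := hsq m m' g hm hgm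
    obtain ⟨i', j', hm'4, hne'⟩ := d8su3_wm_pow4 m' hm'
    have hx' : g * φ (m ^ 4) * g⁻¹ = φ (m' ^ 4) := by
      rw [map_pow, map_pow, ← hgm, conj_pow]
    have hx'T : g * φ (m ^ 4) * g⁻¹ ∈ (M : Subgroup G) := by
      rw [hx', hm'4, hφ0, hg.memM]; exact ⟨_, _, rfl⟩
    have hx'1 : g * φ (m ^ 4) * g⁻¹ ≠ 1 := by
      rw [hx', hm'4]; intro h1; exact hne' (hinj (by rw [h1, map_one]))
    have hcomm : t * φ (m ^ 4) = φ (m ^ 4) * t := hcommM t ht _ hxT
    have hyN : g * t * g⁻¹ ∈ N := by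
      apply hCg _ hx'T hx'1
      rw [Subgroup.mem_centralizer_iff]
      intro z hz
      rw [Set.mem_singleton_iff] at hz
      rw [hz]
      calc g * φ (m ^ 4) * g⁻¹ * (g * t * g⁻¹) = g * (φ (m ^ 4) * t) * g⁻¹ := by group
        _ = g * (t * φ (m ^ 4)) * g⁻¹ := by rw [hcomm]
        _ = g * t * g⁻¹ * (g * φ (m ^ 4) * g⁻¹) := by group
    have hP : IsPGroup 3 (Subgroup.map (MulAut.conj g).toMonoidHom (M : Subgroup G)) :=
      M.isPGroup'.map _
    have hinf := hP.inf_normalizer_sylow M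
    have hyP : g * t * g⁻¹ ∈ Subgroup.map (MulAut.conj g).toMonoidHom (M : Subgroup G) :=
      ⟨t, ht, by simp [MulAut.conj_apply]⟩
    have hy : g * t * g⁻¹ ∈ Subgroup.map (MulAut.conj g).toMonoidHom (M : Subgroup G) ⊓
        Subgroup.normalizer ((M : Subgroup G) : Set G) := ⟨hyP, hN ▸ hyN⟩
    exact (hinf.le hy).2
  intro m hm g hgm
  obtain ⟨m', hm'⟩ := hgm
  rw [hrange, hN, Subgroup.mem_normalizer_iff]
  intro x
  constructor
  · exact key m m' g hm hm'.symm x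
  · intro hx
    have h1 := key m' m g⁻¹ (hsq m m' g hm hm'.symm) (by rw [hm']; group) _ hx
    have h2 : g⁻¹ * (g * x * g⁻¹) * g⁻¹⁻¹ = x := by group
    rwa [h2] at h1

end Cfsg.Agent.Helper93
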