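-- helper93 library: piece CARDC of helper95's CALL S4632 (order of a Sylow 2-subgroup of GL_2(q)).
import Mathlib
import Cfsg.Agent.Helper95.G2SylDefs

set_option autoImplicit false

open Matrix Cfsg.Agent.Helper95.G2Syl

namespace Cfsg.Agent.Helper93

variable {F : Type*} [Field F]

theorem g2s_card_sylow [Fintype F] (hF : Odd (Fintype.card F)) (D : Sylow 2 (GL (Fin 2) F)) :
    Nat.card D =
      2 ^ (padicValNat 2 (Fintype.card F ^ 2 - 1) + padicValNat 2 (Fintype.card F - 1)) := by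
  rw [Sylow.card_eq_multiplicity]
  congr 1
  have hq1 : 1 < Fintype.card F := Fintype.one_lt_card
  obtain ⟨q, hq⟩ : ∃ q, q = Fintype.card F := ⟨_, rfl⟩
  rw [← hq] at hF hq1 ⊢
  have hcard : Nat.card (GL (Fin 2) F) = (q ^ 2 - 1) * (q * (q - 1)) := by
    rw [Matrix.card_GL_field, Fin.prod_univ_two, ← hq]
    simp only [Fin.val_zero, Fin.val_one, pow_zero, pow_one]
    congr 1
    rw [Nat.mul_sub, mul_one, pow_two]
  rw [hcard, Nat.factorization_def _ Nat.prime_two]
  have h1 : q ^ 2 - 1 ≠ 0 := by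
    have : 2 ^ 2 ≤ q ^ 2 := Nat.pow_le_pow_left hq1 2
    omega
  have h2 : q ≠ 0 := by omega
  have h3 : q - 1 ≠ 0 := by omega
  have h4 : padicValNat 2 q = 0 := by
    apply padicValNat.eq_zero_of_not_dvd
    intro h
    exact (Nat.not_even_iff_odd.mpr hF) (even_iff_two_dvd.mpr h)
  rw [padicValNat.mul h1 (mul_ne_zero h2 h3), padicValNat.mul h2 h3, h4, zero_add]

end Cfsg.Agent.Helper93
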