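/-
helper93: piece G1M of CALL S4627 (helper97): the monomial subgroup of `GL_2(F)` with entries in a subgroup
`μ` of `Fˣ`, and its order `2 |μ|^2`.
-/
import Mathlib
import Cfsg.Agent.Helper97.GSylDefs

set_option autoImplicit false

namespace Cfsg.Agent.Helper93.GSylG1M

open Matrix Cfsg.Agent.Helper97.GSyl

variable {F : Type*} [Field F] {m : ℕ}

/-- the diagonal matrix `diag(x, y)`. -/
def dD (x y : Fˣ) : GL (Fin 2) F :=
  ⟨!![(x : F), 0; 0, (y : F)], !![((x⁻¹ : Fˣ) : F), 0; 0, ((y⁻¹ : Fˣ) : F)],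
    by simp [Matrix.one_fin_two],
    by simp [Matrix.one_fin_two]⟩

/-- the antidiagonal matrix with entries `x` (top right) and `y` (bottom left). -/
def dA (x y : Fˣ) : GL (Fin 2) F :=
  ⟨!![0, (x : F); (y : F), 0], !![0, ((y⁻¹ : Fˣ) : F); ((x⁻¹ : Fˣ) : F), 0],
    by simp [Matrix.one_fin_two],
    by simp [Matrix.one_fin_two]⟩

theorem dD_val (x y : Fˣ) : ((dD x y : GL (Fin 2) F) : Matrix (Fin 2) (Fin 2) F) = !![(x : F), 0; 0, (y : F)] := rfl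

theorem dA_val (x y : Fˣ) : ((dA x y : GL (Fin 2) F) : Matrix (Fin 2) (Fin 2) F) = !![0, (x : F); (y : F), 0] := rfl

theorem dD_mul_dD (x y x' y' : Fˣ) : (dD x y : GL (Fin 2) F) * dD x' y' = dD (x * x') (y * y') := by
  apply Units.ext
  rw [Units.val_mul, dD_val, dD_val, dD_val]
  simp

theorem dD_mul_dA (x y x' y' : Fˣ) : (dD x y : GL (Fin 2) F) * dA x' y' = dA (x * x') (y * y') := by
  apply Units.ext
  rw [Units.val_mul, dD_val, dA_val, dA_val]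
  simp

theorem dA_mul_dD (x y x' y' : Fˣ) : (dA x y : GL (Fin 2) F) * dD x' y' = dA (x * y') (y * x') := by
  apply Units.ext
  rw [Units.val_mul, dD_val, dA_val, dA_val]
  simp

theorem dA_mul_dA (x y x' y' : Fˣ) : (dA x y : GL (Fin 2) F) * dA x' y' = dD (x * y') (y * x') := by
  apply Units.ext
  rw [Units.val_mul, dA_val, dA_val, dD_val]
  simp

theorem dD_one : (dD 1 1 : GL (Fin 2) F) = 1 := by
  apply Units.ext
  rw [dD_val]
  simp [Matrix.one_fin_two]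

theorem dD_inv (x y : Fˣ) : (dD x y : GL (Fin 2) F)⁻¹ = dD x⁻¹ y⁻¹ := by
  apply inv_eq_of_mul_eq_one_right
  rw [dD_mul_dD, mul_inv_cancel, mul_inv_cancel, dD_one]

theorem dA_inv (x y : Fˣ) : (dA x y : GL (Fin 2) F)⁻¹ = dA y⁻¹ x⁻¹ := by
  apply inv_eq_of_mul_eq_one_right
  rw [dA_mul_dA, mul_inv_cancel, mul_inv_cancel, dD_one]

/-- the monomial group with entries in `μ`. -/
def g1 (μ : Subgroup Fˣ) : Subgroup (GL (Fin 2) F) where
  carrier := {g | ∃ x ∈ μ, ∃ y ∈ μ, g = dD x y ∨ g = dA x y}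
  mul_mem' := by
    rintro a b ⟨x, hx, y, hy, rfl | rfl⟩ ⟨x', hx', y', hy', rfl | rfl⟩
    · exact ⟨x * x', μ.mul_mem hx hx', y * y', μ.mul_mem hy hy', Or.inl (dD_mul_dD _ _ _ _)⟩
    · exact ⟨x * x', μ.mul_mem hx hx', y * y', μ.mul_mem hy hy', Or.inr (dD_mul_dA _ _ _ _)⟩
    · exact ⟨x * y', μ.mul_mem hx hy', y * x', μ.mul_mem hy hx', Or.inr (dA_mul_dD _ _ _ _)⟩
    · exact ⟨x * y', μ.mul_mem hx hy', y * x', μ.mul_mem hy hx', Or.inl (dA_mul_dA _ _ _ _)⟩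
  one_mem' := ⟨1, μ.one_mem, 1, μ.one_mem, Or.inl dD_one.symm⟩
  inv_mem' := by
    rintro a ⟨x, hx, y, hy, rfl | rfl⟩
    · exact ⟨x⁻¹, μ.inv_mem hx, y⁻¹, μ.inv_mem hy, Or.inl (dD_inv _ _)⟩
    · exact ⟨y⁻¹, μ.inv_mem hy, x⁻¹, μ.inv_mem hx, Or.inr (dA_inv _ _)⟩

theorem mem_g1 (μ : Subgroup Fˣ) (g : GL (Fin 2) F) :
    g ∈ g1 μ ↔ ∃ x ∈ μ, ∃ y ∈ μ, g = dD x y ∨ g = dA x y := Iff.rfl

theorem dD_injective {x y x' y' : Fˣ} (h : (dD x y : GL (Fin 2) F) = dD x' y') : x = x' ∧ y = y' := by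
  have h1 := congrArg (fun g : GL (Fin 2) F => (g : Matrix (Fin 2) (Fin 2) F)) h
  simp only [dD_val] at h1
  have h00 := congrFun (congrFun h1 0) 0
  have h11 := congrFun (congrFun h1 1) 1
  simp at h00 h11
  exact ⟨Units.ext h00, Units.ext h11⟩

theorem dA_injective {x y x' y' : Fˣ} (h : (dA x y : GL (Fin 2) F) = dA x' y') : x = x' ∧ y = y' := by
  have h1 := congrArg (fun g : GL (Fin 2) F => (g : Matrix (Fin 2) (Fin 2) F)) h
  simp only [dA_val] at h1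
  have h01 := congrFun (congrFun h1 0) 1
  have h10 := congrFun (congrFun h1 1) 0
  simp at h01 h10
  exact ⟨Units.ext h01, Units.ext h10⟩

theorem dD_ne_dA (x y x' y' : Fˣ) : (dD x y : GL (Fin 2) F) ≠ dA x' y' := by
  intro h
  have h1 := congrArg (fun g : GL (Fin 2) F => (g : Matrix (Fin 2) (Fin 2) F)) h
  simp only [dD_val, dA_val] at h1
  have h00 := congrFun (congrFun h1 0) 0
  simp at h00

/-- the order of the monomial group. -/
theorem card_g1 [Finite F] (μ : Subgroup Fˣ) : Nat.card (g1 (F := F) μ) = 2 * Nat.card μ ^ 2 := by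
  let f : (μ × μ) ⊕ (μ × μ) → g1 (F := F) μ := Sum.elim
    (fun p => ⟨dD p.1 p.2, ⟨p.1, p.1.2, p.2, p.2.2, Or.inl rfl⟩⟩)
    (fun p => ⟨dA p.1 p.2, ⟨p.1, p.1.2, p.2, p.2.2, Or.inr rfl⟩⟩)
  have hbij : Function.Bijective f := by
    constructor
    · rintro (⟨a, b⟩ | ⟨a, b⟩) (⟨a', b'⟩ | ⟨a', b'⟩) h
      · have h1 : (dD (a : Fˣ) b : GL (Fin 2) F) = dD a' b' := congrArg Subtype.val h
        obtain ⟨e1, e2⟩ := dD_injective h1
        rw [Subtype.ext e1, Subtype.ext e2]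
      · have h1 : (dD (a : Fˣ) b : GL (Fin 2) F) = dA a' b' := congrArg Subtype.val h
        exact absurd h1 (dD_ne_dA _ _ _ _)
      · have h1 : (dA (a : Fˣ) b : GL (Fin 2) F) = dD a' b' := congrArg Subtype.val h
        exact absurd h1.symm (dD_ne_dA _ _ _ _)
      · have h1 : (dA (a : Fˣ) b : GL (Fin 2) F) = dA a' b' := congrArg Subtype.val h
        obtain ⟨e1, e2⟩ := dA_injective h1
        rw [Subtype.ext e1, Subtype.ext e2]
    · rintro ⟨g, x, hx, y, hy, rfl | rfl⟩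
      · exact ⟨Sum.inl (⟨x, hx⟩, ⟨y, hy⟩), rfl⟩
      · exact ⟨Sum.inr (⟨x, hx⟩, ⟨y, hy⟩), rfl⟩
  rw [← Nat.card_congr (Equiv.ofBijective f hbij), Nat.card_sum, Nat.card_prod]
  ring

/-- PIECE G1M of CALL S4627. -/
theorem exists_g1 [Finite F] (μ : Subgroup Fˣ) :
    ∃ S : Subgroup (GL (Fin 2) F),
      (∀ g : GL (Fin 2) F, g ∈ S ↔ ∃ x ∈ μ, ∃ y ∈ μ,
        (g : Matrix (Fin 2) (Fin 2) F) = !![(x : F), 0; 0, (y : F)] ∨
          (g : Matrix (Fin 2) (Fin 2) F) = !![0, (x : F); (y : F), 0]) ∧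
      Nat.card S = 2 * Nat.card μ ^ 2 := by
  refine ⟨g1 μ, fun g => ?_, card_g1 μ⟩
  rw [mem_g1]
  constructor
  · rintro ⟨x, hx, y, hy, rfl | rfl⟩
    · exact ⟨x, hx, y, hy, Or.inl rfl⟩
    · exact ⟨x, hx, y, hy, Or.inr rfl⟩
  · rintro ⟨x, hx, y, hy, h | h⟩
    · exact ⟨x, hx, y, hy, Or.inl (Units.ext h)⟩
    · exact ⟨x, hx, y, hy, Or.inr (Units.ext h)⟩

end Cfsg.Agent.Helper93.GSylG1M
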