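/-
helper93: piece G1Q of CALL S4627 (helper97): for `q ≡ 1 (mod 4)` the determinant-one part of the monomial
Sylow 2-subgroup of `GL_2(F)` has all squares in its commutator subgroup.
-/
import Mathlib
import Cfsg.Agent.Helper97.GSylDefs
import Cfsg.Agent.Helper93.GSylG1M

set_option autoImplicit false

namespace Cfsg.Agent.Helper93.GSylG1Q

open Matrix Cfsg.Agent.Helper97.GSyl Cfsg.Agent.Helper93.GSylG1M

variable {F : Type*} [Field F] {m : ℕ}

/-- PIECE G1Q of CALL S4627. -/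
theorem g1_q [Fintype F] (hq : 4 ∣ Fintype.card F - 1) (μ : Sylow 2 Fˣ)
    (S : Subgroup (GL (Fin 2) F))
    (hS : ∀ g : GL (Fin 2) F, g ∈ S ↔ ∃ x ∈ (μ : Subgroup Fˣ), ∃ y ∈ (μ : Subgroup Fˣ),
        (g : Matrix (Fin 2) (Fin 2) F) = !![(x : F), 0; 0, (y : F)] ∨
          (g : Matrix (Fin 2) (Fin 2) F) = !![0, (x : F); (y : F), 0]) :
    ∀ s ∈ gQ S, s ^ 2 ∈ ⁅gQ S, gQ S⁆ := by
  have hprime : Fact (Nat.Prime 2) := ⟨Nat.prime_two⟩
  -- every element of order dividing 4 lies in `μ`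
  have hsub : Subsingleton (Sylow 2 Fˣ) :=
    (Sylow.unique_of_normal μ inferInstance).instSubsingleton
  have hmem : ∀ u : Fˣ, u ^ 4 = 1 → u ∈ (μ : Subgroup Fˣ) := by
    intro u hu
    have hp : IsPGroup 2 (Subgroup.zpowers u) := by
      intro g
      refine ⟨2, ?_⟩
      obtain ⟨j, hj⟩ := Subgroup.mem_zpowers_iff.mp g.2
      apply Subtype.ext
      rw [Subgroup.coe_pow, ← hj, Subgroup.coe_one]
      calc (u ^ j) ^ 2 ^ 2 = (u ^ 4) ^ j := by
            rw [← zpow_natCast, ← _root_.zpow_mul, ← zpow_natCast u 4, ← _root_.zpow_mul]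
            congr 1
            push_cast
            ring
        _ = 1 := by rw [hu, _root_.one_zpow]
    obtain ⟨Q, hQ⟩ := hp.exists_le_sylow
    rw [Subsingleton.elim μ Q]
    exact hQ (Subgroup.mem_zpowers u)
  -- a square root of `-1`
  have hcard : Fintype.card F % 4 ≠ 3 := by
    have hpos : 0 < Fintype.card F := Fintype.card_pos
    omega
  obtain ⟨i0, hi0⟩ := (FiniteField.isSquare_neg_one_iff (F := F)).mpr hcard
  have hi0ne : i0 ≠ 0 := by
    rintro rfl
    simp at hi0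
  set i : Fˣ := Units.mk0 i0 hi0ne with hi_def
  have hi2 : i * i = -1 := by
    apply Units.ext
    rw [Units.val_mul, Units.val_neg, Units.val_one, hi_def, Units.val_mk0]
    exact hi0.symm
  have hi4 : i ^ 4 = 1 := by
    calc i ^ 4 = (i * i) * (i * i) := by
          rw [show (4 : ℕ) = 2 + 2 from rfl, pow_add, pow_two]
      _ = 1 := by rw [hi2]; simp
  have hiμ : i ∈ (μ : Subgroup Fˣ) := hmem i hi4
  have hneg1 : (-1 : Fˣ) ∈ (μ : Subgroup Fˣ) := by
    rw [← hi2]
    exact Subgroup.mul_mem _ hiμ hiμ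
  -- membership in `gQ S`
  have hD : ∀ a ∈ (μ : Subgroup Fˣ), ∀ b ∈ (μ : Subgroup Fˣ), a * b = 1 → dD a b ∈ gQ S := by
    intro a ha b hb hab
    rw [mem_gQ]
    refine ⟨(hS _).mpr ⟨a, ha, b, hb, Or.inl rfl⟩, ?_⟩
    rw [dD_val, Matrix.det_fin_two_of]
    have := congrArg Units.val hab
    rw [Units.val_mul, Units.val_one] at this
    rw [this]
    simp
  have hA : ∀ a ∈ (μ : Subgroup Fˣ), ∀ b ∈ (μ : Subgroup Fˣ), a * b = -1 → dA a b ∈ gQ S := by
    intro a ha b hb hab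
    rw [mem_gQ]
    refine ⟨(hS _).mpr ⟨a, ha, b, hb, Or.inr rfl⟩, ?_⟩
    rw [dA_val, Matrix.det_fin_two_of]
    have := congrArg Units.val hab
    rw [Units.val_mul, Units.val_neg, Units.val_one] at this
    rw [this]
    simp
  -- squares of diagonal elements are commutators
  have hsqD : ∀ x ∈ (μ : Subgroup Fˣ), dD (x * x) (x⁻¹ * x⁻¹) ∈ ⁅gQ S, gQ S⁆ := by
    intro x hx
    have hw : dA (1 : Fˣ) (-1) ∈ gQ S := hA 1 (Subgroup.one_mem _) (-1) hneg1 (by simp)
    have hd : dD x⁻¹ x ∈ gQ S := hD x⁻¹ (Subgroup.inv_mem _ hx) x hx (by simp)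
    have hc := Subgroup.commutator_mem_commutator hw hd
    have e : (dA (1 : Fˣ) (-1) : GL (Fin 2) F) * dD x⁻¹ x * (dA (1 : Fˣ) (-1))⁻¹ * (dD x⁻¹ x)⁻¹
        = (dD (x * x) (x⁻¹ * x⁻¹) : GL (Fin 2) F) := by
      rw [dA_inv, dD_inv, dA_mul_dD, dA_mul_dA, dD_mul_dD]
      simp
    rw [commutatorElement_def, e] at hc
    exact hc
  intro s hs
  obtain ⟨hsS, hdet⟩ := (mem_gQ S s).mp hs
  obtain ⟨x, hx, y, hy, h | h⟩ := (hS s).mp hsS
  · -- diagonal case
    have hsD : s = dD x y := Units.ext h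
    rw [h, Matrix.det_fin_two_of] at hdet
    have hxy : x * y = 1 := by
      apply Units.ext
      rw [Units.val_mul, Units.val_one]
      simpa using hdet
    have hy' : y = x⁻¹ := eq_inv_of_mul_eq_one_right hxy
    rw [hsD, hy', pow_two, dD_mul_dD]
    exact hsqD x hx
  · -- antidiagonal case
    have hsA : s = dA x y := Units.ext h
    rw [h, Matrix.det_fin_two_of] at hdet
    have hxy : x * y = -1 := by
      apply Units.ext
      rw [Units.val_mul, Units.val_neg, Units.val_one]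
      have : (x : F) * (y : F) = -1 := by linear_combination -hdet
      exact this
    have hyx : y * x = -1 := by rw [mul_comm]; exact hxy
    rw [hsA, pow_two, dA_mul_dA, hxy, hyx]
    have h2 := hsqD i hiμ
    have e1 : i⁻¹ * i⁻¹ = (-1 : Fˣ) := by
      rw [← mul_inv, hi2]
      simp
    rw [hi2, e1] at h2
    exact h2

end Cfsg.Agent.Helper93.GSylG1Q
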