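import Mathlib
import Cfsg.Prelude.Def_Transfer
import Cfsg.Prelude.Def_Solvable

set_option autoImplicit false

/-!
Library for the statements on large extraspecial 2-subgroups (S5595 to S5598):
the subgroup `O2in H = O_2(H)` viewed inside the ambient group, its behaviour under conjugation,
and the package of facts `ESAt Q u` about `Q u = O_2(C_G(u))` being extraspecial with centre `⟨u⟩`.
-/

namespace Cfsg.Agent.Helper93

open Cfsg

variable {G : Type*} [Group G]

/-- The `2`-core of a subgroup `H`, viewed as a subgroup of the ambient group. -/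
def O2in (H : Subgroup G) : Subgroup G := (pCore 2 ↥H).map H.subtype

theorem O2in_le (H : Subgroup G) : O2in H ≤ H := by
  intro x hx
  obtain ⟨y, _, rfl⟩ := hx
  exact y.2

theorem pCore_normal (p : ℕ) (A : Type*) [Group A] : (pCore p A).Normal :=
  Subgroup.sSup_normal _ (fun _ hH => hH.1)

theorem pCore_map_equiv (p : ℕ) {A B : Type*} [Group A] [Group B] (e : A ≃* B) :
    (pCore p A).map e.toMonoidHom = pCore p B := by
  apply le_antisymm
  · rw [Subgroup.map_le_iff_le_comap]
    apply sSup_le
    intro N hN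
    rw [← Subgroup.map_le_iff_le_comap]
    apply le_sSup
    refine ⟨?_, ?_⟩
    · have := hN.1
      exact Subgroup.Normal.map hN.1 e.toMonoidHom e.surjective
    · exact hN.2.map e.toMonoidHom
  · apply sSup_le
    intro M hM
    have h1 : (M.comap e.toMonoidHom).map e.toMonoidHom = M :=
      Subgroup.map_comap_eq_self_of_surjective e.surjective M
    rw [← h1]
    apply Subgroup.map_mono
    apply le_sSup
    refine ⟨?_, ?_⟩
    · have := hM.1
      exact Subgroup.Normal.comap hM.1 e.toMonoidHom
    · exact hM.2.comap_of_injective e.toMonoidHom e.injective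

theorem O2in_map_equiv (H : Subgroup G) (e : G ≃* G) :
    O2in (H.map (e : G →* G)) = (O2in H).map (e : G →* G) := by
  have h1 := pCore_map_equiv 2 (e.subgroupMap H)
  ext x
  constructor
  · rintro ⟨y, hy, rfl⟩
    rw [← h1] at hy
    obtain ⟨w, hw, rfl⟩ := hy
    exact ⟨(w : G), ⟨w, hw, rfl⟩, rfl⟩
  · rintro ⟨_, ⟨w, hw, rfl⟩, rfl⟩
    refine ⟨e.subgroupMap H w, ?_, rfl⟩
    rw [← h1]
    exact ⟨w, hw, rfl⟩

/-- normal in `H` -/
theorem O2in_conj_mem (H : Subgroup G) {h q : G} (hh : h ∈ H) (hq : q ∈ O2in H) :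
    h * q * h⁻¹ ∈ O2in H := by
  obtain ⟨y, hy, rfl⟩ := hq
  have := (pCore_normal 2 ↥H).conj_mem y hy ⟨h, hh⟩
  exact ⟨_, this, rfl⟩

/-- maximality: a `2`-subgroup of `H` normalised by `H` lies in `O2in H`. -/
theorem le_O2in (H N : Subgroup G) (hNH : N ≤ H) (hnorm : ∀ h ∈ H, ∀ n ∈ N, h * n * h⁻¹ ∈ N)
    (hp : IsPGroup 2 N) : N ≤ O2in H := by
  intro n hn
  refine ⟨⟨n, hNH hn⟩, ?_, rfl⟩
  have hmem : N.subgroupOf H ∈ {K : Subgroup ↥H | K.Normal ∧ IsPGroup 2 K} := by
    refine ⟨?_, ?_⟩
    · constructor
      intro x hx h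
      rw [Subgroup.mem_subgroupOf] at hx ⊢
      exact hnorm h h.2 x hx
    · intro x
      obtain ⟨k, hk⟩ := hp ⟨(x : ↥H), x.2⟩
      refine ⟨k, ?_⟩
      apply Subtype.ext
      apply Subtype.ext
      have := congrArg (fun y : ↥N => (y : G)) hk
      simpa using this
  exact (le_sSup (a := N.subgroupOf H) hmem) (by rw [Subgroup.mem_subgroupOf]; exact hn)

theorem centralizer_conj (x g : G) :
    Subgroup.centralizer ({g * x * g⁻¹} : Set G) =
      (Subgroup.centralizer ({x} : Set G)).map ((MulAut.conj g : G ≃* G) : G →* G) := by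
  ext y
  constructor
  · intro hy
    rw [Subgroup.mem_centralizer_singleton_iff] at hy
    refine ⟨g⁻¹ * y * g, Subgroup.mem_centralizer_singleton_iff.mpr ?_, ?_⟩
    · have h1 : g⁻¹ * y * g * x = g⁻¹ * (y * (g * x * g⁻¹)) * g := by group
      have h2 : x * (g⁻¹ * y * g) = g⁻¹ * ((g * x * g⁻¹) * y) * g := by group
      rw [h1, h2, hy]
    · show g * (g⁻¹ * y * g) * g⁻¹ = y
      group
  · rintro ⟨w, hw, rfl⟩
    have hw' := Subgroup.mem_centralizer_singleton_iff.mp hw
    rw [Subgroup.mem_centralizer_singleton_iff]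
    show g * w * g⁻¹ * (g * x * g⁻¹) = g * x * g⁻¹ * (g * w * g⁻¹)
    have h1 : g * w * g⁻¹ * (g * x * g⁻¹) = g * (w * x) * g⁻¹ := by group
    have h2 : g * x * g⁻¹ * (g * w * g⁻¹) = g * (x * w) * g⁻¹ := by group
    rw [h1, h2, hw']

section Setting

variable (Q : G → Subgroup G)
  (hQ : ∀ x : G, Q x = (Cfsg.pCore 2 ↥(Subgroup.centralizer ({x} : Set G))).map
    (Subgroup.centralizer ({x} : Set G)).subtype)

include hQ in
theorem Q_eq_O2in (x : G) : Q x = O2in (Subgroup.centralizer ({x} : Set G)) := hQ x

include hQ in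
theorem mem_Q_conj_iff (x g y : G) : y ∈ Q (g * x * g⁻¹) ↔ g⁻¹ * y * g ∈ Q x := by
  rw [Q_eq_O2in Q hQ, Q_eq_O2in Q hQ, centralizer_conj, O2in_map_equiv]
  constructor
  · rintro ⟨w, hw, rfl⟩
    have : g⁻¹ * ((MulAut.conj g : G ≃* G) : G →* G) w * g = w := by
      show g⁻¹ * (g * w * g⁻¹) * g = w
      group
    rw [this]; exact hw
  · intro h
    refine ⟨_, h, ?_⟩
    show g * (g⁻¹ * y * g) * g⁻¹ = y
    group

include hQ in
theorem conj_mem_Q_conj (x g q : G) (hq : q ∈ Q x) : g * q * g⁻¹ ∈ Q (g * x * g⁻¹) := by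
  rw [mem_Q_conj_iff Q hQ]
  have : g⁻¹ * (g * q * g⁻¹) * g = q := by group
  rw [this]; exact hq

/-- Facts about `Q u = O_2(C_G(u))` when it is extraspecial with centre `⟨u⟩` and
self-centralising. -/
structure ESAt (u : G) : Prop where
  ne_one : u ≠ 1
  sq : u * u = 1
  mem : u ∈ Q u
  le_cent : Q u ≤ Subgroup.centralizer ({u} : Set G)
  comm : ∀ a ∈ Q u, ∀ b ∈ Q u, a * b * a⁻¹ * b⁻¹ = 1 ∨ a * b * a⁻¹ * b⁻¹ = u
  center : ∀ y ∈ Q u, (∀ q ∈ Q u, q * y = y * q) → y = 1 ∨ y = u
  self_cent : Subgroup.centralizer (Q u : Set G) ≤ Q u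
  pgroup : IsPGroup 2 (Q u)
  normal : ∀ h ∈ Subgroup.centralizer ({u} : Set G), ∀ q ∈ Q u, h * q * h⁻¹ ∈ Q u
  maximal : ∀ N : Subgroup G, N ≤ Subgroup.centralizer ({u} : Set G) →
    (∀ h ∈ Subgroup.centralizer ({u} : Set G), ∀ n ∈ N, h * n * h⁻¹ ∈ N) → IsPGroup 2 N → N ≤ Q u

include hQ in
theorem ESAt_base (z : G) (hz : orderOf z = 2) (hE : Cfsg.IsExtraspecial 2 ↥(Q z))
    (hC : Subgroup.centralizer ((Q z : Subgroup G) : Set G) ≤ Q z) : ESAt Q z := by
  have hne : z ≠ 1 := by
    rintro rfl
    rw [orderOf_one] at hz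
    exact absurd hz (by norm_num)
  have hsq : z * z = 1 := by
    have := pow_orderOf_eq_one z
    rw [hz, pow_two] at this
    exact this
  have hle : Q z ≤ Subgroup.centralizer ({z} : Set G) := by
    rw [Q_eq_O2in Q hQ]; exact O2in_le _
  have hmem : z ∈ Q z := by
    apply hC
    rw [Subgroup.mem_centralizer_iff]
    intro h hh
    have := hle hh
    rw [Subgroup.mem_centralizer_singleton_iff] at this
    exact this
  obtain ⟨⟨hp, _, hcomm⟩, hcard⟩ := hE
  have hzc : (⟨z, hmem⟩ : ↥(Q z)) ∈ Subgroup.center ↥(Q z) := by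
    rw [Subgroup.mem_center_iff]
    intro q
    apply Subtype.ext
    have := hle q.2
    rw [Subgroup.mem_centralizer_singleton_iff] at this
    exact this
  have hcenter : ∀ y : ↥(Q z), y ∈ Subgroup.center ↥(Q z) → (y : G) = 1 ∨ (y : G) = z := by
    intro y hy
    by_cases h1 : (y : G) = 1
    · exact Or.inl h1
    · right
      obtain ⟨w, _, hw2⟩ := (Nat.card_eq_two_iff' (1 : ↥(Subgroup.center ↥(Q z)))).mp hcard
      have e1 : (⟨y, hy⟩ : ↥(Subgroup.center ↥(Q z))) = w := by
        apply hw2
        intro h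
        apply h1
        have := congrArg (fun t : ↥(Subgroup.center ↥(Q z)) => ((t : ↥(Q z)) : G)) h
        simpa using this
      have e2 : (⟨⟨z, hmem⟩, hzc⟩ : ↥(Subgroup.center ↥(Q z))) = w := by
        apply hw2
        intro h
        apply hne
        have := congrArg (fun t : ↥(Subgroup.center ↥(Q z)) => ((t : ↥(Q z)) : G)) h
        simpa using this
      have := congrArg (fun t : ↥(Subgroup.center ↥(Q z)) => ((t : ↥(Q z)) : G)) (e1.trans e2.symm)
      simpa using this
  refine ⟨hne, hsq, hmem, hle, ?_, ?_, hC, hp, ?_, ?_⟩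
  · intro a ha b hb
    have h1 : (⟨a, ha⟩ : ↥(Q z)) * ⟨b, hb⟩ * (⟨a, ha⟩ : ↥(Q z))⁻¹ * (⟨b, hb⟩ : ↥(Q z))⁻¹ ∈
        commutator ↥(Q z) :=
      Subgroup.commutator_mem_commutator (Subgroup.mem_top _) (Subgroup.mem_top _)
    rw [hcomm] at h1
    have := hcenter _ h1
    simpa using this
  · intro y hy hyc
    apply hcenter ⟨y, hy⟩
    rw [Subgroup.mem_center_iff]
    intro q
    apply Subtype.ext
    exact hyc q q.2
  · intro h hh q hq
    rw [Q_eq_O2in Q hQ] at hq ⊢
    exact O2in_conj_mem _ hh hq
  · intro N hN hnorm hpN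
    rw [Q_eq_O2in Q hQ]
    exact le_O2in _ N hN hnorm hpN

include hQ in
theorem ESAt_conj (z g : G) (h : ESAt Q z) : ESAt Q (g * z * g⁻¹) := by
  have key := mem_Q_conj_iff Q hQ z g
  have hcentz : ∀ y : G, y ∈ Subgroup.centralizer ({g * z * g⁻¹} : Set G) ↔
      g⁻¹ * y * g ∈ Subgroup.centralizer ({z} : Set G) := by
    intro y
    rw [Subgroup.mem_centralizer_singleton_iff, Subgroup.mem_centralizer_singleton_iff]
    constructor
    · intro hy
      have h1 : g⁻¹ * y * g * z = g⁻¹ * (y * (g * z * g⁻¹)) * g := by group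
      have h2 : z * (g⁻¹ * y * g) = g⁻¹ * ((g * z * g⁻¹) * y) * g := by group
      rw [h1, h2, hy]
    · intro hy
      have h1 : y * (g * z * g⁻¹) = g * (g⁻¹ * y * g * z) * g⁻¹ := by group
      have h2 : g * z * g⁻¹ * y = g * (z * (g⁻¹ * y * g)) * g⁻¹ := by group
      rw [h1, h2, hy]
  refine ⟨?_, ?_, ?_, ?_, ?_, ?_, ?_, ?_, ?_, ?_⟩
  · intro h1
    apply h.ne_one
    have : z = g⁻¹ * (g * z * g⁻¹) * g := by group
    rw [this, h1]; group
  · have : g * z * g⁻¹ * (g * z * g⁻¹) = g * (z * z) * g⁻¹ := by group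
    rw [this, h.sq]; group
  · exact conj_mem_Q_conj Q hQ z g z h.mem
  · intro y hy
    rw [hcentz]
    exact h.le_cent ((key y).mp hy)
  · intro a ha b hb
    have ha' := (key a).mp ha
    have hb' := (key b).mp hb
    have e : a * b * a⁻¹ * b⁻¹ =
        g * ((g⁻¹ * a * g) * (g⁻¹ * b * g) * (g⁻¹ * a * g)⁻¹ * (g⁻¹ * b * g)⁻¹) * g⁻¹ := by group
    rcases h.comm _ ha' _ hb' with h1 | h1
    · left; rw [e, h1]; group
    · right; rw [e, h1]
  · intro y hy hyc
    have hy' := (key y).mp hy
    have : g⁻¹ * y * g = 1 ∨ g⁻¹ * y * g = z := by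
      apply h.center _ hy'
      intro q hq
      have hq' := conj_mem_Q_conj Q hQ z g q hq
      have := hyc _ hq'
      have e1 : q * (g⁻¹ * y * g) = g⁻¹ * (g * q * g⁻¹ * y) * g := by group
      have e2 : g⁻¹ * y * g * q = g⁻¹ * (y * (g * q * g⁻¹)) * g := by group
      rw [e1, e2, this]
    rcases this with h1 | h1
    · left
      have : y = g * (g⁻¹ * y * g) * g⁻¹ := by group
      rw [this, h1]; group
    · right
      have : y = g * (g⁻¹ * y * g) * g⁻¹ := by group
      rw [this, h1]
  · intro y hy
    rw [key]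
    apply h.self_cent
    rw [Subgroup.mem_centralizer_iff] at hy ⊢
    intro q hq
    have hq' := conj_mem_Q_conj Q hQ z g q hq
    have := hy _ hq'
    have e1 : q * (g⁻¹ * y * g) = g⁻¹ * (g * q * g⁻¹ * y) * g := by group
    have e2 : g⁻¹ * y * g * q = g⁻¹ * (y * (g * q * g⁻¹)) * g := by group
    rw [e1, e2, this]
  · intro y
    obtain ⟨k, hk⟩ := h.pgroup ⟨g⁻¹ * (y : G) * g, (key y).mp y.2⟩
    refine ⟨k, ?_⟩
    apply Subtype.ext
    have hk' := congrArg (fun t : ↥(Q z) => (t : G)) hk
    simp only [Subgroup.coe_pow, Subgroup.coe_one] at hk' ⊢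
    have e0 : (g⁻¹ * (y : G) * g) ^ 2 ^ k = g⁻¹ * (y : G) ^ 2 ^ k * g := by
      have := conj_pow (a := g⁻¹) (b := (y : G)) (i := 2 ^ k)
      simpa using this
    have e : (y : G) ^ 2 ^ k = g * (g⁻¹ * (y : G) * g) ^ 2 ^ k * g⁻¹ := by
      rw [e0]; group
    rw [e, hk']; group
  · intro x hx q hq
    rw [key]
    have := h.normal _ ((hcentz x).mp hx) _ ((key q).mp hq)
    have e : g⁻¹ * (x * q * x⁻¹) * g = g⁻¹ * x * g * (g⁻¹ * q * g) * (g⁻¹ * x * g)⁻¹ := by group
    rw [e]; exact this
  · intro N hN hnorm hpN y hy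
    rw [key]
    have hmapN : N.map ((MulAut.conj g⁻¹ : G ≃* G) : G →* G) ≤ Q z := by
      apply h.maximal
      · rintro _ ⟨n, hn, rfl⟩
        have := (hcentz n).mp (hN hn)
        show g⁻¹ * n * g⁻¹⁻¹ ∈ _
        rw [inv_inv]; exact this
      · rintro x hx _ ⟨n, hn, rfl⟩
        refine ⟨(g * x * g⁻¹) * n * (g * x * g⁻¹)⁻¹, ?_, ?_⟩
        · apply hnorm _ _ n hn
          rw [hcentz]
          have : g⁻¹ * (g * x * g⁻¹) * g = x := by group
          rw [this]; exact hx
        · show g⁻¹ * ((g * x * g⁻¹) * n * (g * x * g⁻¹)⁻¹) * g⁻¹⁻¹ = x * (g⁻¹ * n * g⁻¹⁻¹) * x⁻¹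
          group
      · exact hpN.map _
    apply hmapN
    refine ⟨y, hy, ?_⟩
    show g⁻¹ * y * g⁻¹⁻¹ = g⁻¹ * y * g
    rw [inv_inv]

/-- In `Q x`, an element `y` other than `1` and `x` is moved by some `q`: `q y q⁻¹ = x y`. -/
theorem ESAt.exists_conj {x : G} (hx : ESAt Q x) {y : G} (hy : y ∈ Q x) (hy1 : y ≠ 1)
    (hyx : y ≠ x) : ∃ q ∈ Q x, q * y * q⁻¹ = x * y := by
  by_contra hcon
  push Not at hcon
  have : y = 1 ∨ y = x := by
    apply hx.center y hy
    intro q hq
    rcases hx.comm q hq y hy with h1 | h1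
    · have : q * y = (q * y * q⁻¹ * y⁻¹) * y * q := by group
      rw [this, h1]; group
    · exfalso
      apply hcon q hq
      have : q * y * q⁻¹ = (q * y * q⁻¹ * y⁻¹) * y := by group
      rw [this, h1]
  rcases this with h | h
  · exact hy1 h
  · exact hyx h

include hQ in
/-- Key lemma: `Q x ⊓ Q y ≤ Q (y * x)` for orthogonal singular `x`, `y`. -/
theorem inter_le_Q_mul {x y : G} (hx : ESAt Q x) (hy : y ∈ Q x) (hy1 : y ≠ 1) (hyx : y ≠ x)
    (hxy : x ∈ Q (y * x)) : Q x ⊓ Q y ≤ Q (y * x) := by
  obtain ⟨q, hq, hqy⟩ := hx.exists_conj Q hy hy1 hyx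
  have hcomm : y * x = x * y := by
    have := hx.le_cent hy
    rw [Subgroup.mem_centralizer_singleton_iff] at this
    exact this
  rw [← hcomm] at hqy
  intro d hd
  obtain ⟨hd1, hd2⟩ := hd
  have h1 : q * d * q⁻¹ ∈ Q (y * x) := by
    rw [← hqy]
    exact conj_mem_Q_conj Q hQ y q d hd2
  rcases hx.comm q hq d hd1 with h2 | h2
  · have : d = (q * d * q⁻¹ * d⁻¹)⁻¹ * (q * d * q⁻¹) := by group
    rw [this, h2]
    simpa using h1
  · have : d = (q * d * q⁻¹ * d⁻¹)⁻¹ * (q * d * q⁻¹) := by group
    rw [this, h2]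
    exact (Q (y * x)).mul_mem ((Q (y * x)).inv_mem hxy) h1

/-- Two elements of `Q x` commute or commute up to the central involution `x`. -/
theorem ESAt.comm_or {x : G} (hx : ESAt Q x) {a b : G} (ha : a ∈ Q x) (hb : b ∈ Q x) :
    a * b = b * a ∨ a * b = x * (b * a) := by
  rcases hx.comm a ha b hb with h1 | h1
  · left
    have : a * b = (a * b * a⁻¹ * b⁻¹) * (b * a) := by group
    rw [this, h1, one_mul]
  · right
    have : a * b = (a * b * a⁻¹ * b⁻¹) * (b * a) := by group
    rw [this, h1]

/-- `x` commutes with every element of `Q x`. -/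
theorem ESAt.central {x : G} (hx : ESAt Q x) {a : G} (ha : a ∈ Q x) : a * x = x * a := by
  have := hx.le_cent ha
  rw [Subgroup.mem_centralizer_singleton_iff] at this
  exact this

/-- Double centraliser property in `Q x0`: if every element of `Q x0` commuting with a finite
set `S ⊆ Q x0` commutes with `x ∈ Q x0`, then `x` lies in the subgroup generated by `S` and `x0`. -/
theorem ESAt.mem_closure_of_comm {x0 : G} (h : ESAt Q x0) (S : Finset G) :
    (∀ y ∈ S, y ∈ Q x0) → ∀ x ∈ Q x0,
      (∀ g ∈ Q x0, (∀ y ∈ S, g * y = y * g) → g * x = x * g) →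
      x ∈ Subgroup.closure ((S : Set G) ∪ {x0}) := by
  classical
  induction S using Finset.induction_on with
  | empty =>
    intro _ x hx hcomm
    have : x = 1 ∨ x = x0 := by
      apply h.center x hx
      intro q hq
      exact hcomm q hq (by simp)
    rcases this with rfl | rfl
    · exact Subgroup.one_mem _
    · exact Subgroup.subset_closure (by simp)
  | insert y S hyS ih =>
    intro hS x hx hcomm
    have hyQ : y ∈ Q x0 := hS y (Finset.mem_insert_self y S)
    have hSQ : ∀ s ∈ S, s ∈ Q x0 := fun s hs => hS s (Finset.mem_insert_of_mem hs)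
    have hmono : Subgroup.closure ((S : Set G) ∪ {x0}) ≤
        Subgroup.closure (((insert y S : Finset G) : Set G) ∪ {x0}) := by
      apply Subgroup.closure_mono
      intro t ht
      rcases ht with ht | ht
      · left; simp only [Finset.coe_insert]; exact Set.mem_insert_of_mem _ ht
      · right; exact ht
    have hyc : y ∈ Subgroup.closure (((insert y S : Finset G) : Set G) ∪ {x0}) :=
      Subgroup.subset_closure (Or.inl (by simp))
    by_cases hA : ∀ m ∈ Q x0, (∀ s ∈ S, m * s = s * m) → m * y = y * m
    · apply hmono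
      apply ih hSQ x hx
      intro g hg hgS
      apply hcomm g hg
      intro t ht
      rcases Finset.mem_insert.mp ht with rfl | ht
      · exact hA g hg hgS
      · exact hgS t ht
    · push Not at hA
      obtain ⟨m0, hm0, hm0S, hm0y⟩ := hA
      have hm0y' : m0 * y = x0 * (y * m0) := (h.comm_or Q hm0 hyQ).resolve_left hm0y
      have hsq := h.sq
      -- the key claim, for either choice of `x'`
      by_cases hm0x : m0 * x = x * m0
      · apply hmono
        apply ih hSQ x hx
        intro g hg hgS
        rcases h.comm_or Q hg hyQ with hgy | hgy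
        · apply hcomm g hg
          intro t ht
          rcases Finset.mem_insert.mp ht with rfl | ht
          · exact hgy
          · exact hgS t ht
        · have hgm : (g * m0) * x = x * (g * m0) := by
            apply hcomm (g * m0) ((Q x0).mul_mem hg hm0)
            intro t ht
            rcases Finset.mem_insert.mp ht with rfl | ht
            · have hxg : x0 * g = g * x0 := (h.central Q hg).symm
              calc g * m0 * t = g * (m0 * t) := by group
                _ = g * (x0 * (t * m0)) := by rw [hm0y']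
                _ = (g * x0) * t * m0 := by group
                _ = (x0 * g) * t * m0 := by rw [hxg]
                _ = x0 * (g * t) * m0 := by group
                _ = x0 * (x0 * (t * g)) * m0 := by rw [hgy]
                _ = (x0 * x0) * t * g * m0 := by group
                _ = t * (g * m0) := by rw [hsq]; group
            · calc g * m0 * t = g * (m0 * t) := by group
                _ = g * (t * m0) := by rw [hm0S t ht]
                _ = (g * t) * m0 := by group
                _ = (t * g) * m0 := by rw [hgS t ht]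
                _ = t * (g * m0) := by group
          have : g * x * m0 = x * g * m0 := by
            calc g * x * m0 = g * (x * m0) := by group
              _ = g * (m0 * x) := by rw [hm0x]
              _ = (g * m0) * x := by group
              _ = x * (g * m0) := hgm
              _ = x * g * m0 := by group
          exact mul_right_cancel this
      · have hm0x' : m0 * x = x0 * (x * m0) := (h.comm_or Q hm0 hx).resolve_left hm0x
        have hxy : x * y ∈ Subgroup.closure ((S : Set G) ∪ {x0}) := by
          apply ih hSQ (x * y) ((Q x0).mul_mem hx hyQ)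
          intro g hg hgS
          rcases h.comm_or Q hg hyQ with hgy | hgy
          · have hgx : g * x = x * g := by
              apply hcomm g hg
              intro t ht
              rcases Finset.mem_insert.mp ht with rfl | ht
              · exact hgy
              · exact hgS t ht
            calc g * (x * y) = (g * x) * y := by group
              _ = (x * g) * y := by rw [hgx]
              _ = x * (g * y) := by group
              _ = x * (y * g) := by rw [hgy]
              _ = x * y * g := by group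
          · have hxg : x0 * g = g * x0 := (h.central Q hg).symm
            have hgm : (g * m0) * x = x * (g * m0) := by
              apply hcomm (g * m0) ((Q x0).mul_mem hg hm0)
              intro t ht
              rcases Finset.mem_insert.mp ht with rfl | ht
              · calc g * m0 * t = g * (m0 * t) := by group
                  _ = g * (x0 * (t * m0)) := by rw [hm0y']
                  _ = (g * x0) * t * m0 := by group
                  _ = (x0 * g) * t * m0 := by rw [hxg]
                  _ = x0 * (g * t) * m0 := by group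
                  _ = x0 * (x0 * (t * g)) * m0 := by rw [hgy]
                  _ = (x0 * x0) * t * g * m0 := by group
                  _ = t * (g * m0) := by rw [hsq]; group
              · calc g * m0 * t = g * (m0 * t) := by group
                  _ = g * (t * m0) := by rw [hm0S t ht]
                  _ = (g * t) * m0 := by group
                  _ = (t * g) * m0 := by rw [hgS t ht]
                  _ = t * (g * m0) := by group
            -- from `g m0 x = x g m0` and `m0 x = x0 x m0` get `g x = x0 x g`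
            have hgx : g * x = x0 * (x * g) := by
              have e1 : x0 * (g * x) * m0 = x * g * m0 := by
                calc x0 * (g * x) * m0 = (x0 * g) * (x * m0) := by group
                  _ = (g * x0) * (x * m0) := by rw [hxg]
                  _ = g * (x0 * (x * m0)) := by group
                  _ = g * (m0 * x) := by rw [hm0x']
                  _ = (g * m0) * x := by group
                  _ = x * (g * m0) := hgm
                  _ = x * g * m0 := by group
              have e2 : x0 * (g * x) = x * g := mul_right_cancel e1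
              calc g * x = (x0 * x0) * (g * x) := by rw [hsq, one_mul]
                _ = x0 * (x0 * (g * x)) := by group
                _ = x0 * (x * g) := by rw [e2]
            have hxx0 : x * x0 = x0 * x := h.central Q hx
            calc g * (x * y) = (g * x) * y := by group
              _ = (x0 * (x * g)) * y := by rw [hgx]
              _ = x0 * x * (g * y) := by group
              _ = x0 * x * (x0 * (y * g)) := by rw [hgy]
              _ = x0 * (x * x0) * y * g := by group
              _ = x0 * (x0 * x) * y * g := by rw [hxx0]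
              _ = (x0 * x0) * x * y * g := by group
              _ = x * y * g := by rw [hsq, one_mul]
        have : x = (x * y) * y⁻¹ := by group
        rw [this]
        exact Subgroup.mul_mem _ (hmono hxy) (Subgroup.inv_mem _ hyc)

/-- Squares of elements of `Q x` are `1` or `x`. -/
theorem ESAt.sq_mem {x : G} (hx : ESAt Q x) {y : G} (hy : y ∈ Q x) : y * y = 1 ∨ y * y = x := by
  apply hx.center (y * y) ((Q x).mul_mem hy hy)
  intro q hq
  rcases hx.comm_or Q hq hy with h1 | h1
  · calc q * (y * y) = (q * y) * y := by group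
      _ = (y * q) * y := by rw [h1]
      _ = y * (q * y) := by group
      _ = y * (y * q) := by rw [h1]
      _ = y * y * q := by group
  · have hyx : y * x = x * y := hx.central Q hy
    calc q * (y * y) = (q * y) * y := by group
      _ = (x * (y * q)) * y := by rw [h1]
      _ = x * y * (q * y) := by group
      _ = x * y * (x * (y * q)) := by rw [h1]
      _ = x * (y * x) * y * q := by group
      _ = x * (x * y) * y * q := by rw [hyx]
      _ = (x * x) * y * y * q := by group
      _ = y * y * q := by rw [hx.sq, one_mul]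

theorem four_mul {a b : G} (haa : a * a = 1) (hbb : b * b = 1) (hab : a * b = b * a)
    {p q : G} (hp : p = 1 ∨ p = a ∨ p = b ∨ p = a * b) (hq : q = 1 ∨ q = a ∨ q = b ∨ q = a * b) :
    p * q = 1 ∨ p * q = a ∨ p * q = b ∨ p * q = a * b := by
  have e1 : a * (a * b) = b := by rw [← mul_assoc, haa, one_mul]
  have e2 : b * (a * b) = a := by rw [← mul_assoc, ← hab, mul_assoc, hbb, mul_one]
  have e3 : a * b * a = b := by rw [hab, mul_assoc, haa, mul_one]
  have e4 : a * b * b = a := by rw [mul_assoc, hbb, mul_one]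
  have e5 : a * b * (a * b) = 1 := by rw [← mul_assoc, e3, hbb]
  rcases hp with rfl | rfl | rfl | rfl <;> rcases hq with rfl | rfl | rfl | rfl
  · left; simp
  · right; left; simp
  · right; right; left; simp
  · right; right; right; simp
  · right; left; simp
  · left; exact haa
  · right; right; right; rfl
  · right; right; left; exact e1
  · right; right; left; simp
  · right; right; right; exact hab.symm
  · left; exact hbb
  · right; left; exact e2
  · right; right; right; simp
  · right; right; left; exact e3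
  · right; left; exact e4
  · left; exact e5

theorem four_closure {a b : G} (haa : a * a = 1) (hbb : b * b = 1) (hab : a * b = b * a)
    {x : G} (hx : x ∈ Subgroup.closure ((({b} : Finset G) : Set G) ∪ {a})) :
    x = 1 ∨ x = a ∨ x = b ∨ x = a * b := by
  induction hx using Subgroup.closure_induction with
  | mem t ht =>
    rcases ht with ht | ht
    · right; right; left; simpa using ht
    · right; left; simpa using ht
  | one => left; rfl
  | mul p q _ _ hp hq => exact four_mul haa hbb hab hp hq
  | inv p _ hp =>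
    have hinv : p⁻¹ = p := by
      have h1 := four_mul haa hbb hab hp hp
      have : p * p = 1 := by
        rcases hp with rfl | rfl | rfl | rfl
        · simp
        · exact haa
        · exact hbb
        · rw [← mul_assoc, hab, mul_assoc b a a, haa, mul_one, hbb]
      exact inv_eq_of_mul_eq_one_left this
    rw [hinv]; exact hp

end Setting

/-- The elements normalising `U` and centralising `QU` modulo `U`. -/
def stabChain (U QU : Subgroup G) : Subgroup G where
  carrier := {g | (∀ y ∈ U, g * y * g⁻¹ ∈ U ∧ g⁻¹ * y * g ∈ U) ∧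
    ∀ x ∈ QU, g * x * g⁻¹ * x⁻¹ ∈ U ∧ g⁻¹ * x * g * x⁻¹ ∈ U}
  one_mem' := by
    refine ⟨fun y hy => ?_, fun x _ => ?_⟩
    · simp [hy]
    · simp [U.one_mem]
  mul_mem' := by
    rintro a b ⟨ha1, ha2⟩ ⟨hb1, hb2⟩
    refine ⟨fun y hy => ⟨?_, ?_⟩, fun x hx => ⟨?_, ?_⟩⟩
    · have := (ha1 _ (hb1 y hy).1).1
      have e : a * b * y * (a * b)⁻¹ = a * (b * y * b⁻¹) * a⁻¹ := by group
      rw [e]; exact this
    · have := (hb1 _ (ha1 y hy).2).2
      have e : (a * b)⁻¹ * y * (a * b) = b⁻¹ * (a⁻¹ * y * a) * b := by group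
      rw [e]; exact this
    · have h1 := (ha1 _ (hb2 x hx).1).1
      have h2 := (ha2 x hx).1
      have e : a * b * x * (a * b)⁻¹ * x⁻¹ =
          a * (b * x * b⁻¹ * x⁻¹) * a⁻¹ * (a * x * a⁻¹ * x⁻¹) := by group
      rw [e]; exact U.mul_mem h1 h2
    · have h1 := (hb1 _ (ha2 x hx).2).2
      have h2 := (hb2 x hx).2
      have e : (a * b)⁻¹ * x * (a * b) * x⁻¹ =
          b⁻¹ * (a⁻¹ * x * a * x⁻¹) * b * (b⁻¹ * x * b * x⁻¹) := by group
      rw [e]; exact U.mul_mem h1 h2
  inv_mem' := by
    rintro a ⟨ha1, ha2⟩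
    refine ⟨fun y hy => ⟨?_, ?_⟩, fun x hx => ⟨?_, ?_⟩⟩
    · rw [inv_inv]; exact (ha1 y hy).2
    · rw [inv_inv]; exact (ha1 y hy).1
    · rw [inv_inv]; exact (ha2 x hx).2
    · rw [inv_inv]; exact (ha2 x hx).1

theorem mem_stabChain_iff (U QU : Subgroup G) (g : G) : g ∈ stabChain U QU ↔
    (∀ y ∈ U, g * y * g⁻¹ ∈ U ∧ g⁻¹ * y * g ∈ U) ∧
    ∀ x ∈ QU, g * x * g⁻¹ * x⁻¹ ∈ U ∧ g⁻¹ * x * g * x⁻¹ ∈ U := Iff.rfl

/-- If `u ∈ U ≤ Q u` and `QU ≤ Q u` then `Q u ≤ stabChain U QU`. -/
theorem ESAt.le_stabChain (Q : G → Subgroup G) {u : G} (h : ESAt Q u) (U QU : Subgroup G)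
    (hu : u ∈ U) (hUQ : U ≤ Q u) (hQUQ : QU ≤ Q u) : Q u ≤ stabChain U QU := by
  have aux : ∀ g ∈ Q u, ∀ y ∈ Q u, g * y * g⁻¹ * y⁻¹ ∈ U := by
    intro g hg y hy
    rcases h.comm g hg y hy with h1 | h1
    · rw [h1]; exact U.one_mem
    · rw [h1]; exact hu
  intro g hg
  have hg' : g⁻¹ ∈ Q u := (Q u).inv_mem hg
  refine ⟨fun y hy => ⟨?_, ?_⟩, fun x hx => ⟨?_, ?_⟩⟩
  · have := aux g hg y (hUQ hy)
    have e : g * y * g⁻¹ = (g * y * g⁻¹ * y⁻¹) * y := by group
    rw [e]; exact U.mul_mem this hy
  · have := aux g⁻¹ hg' y (hUQ hy)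
    rw [inv_inv] at this
    have e : g⁻¹ * y * g = (g⁻¹ * y * g * y⁻¹) * y := by group
    rw [e]; exact U.mul_mem this hy
  · exact aux g hg x (hQUQ hx)
  · have := aux g⁻¹ hg' x (hQUQ hx)
    rw [inv_inv] at this
    exact this

section Symm

variable (Q : G → Subgroup G)
  (hQ : ∀ x : G, Q x = (Cfsg.pCore 2 ↥(Subgroup.centralizer ({x} : Set G))).map
    (Subgroup.centralizer ({x} : Set G)).subtype)

theorem inZ_mul {b t t' : G} (hb : b * b = 1) (h : t = 1 ∨ t = b) (h' : t' = 1 ∨ t' = b) :
    t * t' = 1 ∨ t * t' = b := by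
  rcases h with rfl | rfl <;> rcases h' with rfl | rfl
  · left; simp
  · right; simp
  · right; simp
  · left; exact hb

theorem inZ_inv {b t : G} (hb : b * b = 1) (h : t = 1 ∨ t = b) : t⁻¹ = 1 ∨ t⁻¹ = b := by
  rcases h with rfl | rfl
  · left; simp
  · right; exact inv_eq_of_mul_eq_one_left hb

theorem conj_inv_eq {a b y' : G} (haa : a * a = 1) (hay : y' * a = a * y')
    (h : y' * b * y'⁻¹ = a * b) : y'⁻¹ * b * y' = a * b := by
  have e : y'⁻¹ * (y' * b * y'⁻¹) * y' = b := by group
  rw [h] at e
  have e5 : y'⁻¹ * a * y' = a := by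
    have h2 : y'⁻¹ * a * y' = y'⁻¹ * (a * y') := by group
    rw [h2, ← hay]; group
  have hainv : a⁻¹ = a := inv_eq_of_mul_eq_one_left haa
  have : y'⁻¹ * b * y' = (y'⁻¹ * a * y')⁻¹ * (y'⁻¹ * (a * b) * y') := by group
  rw [this, e5, e, hainv]

include hQ in
/-- Orthogonality of singular involutions is symmetric: if `a` and `b = g a g⁻¹` are such that
`b ∈ Q a`, then `a ∈ Q b`. -/
theorem ESAt.symm_orth {a : G} (ha : ESAt Q a) (g : G) (hb : g * a * g⁻¹ ∈ Q a) :
    a ∈ Q (g * a * g⁻¹) := by
  classical
  set b := g * a * g⁻¹ with hbdef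
  have hB : ESAt Q b := ESAt_conj Q hQ a g ha
  by_cases hba : b = a
  · rw [hba]; exact ha.mem
  by_contra hna
  have hb1 : b ≠ 1 := hB.ne_one
  have haa : a * a = 1 := ha.sq
  have hbb : b * b = 1 := hB.sq
  have hainv : a⁻¹ = a := inv_eq_of_mul_eq_one_left haa
  have hbinv : b⁻¹ = b := inv_eq_of_mul_eq_one_left hbb
  have hab : a * b = b * a := (ha.central Q hb).symm
  have hacb : a ∈ Subgroup.centralizer ({b} : Set G) := by
    rw [Subgroup.mem_centralizer_singleton_iff]; exact hab
  have hbca : b ∈ Subgroup.centralizer ({a} : Set G) := by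
    rw [Subgroup.mem_centralizer_singleton_iff]; exact hab.symm
  -- elements of `R = C_{Q a}(b)` normalise `Q b`
  have hRnorm : ∀ r ∈ Q a, r * b = b * r → ∀ y ∈ Q b, r * y * r⁻¹ ∈ Q b := by
    intro r _ hrb y hy
    exact hB.normal r (by rw [Subgroup.mem_centralizer_singleton_iff]; exact hrb) y hy
  -- elements of `W₀ = C_{Q b}(a)` normalise `Q a`
  have hWnorm : ∀ w ∈ Q b, a * w = w * a → ∀ q ∈ Q a, w * q * w⁻¹ ∈ Q a := by
    intro w _ hwa q hq
    exact ha.normal w (by rw [Subgroup.mem_centralizer_singleton_iff]; exact hwa.symm) q hq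
  by_cases hii : ∃ y ∈ Q b, a * y * a⁻¹ * y⁻¹ = b
  · -- case (ii): the normaliser of `⟨a, b⟩` swaps `a` and `b`
    obtain ⟨y, hy, hyab⟩ := hii
    obtain ⟨y', hy', hy'b⟩ := ha.exists_conj Q hb hb1 hba
    have hy'a : y' * a * y'⁻¹ = a := by
      have := ha.central Q hy'
      rw [this]; group
    have hyb : y * b * y⁻¹ = b := by
      have := hB.central Q hy
      rw [this]; group
    have hya : y * a * y⁻¹ = a * b := by
      have e : y * a * y⁻¹ = (a * y * a⁻¹ * y⁻¹)⁻¹ * a := by
        rw [hainv]
        have : (a * y * a * y⁻¹)⁻¹ * a = y * a⁻¹ * y⁻¹ * (a⁻¹ * a) := by group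
        rw [this, hainv, haa, mul_one]
      rw [e, hyab, hbinv, hab]
    have hy'ab : y'⁻¹ * b * y' = a * b := conj_inv_eq haa (ha.central Q hy') hy'b
    set σ := y' * y * y'⁻¹ with hσ
    have hσa : σ * a * σ⁻¹ = b := by
      have : σ * a * σ⁻¹ = y' * (y * (y'⁻¹ * a * y') * y⁻¹) * y'⁻¹ := by rw [hσ]; group
      have e2 : y'⁻¹ * a * y' = a := by
        have := ha.central Q hy'
        have h2 : y'⁻¹ * a * y' = y'⁻¹ * (a * y') := by group
        rw [h2, ← this]; group
      rw [this, e2, hya]
      have : y' * (a * b) * y'⁻¹ = (y' * a * y'⁻¹) * (y' * b * y'⁻¹) := by group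
      rw [this, hy'a, hy'b, ← mul_assoc, haa, one_mul]
    have hσb : σ * b * σ⁻¹ = a := by
      have : σ * b * σ⁻¹ = y' * (y * (y'⁻¹ * b * y') * y⁻¹) * y'⁻¹ := by rw [hσ]; group
      rw [this, hy'ab]
      have : y * (a * b) * y⁻¹ = (y * a * y⁻¹) * (y * b * y⁻¹) := by group
      have h3 : a * b * b = a := by rw [mul_assoc, hbb, mul_one]
      rw [this, hya, hyb, h3, hy'a]
    have := conj_mem_Q_conj Q hQ a σ b hb
    rw [hσa, hσb] at this
    exact hna this
  · -- case (i)
    push Not at hii
    -- 4a: the commutators `m = a y a⁻¹ y⁻¹` are involutions of `Q b` commuting with `a`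
    have h4a : ∀ y ∈ Q b, (a * y * a⁻¹ * y⁻¹ ∈ Q b) ∧
        a * (a * y * a⁻¹ * y⁻¹) = (a * y * a⁻¹ * y⁻¹) * a ∧
        (a * y * a⁻¹ * y⁻¹) * (a * y * a⁻¹ * y⁻¹) = 1 := by
      intro y hy
      set m := a * y * a⁻¹ * y⁻¹ with hm
      have hmQ : m ∈ Q b :=
        (Q b).mul_mem (hB.normal a hacb y hy) ((Q b).inv_mem hy)
      have hinvm : a * m * a⁻¹ = m⁻¹ := by
        rw [hm, hainv]
        have : (a * y * a * y⁻¹)⁻¹ = y * a⁻¹ * y⁻¹ * a⁻¹ := by group
        rw [this, hainv]
        have : a * (a * y * a * y⁻¹) * a = (a * a) * y * a * y⁻¹ * a := by group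
        rw [this, haa, one_mul]
      have hsq : m * m = 1 := by
        rcases hB.sq_mem Q hmQ with h1 | h1
        · exact h1
        · exfalso
          apply hii m hmQ
          rw [hinvm]
          have : m⁻¹ * m⁻¹ = (m * m)⁻¹ := by group
          rw [this, h1, hbinv]
      refine ⟨hmQ, ?_, hsq⟩
      have hminv : m⁻¹ = m := inv_eq_of_mul_eq_one_left hsq
      rw [hminv] at hinvm
      have : a * m = (a * m * a⁻¹) * a := by group
      rw [this, hinvm]
    by_cases hnab : ∃ r ∈ Q a, ∃ s ∈ Q a, r * b = b * r ∧ s * b = b * s ∧ r * s ≠ s * r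
    · -- `R` is not abelian
      obtain ⟨r, hr, s, hs, hrb, hsb, hrs⟩ := hnab
      have hrsa : r * s * r⁻¹ * s⁻¹ = a := by
        rcases ha.comm r hr s hs with h1 | h1
        · exfalso
          apply hrs
          have : r * s = (r * s * r⁻¹ * s⁻¹) * (s * r) := by group
          rw [this, h1, one_mul]
        · exact h1
      -- Claim D
      have hD : ∀ d, d ∈ Q a → d ∈ Q b → d = 1 ∨ d = b := by
        intro d hda hdb
        have hmem := ha.mem_closure_of_comm Q ({b} : Finset G)
          (by intro y hy; rw [Finset.mem_singleton] at hy; rw [hy]; exact hb) d hda (by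
            intro r' hr' hr'b
            have hr'b' : r' * b = b * r' := hr'b b (Finset.mem_singleton_self b)
            rcases ha.comm r' hr' d hda with h1 | h1
            · have : r' * d = (r' * d * r'⁻¹ * d⁻¹) * (d * r') := by group
              rw [this, h1, one_mul]
            · exfalso
              apply hna
              rw [← h1]
              exact (Q b).mul_mem (hRnorm r' hr' hr'b' d hdb) ((Q b).inv_mem hdb))
        rcases four_closure haa hbb hab hmem with h1 | h1 | h1 | h1
        · exact Or.inl h1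
        · exfalso; apply hna; rw [← h1]; exact hdb
        · exact Or.inr h1
        · exfalso
          apply hna
          have : a = d * b⁻¹ := by rw [h1]; group
          rw [this]
          exact (Q b).mul_mem hdb ((Q b).inv_mem hB.mem)
      -- Claim E
      have hE : ∀ r' ∈ Q a, r' * b = b * r' → ∀ w ∈ Q b, a * w = w * a →
          (r' * w * r'⁻¹ * w⁻¹ = 1 ∨ r' * w * r'⁻¹ * w⁻¹ = b) := by
        intro r' hr' hr'b w hw hwa
        apply hD
        · have h1 : w * r'⁻¹ * w⁻¹ ∈ Q a := hWnorm w hw hwa _ ((Q a).inv_mem hr')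
          have : r' * w * r'⁻¹ * w⁻¹ = r' * (w * r'⁻¹ * w⁻¹) := by group
          rw [this]
          exact (Q a).mul_mem hr' h1
        · exact (Q b).mul_mem (hRnorm r' hr' hr'b w hw) ((Q b).inv_mem hw)
      -- Claim F
      have hF : ∀ r' ∈ Q a, r' * b = b * r' → ∀ y ∈ Q b,
          (r' * y * r'⁻¹ * y⁻¹ ∈ Q b) ∧ a * (r' * y * r'⁻¹ * y⁻¹) = (r' * y * r'⁻¹ * y⁻¹) * a := by
        intro r' hr' hr'b y hy
        set c := r' * y * r'⁻¹ * y⁻¹ with hc
        have hcQ : c ∈ Q b := (Q b).mul_mem (hRnorm r' hr' hr'b y hy) ((Q b).inv_mem hy)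
        refine ⟨hcQ, ?_⟩
        obtain ⟨hmQ, hma, hmsq⟩ := h4a y hy
        set m := a * y * a⁻¹ * y⁻¹ with hm
        have hminv : m⁻¹ = m := inv_eq_of_mul_eq_one_left hmsq
        have har' : a * r' = r' * a := (ha.central Q hr').symm
        have key : a * c * a⁻¹ * c⁻¹ = (r' * m * r'⁻¹ * m⁻¹) * (m * c * m⁻¹ * c⁻¹) := by
          have e1 : a * c * a⁻¹ = (a * r' * a⁻¹) * (a * y * a⁻¹) * (a * r' * a⁻¹)⁻¹ *
              (a * y * a⁻¹)⁻¹ := by rw [hc]; group
          have e2 : a * r' * a⁻¹ = r' := by rw [har']; group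
          have e3 : a * y * a⁻¹ = m * y := by rw [hm]; group
          rw [e2, e3] at e1
          have : a * c * a⁻¹ * c⁻¹ = (a * c * a⁻¹) * c⁻¹ := by group
          rw [this, e1, hc]; group
        have h1 := hE r' hr' hr'b m hmQ hma
        have h2 := hB.comm m hmQ c hcQ
        have h3 := inZ_mul hbb h1 h2
        rw [← key] at h3
        rcases h3 with h3 | h3
        · have : a * c = (a * c * a⁻¹ * c⁻¹) * (c * a) := by group
          rw [this, h3, one_mul]
        · exact absurd h3 (hii c hcQ)
      -- now `a` centralises `Q b`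
      apply hna
      apply hB.self_cent
      rw [Subgroup.mem_centralizer_iff]
      intro y hy
      have hsr_b : (s * r)⁻¹ ∈ Subgroup.centralizer ({b} : Set G) := by
        apply Subgroup.inv_mem
        rw [Subgroup.mem_centralizer_singleton_iff]
        calc s * r * b = s * (r * b) := by group
          _ = s * (b * r) := by rw [hrb]
          _ = (s * b) * r := by group
          _ = (b * s) * r := by rw [hsb]
          _ = b * (s * r) := by group
      set y₀ := (s * r)⁻¹ * y * (s * r) with hy₀
      have hy₀Q : y₀ ∈ Q b := by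
        have := hB.normal _ hsr_b y hy
        rw [inv_inv] at this
        exact this
      obtain ⟨hcsQ, hcsa⟩ := hF s hs hsb y₀ hy₀Q
      obtain ⟨hcrQ, hcra⟩ := hF r hr hrb y₀ hy₀Q
      set cs := s * y₀ * s⁻¹ * y₀⁻¹ with hcs
      set cr := r * y₀ * r⁻¹ * y₀⁻¹ with hcr
      have hu1 := hE r hr hrb cs hcsQ hcsa
      have hu2 := hE s hs hsb cr hcrQ hcra
      have hu3 := hB.comm cs hcsQ cr hcrQ
      have hident : a * y * a⁻¹ * y⁻¹ =
          (r * cs * r⁻¹ * cs⁻¹) * (cs * cr * cs⁻¹ * cr⁻¹) * (s * cr * s⁻¹ * cr⁻¹)⁻¹ := by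
        have hy' : y = (s * r) * y₀ * (s * r)⁻¹ := by rw [hy₀]; group
        rw [hy', ← hrsa, hcs, hcr]
        group
      have hz := inZ_mul hbb (inZ_mul hbb hu1 hu3) (inZ_inv hbb hu2)
      rw [← hident] at hz
      rcases hz with hz | hz
      · have : a * y = (a * y * a⁻¹ * y⁻¹) * (y * a) := by group
        rw [this, hz, one_mul]
      · exact absurd hz (hii y hy)
    · -- `R` is abelian, so `R = {1, a, b, ab}`
      push Not at hnab
      have hR : ∀ r ∈ Q a, r * b = b * r → r = 1 ∨ r = a ∨ r = b ∨ r = a * b := by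
        intro r hr hrb
        have hmem := ha.mem_closure_of_comm Q ({b} : Finset G)
          (by intro y hy; rw [Finset.mem_singleton] at hy; rw [hy]; exact hb) r hr (by
            intro r' hr' hr'b
            have hr'b' : r' * b = b * r' := hr'b b (Finset.mem_singleton_self b)
            exact hnab r' hr' r hr hr'b' hrb)
        exact four_closure haa hbb hab hmem
      -- some `y ∈ Q b` is moved by `a`
      have hex : ∃ y ∈ Q b, a * y * a⁻¹ * y⁻¹ ≠ 1 := by
        by_contra hall
        push Not at hall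
        apply hna
        apply hB.self_cent
        rw [Subgroup.mem_centralizer_iff]
        intro y hy
        have : a * y = (a * y * a⁻¹ * y⁻¹) * (y * a) := by group
        rw [this, hall y hy, one_mul]
      obtain ⟨y, hy, hy1⟩ := hex
      obtain ⟨hmQ, hma, hmsq⟩ := h4a y hy
      set m := a * y * a⁻¹ * y⁻¹ with hm
      have hmb : m ≠ b := hii y hy
      have hminv : m⁻¹ = m := inv_eq_of_mul_eq_one_left hmsq
      have hmbc : m * b = b * m := hB.central Q hmQ
      -- `m ∉ Q a`
      have hmA : m ∉ Q a := by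
        intro hmA
        rcases hR m hmA hmbc with h1 | h1 | h1 | h1
        · exact hy1 h1
        · apply hna; rw [← h1]; exact hmQ
        · exact hmb h1
        · apply hna
          have : a = m * b⁻¹ := by rw [h1]; group
          rw [this]
          exact (Q b).mul_mem hmQ ((Q b).inv_mem hB.mem)
      obtain ⟨y', hy', hy'b⟩ := ha.exists_conj Q hb hb1 hba
      -- `ρ = m y' m⁻¹ y'⁻¹ ∈ R`
      have hmy' : m * y' * m⁻¹ ∈ Q a := hWnorm m hmQ hma y' hy'
      set ρ := m * y' * m⁻¹ * y'⁻¹ with hρ
      have hρA : ρ ∈ Q a := (Q a).mul_mem hmy' ((Q a).inv_mem hy')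
      have hmab : m * (a * b) * m⁻¹ = a * b := by
        have : m * (a * b) * m⁻¹ = (m * a) * (b * m⁻¹) := by group
        rw [this, ← hma, hminv, ← hmbc]; 
        have : a * m * (m * b) = a * (m * m) * b := by group
        rw [this, hmsq, mul_one]
      have hρb : ρ * b = b * ρ := by
        -- `m y' m⁻¹` and `y'` both conjugate `b` to `a b`
        have e1 : (m * y' * m⁻¹) * b * (m * y' * m⁻¹)⁻¹ = a * b := by
          have : (m * y' * m⁻¹) * b * (m * y' * m⁻¹)⁻¹ =
              m * (y' * (m⁻¹ * b * m) * y'⁻¹) * m⁻¹ := by group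
          have e0 : m⁻¹ * b * m = b := by
            have : m⁻¹ * b * m = m⁻¹ * (b * m) := by group
            rw [this, ← hmbc]; group
          rw [this, e0, hy'b, hmab]
        have e2 : y'⁻¹ * (a * b) * y' = b := by rw [← hy'b]; group
        have : ρ * b * ρ⁻¹ = (m * y' * m⁻¹) * (y'⁻¹ * ((m * y' * m⁻¹)⁻¹ *
            ((m * y' * m⁻¹) * b * (m * y' * m⁻¹)⁻¹) * (m * y' * m⁻¹)) * y') *
            (m * y' * m⁻¹)⁻¹ := by rw [hρ]; group
        have e3 : ρ * b * ρ⁻¹ = b := by
          rw [hρ]
          have : m * y' * m⁻¹ * y'⁻¹ * b * (m * y' * m⁻¹ * y'⁻¹)⁻¹ =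
              (m * y' * m⁻¹) * (y'⁻¹ * b * y') * (m * y' * m⁻¹)⁻¹ := by group
          rw [this]
          -- `y'⁻¹ b y' = a b`
          have e4 : y'⁻¹ * b * y' = a * b := conj_inv_eq haa (ha.central Q hy') hy'b
          rw [e4]
          -- `(m y' m⁻¹) (a b) (m y' m⁻¹)⁻¹ = b`
          have : m * y' * m⁻¹ * (a * b) * (m * y' * m⁻¹)⁻¹ =
              m * (y' * (m⁻¹ * (a * b) * m) * y'⁻¹) * m⁻¹ := by group
          have e7 : m⁻¹ * (a * b) * m = a * b := by
            have : m⁻¹ * (a * b) * m = m⁻¹ * (m * (a * b) * m⁻¹) * m := by rw [hmab]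
            rw [this]; group
          have e8 : y' * (a * b) * y'⁻¹ = b := by
            have hy'a : y' * a * y'⁻¹ = a := by
              have := ha.central Q hy'
              rw [this]; group
            have : y' * (a * b) * y'⁻¹ = (y' * a * y'⁻¹) * (y' * b * y'⁻¹) := by group
            rw [this, hy'a, hy'b, ← mul_assoc, haa, one_mul]
          have e9 : m * b * m⁻¹ = b := by rw [hmbc]; group
          rw [this, e7, e8, e9]
        have : ρ * b = (ρ * b * ρ⁻¹) * ρ := by group
        rw [this, e3]
      -- the four cases for `ρ`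
      have hQa_split : ∀ q ∈ Q a, q * b = b * q ∨ (q * y'⁻¹) * b = b * (q * y'⁻¹) := by
        intro q hq
        rcases ha.comm_or Q hq hb with h1 | h1
        · exact Or.inl h1
        · right
          -- `q b q⁻¹ = a b = y' b y'⁻¹`
          have e1 : y'⁻¹ * b = (a * b) * y'⁻¹ := by
            have e2 : y'⁻¹ * b * y' = a * b := conj_inv_eq haa (ha.central Q hy') hy'b
            have : y'⁻¹ * b = (y'⁻¹ * b * y') * y'⁻¹ := by group
            rw [this, e2]
          have hqa : q * a = a * q := ha.central Q hq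
          calc q * y'⁻¹ * b = q * (y'⁻¹ * b) := by group
            _ = q * ((a * b) * y'⁻¹) := by rw [e1]
            _ = (q * a) * b * y'⁻¹ := by group
            _ = (a * q) * b * y'⁻¹ := by rw [hqa]
            _ = a * (q * b) * y'⁻¹ := by group
            _ = a * (a * (b * q)) * y'⁻¹ := by rw [h1]
            _ = (a * a) * b * (q * y'⁻¹) := by group
            _ = b * (q * y'⁻¹) := by rw [haa, one_mul]
      -- helper: if `m' ∈ C(a)` commutes with `R` and with `y'` then it centralises `Q a`
      have hcentral : ∀ m' : G, m' * a = a * m' → m' * b = b * m' → m' * y' = y' * m' →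
          m' ∈ Subgroup.centralizer (Q a : Set G) := by
        intro m' hm'a hm'b hm'y
        rw [Subgroup.mem_centralizer_iff]
        intro q hq
        have hRcomm : ∀ r ∈ Q a, r * b = b * r → r * m' = m' * r := by
          intro r hr hrb
          rcases hR r hr hrb with h1 | h1 | h1 | h1
          · rw [h1]; simp
          · rw [h1]; exact hm'a.symm
          · rw [h1]; exact hm'b.symm
          · rw [h1]
            calc a * b * m' = a * (b * m') := by group
              _ = a * (m' * b) := by rw [hm'b]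
              _ = (a * m') * b := by group
              _ = (m' * a) * b := by rw [hm'a]
              _ = m' * (a * b) := by group
        rcases hQa_split q hq with h1 | h1
        · exact hRcomm q hq h1
        · have h2 := hRcomm (q * y'⁻¹) ((Q a).mul_mem hq ((Q a).inv_mem hy')) h1
          calc q * m' = (q * y'⁻¹) * (y' * m') := by group
            _ = (q * y'⁻¹) * (m' * y') := by rw [hm'y]
            _ = ((q * y'⁻¹) * m') * y' := by group
            _ = (m' * (q * y'⁻¹)) * y' := by rw [h2]
            _ = m' * q := by group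
      rcases hR ρ hρA hρb with h1 | h1 | h1 | h1
      · -- `m` commutes with `y'`
        apply hmA
        apply ha.self_cent
        apply hcentral m hma.symm hmbc
        have : m * y' = (m * y' * m⁻¹ * y'⁻¹) * (y' * m) := by group
        rw [this, ← hρ, h1, one_mul]
      · -- `m b` centralises `Q a`
        apply hmA
        have hmbA : m * b ∈ Q a := by
          apply ha.self_cent
          apply hcentral (m * b)
          · calc m * b * a = m * (b * a) := by group
              _ = m * (a * b) := by rw [hab]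
              _ = (m * a) * b := by group
              _ = (a * m) * b := by rw [hma]
              _ = a * (m * b) := by group
          · calc m * b * b = m * (b * b) := by group
              _ = (b * b) * m := by rw [hbb]; group
              _ = b * (b * m) := by group
              _ = b * (m * b) := by rw [hmbc]
          · -- `m y' = a y' m` and `b y' = a y' b`
            have e1 : m * y' = a * (y' * m) := by
              have : m * y' = (m * y' * m⁻¹ * y'⁻¹) * (y' * m) := by group
              rw [this, ← hρ, h1]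
            have e2 : y' * b = a * (b * y') := by
              have : y' * b = (y' * b * y'⁻¹) * y' := by group
              rw [this, hy'b]; group
            have hay' : a * y' = y' * a := (ha.central Q hy').symm
            calc m * b * y' = m * (b * y') := by group
              _ = m * ((a * a) * (b * y')) := by rw [haa, one_mul]
              _ = m * (a * (a * (b * y'))) := by group
              _ = m * (a * (y' * b)) := by rw [e2]
              _ = (m * a) * y' * b := by group
              _ = (a * m) * y' * b := by rw [hma]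
              _ = a * (m * y') * b := by group
              _ = a * (a * (y' * m)) * b := by rw [e1]
              _ = (a * a) * y' * (m * b) := by group
              _ = y' * (m * b) := by rw [haa, one_mul]
        have : m = (m * b) * b⁻¹ := by group
        rw [this]
        exact (Q a).mul_mem hmbA ((Q a).inv_mem hb)
      · -- `ρ = b`: squares
        apply ha.ne_one
        have hsq1 : (m * y' * m⁻¹) * (m * y' * m⁻¹) = y' * y' := by
          have : (m * y' * m⁻¹) * (m * y' * m⁻¹) = m * (y' * y') * m⁻¹ := by group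
          rw [this]
          rcases ha.sq_mem Q hy' with h2 | h2
          · rw [h2]; group
          · rw [h2, ← hma]; group
        have hmy : m * y' * m⁻¹ = b * y' := by
          have : m * y' * m⁻¹ = (m * y' * m⁻¹ * y'⁻¹) * y' := by group
          rw [this, ← hρ, h1]
        have e2 : y' * b = a * (b * y') := by
          have : y' * b = (y' * b * y'⁻¹) * y' := by group
          rw [this, hy'b]; group
        rw [hmy] at hsq1
        have : b * y' * (b * y') = a * (y' * y') := by
          calc b * y' * (b * y') = b * (y' * b) * y' := by group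
            _ = b * (a * (b * y')) * y' := by rw [e2]
            _ = (b * a) * b * y' * y' := by group
            _ = (a * b) * b * y' * y' := by rw [hab]
            _ = a * (b * b) * (y' * y') := by group
            _ = a * (y' * y') := by rw [hbb, mul_one]
        rw [this] at hsq1
        exact mul_eq_right.mp hsq1
      · -- `ρ = a b`: squares
        apply ha.ne_one
        have hsq1 : (m * y' * m⁻¹) * (m * y' * m⁻¹) = y' * y' := by
          have : (m * y' * m⁻¹) * (m * y' * m⁻¹) = m * (y' * y') * m⁻¹ := by group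
          rw [this]
          rcases ha.sq_mem Q hy' with h2 | h2
          · rw [h2]; group
          · rw [h2, ← hma]; group
        have hmy : m * y' * m⁻¹ = a * b * y' := by
          have : m * y' * m⁻¹ = (m * y' * m⁻¹ * y'⁻¹) * y' := by group
          rw [this, ← hρ, h1]
        have e2 : y' * b = a * (b * y') := by
          have : y' * b = (y' * b * y'⁻¹) * y' := by group
          rw [this, hy'b]; group
        have hay' : y' * a = a * y' := ha.central Q hy'
        rw [hmy] at hsq1
        have : a * b * y' * (a * b * y') = a * (y' * y') := by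
          calc a * b * y' * (a * b * y') = a * b * (y' * a) * b * y' := by group
            _ = a * b * (a * y') * b * y' := by rw [hay']
            _ = a * (b * a) * (y' * b) * y' := by group
            _ = a * (a * b) * (a * (b * y')) * y' := by rw [hab, e2]
            _ = (a * a) * (b * a) * b * y' * y' := by group
            _ = (b * a) * b * y' * y' := by rw [haa, one_mul]
            _ = (a * b) * b * y' * y' := by rw [hab]
            _ = a * (b * b) * (y' * y') := by group
            _ = a * (y' * y') := by rw [hbb, mul_one]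
        rw [this] at hsq1
        exact mul_eq_right.mp hsq1

end Symm

section Aut

variable (Q : G → Subgroup G)

/-- Conjugation by an element normalising `U`, as an automorphism of `U`. -/
def conjEquiv (U : Subgroup G) (q : G) (h1 : ∀ y ∈ U, q * y * q⁻¹ ∈ U)
    (h2 : ∀ y ∈ U, q⁻¹ * y * q ∈ U) : ↥U ≃* ↥U where
  toFun y := ⟨q * y * q⁻¹, h1 y y.2⟩
  invFun y := ⟨q⁻¹ * y * q, h2 y y.2⟩
  left_inv y := by
    apply Subtype.ext
    show q⁻¹ * (q * (y : G) * q⁻¹) * q = y
    group
  right_inv y := by
    apply Subtype.ext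
    show q * (q⁻¹ * (y : G) * q) * q⁻¹ = y
    group
  map_mul' a b := by
    apply Subtype.ext
    show q * ((a : G) * (b : G)) * q⁻¹ = (q * (a : G) * q⁻¹) * (q * (b : G) * q⁻¹)
    group

theorem conjEquiv_apply (U : Subgroup G) (q : G) (h1 : ∀ y ∈ U, q * y * q⁻¹ ∈ U)
    (h2 : ∀ y ∈ U, q⁻¹ * y * q ∈ U) (y : ↥U) :
    ((conjEquiv U q h1 h2 y : ↥U) : G) = q * (y : G) * q⁻¹ := rfl

theorem comm_of_sq (U : Subgroup G) (hU2 : ∀ u ∈ U, u * u = 1) {a b : G} (ha : a ∈ U)
    (hb : b ∈ U) : a * b = b * a := by
  have h1 := hU2 a ha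
  have h2 := hU2 b hb
  have h3 := hU2 (a * b) (U.mul_mem ha hb)
  have hab_inv : (a * b)⁻¹ = a * b := inv_eq_of_mul_eq_one_left h3
  have ha_inv : a⁻¹ = a := inv_eq_of_mul_eq_one_left h1
  have hb_inv : b⁻¹ = b := inv_eq_of_mul_eq_one_left h2
  calc a * b = (a * b)⁻¹ := hab_inv.symm
    _ = b⁻¹ * a⁻¹ := mul_inv_rev a b
    _ = b * a := by rw [ha_inv, hb_inv]

/-- Every automorphism of a singular subgroup `U` is induced by conjugation by an element of
any subgroup `L` containing the `Q u` (`u ∈ U`, `u ≠ 1`) and normalising `U`. -/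
theorem aut_induced [Finite G] (U : Subgroup G) (hU2 : ∀ u ∈ U, u * u = 1)
    (hES : ∀ u ∈ U, u ≠ 1 → ESAt Q u) (hUQ : ∀ u ∈ U, u ≠ 1 → U ≤ Q u)
    (L : Subgroup G) (hQL : ∀ u ∈ U, u ≠ 1 → Q u ≤ L)
    (hLN : ∀ g ∈ L, ∀ y ∈ U, g * y * g⁻¹ ∈ U ∧ g⁻¹ * y * g ∈ U) :
    ∀ (N : ℕ) (φ : ↥U ≃* ↥U), Set.ncard {y : ↥U | φ y ≠ y} = N →
      ∃ g ∈ L, ∀ y : ↥U, g * (y : G) * g⁻¹ = ((φ y : ↥U) : G) := by
  classical
  intro N
  induction N using Nat.strong_induction_on with
  | _ N ih =>
    intro φ hN
    by_cases hfix : ∀ y : ↥U, φ y = y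
    · exact ⟨1, L.one_mem, fun y => by rw [hfix y]; group⟩
    · push Not at hfix
      obtain ⟨x, hx⟩ := hfix
      have hxx : (x : G) * (x : G) = 1 := hU2 x x.2
      have hx'x' : ((φ x : ↥U) : G) * ((φ x : ↥U) : G) = 1 := hU2 _ (φ x).2
      obtain ⟨c, hc⟩ : ∃ c : G, c = (x : G) * ((φ x : ↥U) : G) := ⟨_, rfl⟩
      have hcU : c ∈ U := by rw [hc]; exact U.mul_mem x.2 (φ x).2
      have hc1 : c ≠ 1 := by
        intro h
        apply hx
        apply Subtype.ext
        have : ((φ x : ↥U) : G) = (x : G)⁻¹ := by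
          rw [hc] at h
          exact (inv_eq_of_mul_eq_one_right h).symm
        rw [this]
        exact inv_eq_of_mul_eq_one_left hxx
      have hESc := hES c hcU hc1
      have hfin : {y : G | ∃ h : y ∈ U, φ ⟨y, h⟩ = ⟨y, h⟩}.Finite := Set.toFinite _
      have hx'Q : ((φ x : ↥U) : G) ∈ Q c := hUQ c hcU hc1 (φ x).2
      -- find `q`
      have hq : ∃ q ∈ Q c, (∀ y ∈ hfin.toFinset, q * y = y * q) ∧
          q * ((φ x : ↥U) : G) ≠ ((φ x : ↥U) : G) * q := by
        by_contra hcon
        push Not at hcon
        have hmem := hESc.mem_closure_of_comm Q hfin.toFinset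
          (by
            intro y hy
            rw [Set.Finite.mem_toFinset] at hy
            obtain ⟨h, _⟩ := hy
            exact hUQ c hcU hc1 h) _ hx'Q hcon
        -- elements of the closure are fixed by `φ` up to multiplication by `c`
        have key : ∀ y ∈ Subgroup.closure ((hfin.toFinset : Set G) ∪ {c}),
            ∃ h : y ∈ U, φ ⟨y, h⟩ = ⟨y, h⟩ ∨
              ∃ h' : c * y ∈ U, φ ⟨c * y, h'⟩ = ⟨c * y, h'⟩ := by
          intro y hy
          induction hy using Subgroup.closure_induction with
          | mem t ht =>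
            rcases ht with ht | ht
            · rw [Finset.mem_coe, Set.Finite.mem_toFinset] at ht
              obtain ⟨h, h'⟩ := ht
              exact ⟨h, Or.inl h'⟩
            · rw [Set.mem_singleton_iff] at ht
              rw [ht]
              refine ⟨hcU, Or.inr ⟨U.mul_mem hcU hcU, ?_⟩⟩
              have e : (⟨c * c, U.mul_mem hcU hcU⟩ : ↥U) = 1 := Subtype.ext (hU2 c hcU)
              rw [e, map_one]
          | one => exact ⟨U.one_mem, Or.inl (map_one φ)⟩
          | mul p q _ _ hp hq =>
            obtain ⟨hpU, hp⟩ := hp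
            obtain ⟨hqU, hq⟩ := hq
            refine ⟨U.mul_mem hpU hqU, ?_⟩
            rcases hp with hp | ⟨hp', hp⟩ <;> rcases hq with hq | ⟨hq', hq⟩
            · left
              have e : (⟨p * q, U.mul_mem hpU hqU⟩ : ↥U) = ⟨p, hpU⟩ * ⟨q, hqU⟩ := rfl
              rw [e, map_mul, hp, hq]
            · right
              have hcomm : c * p = p * c := comm_of_sq U hU2 hcU hpU
              have e0 : c * (p * q) = p * (c * q) := by
                rw [← mul_assoc, hcomm, mul_assoc]
              refine ⟨by rw [e0]; exact U.mul_mem hpU hq', ?_⟩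
              have e : (⟨c * (p * q), by rw [e0]; exact U.mul_mem hpU hq'⟩ : ↥U) =
                  ⟨p, hpU⟩ * ⟨c * q, hq'⟩ := Subtype.ext e0
              rw [e, map_mul, hp, hq]
            · right
              have e0 : c * (p * q) = (c * p) * q := by rw [mul_assoc]
              refine ⟨by rw [e0]; exact U.mul_mem hp' hqU, ?_⟩
              have e : (⟨c * (p * q), by rw [e0]; exact U.mul_mem hp' hqU⟩ : ↥U) =
                  ⟨c * p, hp'⟩ * ⟨q, hqU⟩ := Subtype.ext e0
              rw [e, map_mul, hp, hq]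
            · left
              have hcomm : c * p = p * c := comm_of_sq U hU2 hcU hpU
              have e0 : p * q = (c * p) * (c * q) := by
                calc p * q = p * (c * c) * q := by rw [hU2 c hcU, mul_one]
                  _ = (p * c) * (c * q) := by group
                  _ = (c * p) * (c * q) := by rw [hcomm]
              have e : (⟨p * q, U.mul_mem hpU hqU⟩ : ↥U) = ⟨c * p, hp'⟩ * ⟨c * q, hq'⟩ :=
                Subtype.ext e0
              rw [e, map_mul, hp, hq]
          | inv p _ hp =>
            obtain ⟨hpU, hp⟩ := hp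
            have hinv : p⁻¹ = p := inv_eq_of_mul_eq_one_left (hU2 p hpU)
            rw [hinv]
            exact ⟨hpU, hp⟩
        obtain ⟨h, hfx⟩ := key _ hmem
        rcases hfx with hfx | ⟨h', hfx⟩
        · apply hx
          apply φ.injective
          exact hfx
        · apply hx
          have e : (⟨c * ((φ x : ↥U) : G), h'⟩ : ↥U) = x := by
            apply Subtype.ext
            show c * ((φ x : ↥U) : G) = x
            rw [hc, mul_assoc, hx'x', mul_one]
          rw [e] at hfx
          exact hfx
      obtain ⟨q, hqQ, hqS, hqx⟩ := hq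
      have hqL : q ∈ L := hQL c hcU hc1 hqQ
      have hqx' : q * ((φ x : ↥U) : G) * q⁻¹ = x := by
        rcases hESc.comm q hqQ _ hx'Q with h1 | h1
        · exfalso
          apply hqx
          have : q * ((φ x : ↥U) : G) =
              (q * ((φ x : ↥U) : G) * q⁻¹ * ((φ x : ↥U) : G)⁻¹) * (((φ x : ↥U) : G) * q) := by
            group
          rw [this, h1, one_mul]
        · have : q * ((φ x : ↥U) : G) * q⁻¹ =
              (q * ((φ x : ↥U) : G) * q⁻¹ * ((φ x : ↥U) : G)⁻¹) * ((φ x : ↥U) : G) := by group
          rw [this, h1, hc, mul_assoc, hx'x', mul_one]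
      set ψ := conjEquiv U q (fun y hy => (hLN q hqL y hy).1) (fun y hy => (hLN q hqL y hy).2)
        with hψ
      set φ' := φ.trans ψ with hφ'
      have hφ'apply : ∀ y : ↥U, ((φ' y : ↥U) : G) = q * ((φ y : ↥U) : G) * q⁻¹ := fun y => rfl
      have hsub : {y : ↥U | φ' y ≠ y} ⊂ {y : ↥U | φ y ≠ y} := by
        rw [Set.ssubset_iff_of_subset]
        · refine ⟨x, hx, ?_⟩
          intro h
          apply h
          apply Subtype.ext
          rw [hφ'apply, hqx']
        · intro y hy hfy
          apply hy
          apply Subtype.ext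
          rw [hφ'apply, hfy]
          have hyS : (y : G) ∈ hfin.toFinset := by
            rw [Set.Finite.mem_toFinset]
            exact ⟨y.2, hfy⟩
          have := hqS _ hyS
          rw [this]; group
      have hlt : Set.ncard {y : ↥U | φ' y ≠ y} < N := by
        rw [← hN]
        exact Set.ncard_lt_ncard hsub (Set.toFinite _)
      obtain ⟨g', hg'L, hg'⟩ := ih _ hlt φ' rfl
      refine ⟨q⁻¹ * g', L.mul_mem (L.inv_mem hqL) hg'L, ?_⟩
      intro y
      have h1 := hg' y
      rw [hφ'apply] at h1
      have : q⁻¹ * g' * (y : G) * (q⁻¹ * g')⁻¹ = q⁻¹ * (g' * (y : G) * g'⁻¹) * q := by group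
      rw [this, h1]; group

end Aut

end Cfsg.Agent.Helper93
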