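/-
Helper93: generation of the Mathieu group `M23` by pairs of elements of prime order.

* elements of order 2 (resp. 3) of `M23` have exactly 8 (resp. 6) fixed points among the 24 points;
* an inequality of Ree type then excludes generation for the "small" triples of primes;
* for the other triples, explicit pairs (table codes) are given, with words for two standard generators.
-/
import Cfsg.Agent.Helper93.ReeIneq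
import Cfsg.Agent.Helper93.M24Class
import Cfsg.Agent.Helper89.MConcBase

set_option autoImplicit false

namespace Cfsg.Agent.Helper93.M23Gen

open Cfsg Cfsg.Agent.Helper89 Cfsg.Agent.Helper89.MConc Module

/-! ### Fixed points -/

theorem fix_pos {g : Equiv.Perm GolayPt} (hg : g ∈ Spor.M23) :
    1 ≤ (Finset.univ.filter (fun p => g p = p)).card := by
  apply Finset.card_pos.2
  exact ⟨none, Finset.mem_filter.2 ⟨Finset.mem_univ _, hg.2⟩⟩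

theorem fix_two {g : Equiv.Perm GolayPt} (hg : g ∈ Spor.M23) (h2 : orderOf g = 2) :
    (Finset.univ.filter (fun p => g p = p)).card = 8 := by
  obtain ⟨hsq, hne⟩ := Helper93.sq_of_orderOf_two h2
  have hpos := fix_pos hg
  rcases Helper93.inv_class hg.1 hsq hne with ⟨u, hu, rfl⟩ | ⟨u, hu, rfl⟩
  · rw [Helper93.card_fix_conj, Helper93.R2A_fix]
  · rw [Helper93.card_fix_conj, Helper93.R2B_fix] at hpos
    exact absurd hpos (by norm_num)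

theorem fix_three {g : Equiv.Perm GolayPt} (hg : g ∈ Spor.M23) (h3 : orderOf g = 3) :
    (Finset.univ.filter (fun p => g p = p)).card = 6 := by
  obtain ⟨hcube, hne⟩ := Helper93.cube_of_orderOf_three h3
  have hpos := fix_pos hg
  rcases Helper93.ord3_class hg.1 hcube hne with ⟨u, hu, rfl⟩ | ⟨u, hu, rfl⟩
  · rw [Helper93.card_fix_conj, Helper93.R3A_fix]
  · rw [Helper93.card_fix_conj, Helper93.R3B_fix] at hpos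
    exact absurd hpos (by norm_num)

theorem card_pts : Fintype.card GolayPt = 24 := by decide

/-! ### No generation for the small triples -/

theorem no_gen {x y : Equiv.Perm GolayPt} (hx : x ∈ Spor.M23) (hy : y ∈ Spor.M23) {p q r : ℕ}
    (hp : p.Prime) (hq : q.Prime) (hr : r.Prime)
    (hxo : orderOf x = p) (hyo : orderOf y = q) (hxyo : orderOf (x * y) = r)
    (hcl : Subgroup.closure ({x, y} : Set (Equiv.Perm GolayPt)) = Spor.M23) (hqr : q ≤ r)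
    (hbad : (p = 2 ∧ q = 3) ∨ (p = 2 ∧ q = 5 ∧ r = 5) ∨ (p = 2 ∧ q = 5 ∧ r = 7) ∨
      (p = 3 ∧ q = 3 ∧ r ≤ 7)) : False := by
  have htr : ∀ b : GolayPt, b ≠ none →
      ∃ g ∈ Subgroup.closure ({x, y} : Set (Equiv.Perm GolayPt)), g (some 0) = b := by
    intro b hb
    obtain ⟨g, hg, h1, h2⟩ := Helper7.m24_trans2 (p := none) (q := some 0) (p' := none) (q' := b)
      (by simp) (fun h => hb h.symm)
    refine ⟨g, ?_, h2⟩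
    rw [hcl]
    exact ⟨hg, h1⟩
  have hree := Ree.ree_two (x := x) (y := y) none (some 0) htr
  rw [card_pts] at hree
  have hxy : x * y ∈ Spor.M23 := mul_mem hx hy
  obtain ⟨cx, hcx, hdx⟩ := Ree.fix_dim_ge hp hxo
  obtain ⟨cy, hcy, hdy⟩ := Ree.fix_dim_ge hq hyo
  obtain ⟨cz, hcz, hdz⟩ := Ree.fix_dim_ge hr hxyo
  rw [card_pts] at hcx hcy hcz
  have fx := fix_pos hx
  have fy := fix_pos hy
  have fz := fix_pos hxy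
  rcases hbad with ⟨rfl, rfl⟩ | ⟨rfl, rfl, rfl⟩ | ⟨rfl, rfl, rfl⟩ | ⟨rfl, rfl, hr7⟩
  · rw [fix_two hx hxo] at hcx
    rw [fix_three hy hyo] at hcy
    have hr1 : 1 ≤ r := hr.one_lt.le
    have hcz1 : 1 ≤ cz := by
      rcases Nat.eq_zero_or_pos cz with h | h
      · rw [h, zero_mul] at hcz
        omega
      · exact h
    norm_num at hcx hcy
    omega
  · rw [fix_two hx hxo] at hcx
    norm_num at hcx hcy hcz
    omega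
  · rw [fix_two hx hxo] at hcx
    norm_num at hcx hcy hcz
    omega
  · rw [fix_three hx hxo] at hcx
    rw [fix_three hy hyo] at hcy
    norm_num at hcx hcy
    have hr3 : 3 ≤ r := hqr
    interval_cases r
    · rw [fix_three hxy hxyo] at hcz
      norm_num at hcz
      omega
    · exact absurd hr (by norm_num)
    · norm_num at hcz
      omega
    · exact absurd hr (by norm_num)
    · norm_num at hcz
      omega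

/-! ### Certificates of generation -/

/-- Primes, codes of `x`, `x⁻¹`, `y`, `y⁻¹`, and words in `x, x⁻¹, y, y⁻¹` for two generators of `M23`. -/
structure Cert where
  p : ℕ
  q : ℕ
  r : ℕ
  cx : ℕ
  cxi : ℕ
  cy : ℕ
  cyi : ℕ
  wA : List ℕ
  wC : List ℕ

/-- Some point is moved. -/
def moves (c : ℕ) : Bool := (List.range 24).any (fun j => !(Nat.beq (Helper7.tbl c j) j))

theorem moves_spec {c : ℕ} (h : moves c = true) : ∃ j, j < 24 ∧ Helper7.tbl c j ≠ j := by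
  obtain ⟨j, hj, hne⟩ := List.any_eq_true.1 h
  refine ⟨j, List.mem_range.1 hj, ?_⟩
  rw [Bool.not_eq_true'] at hne
  exact Nat.ne_of_beq_eq_false hne

/-- The word `(y⁻¹ x⁻¹)^n`. -/
def zw : ℕ → List ℕ
  | 0 => []
  | n + 1 => 3 :: 1 :: zw n

theorem ev_zw {G : Type*} [Group G] (f : ℕ → G) (n : ℕ) : ev f (zw n) = (f 3 * f 1) ^ n := by
  induction n with
  | zero => exact (pow_zero _).symm
  | succ n ih =>
    show f 3 * (f 1 * ev f (zw n)) = _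
    rw [ih, pow_succ', mul_assoc]

/-- The check of a certificate. -/
def Cert.ok (c : Cert) : Bool :=
  Helper7.codeM24 c.cx && Nat.beq (Helper7.tbl c.cx 23) 23 &&
  Helper7.codeM24 c.cy && Nat.beq (Helper7.tbl c.cy 23) 23 &&
  pairsOK [(c.cx, c.cxi), (c.cy, c.cyi)] &&
  Nat.beq (evC (flat [(c.cx, c.cxi), (c.cy, c.cyi)]) (List.replicate c.p 0)) Helper7.idCode &&
  moves (evC (flat [(c.cx, c.cxi), (c.cy, c.cyi)]) [0]) &&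
  Nat.beq (evC (flat [(c.cx, c.cxi), (c.cy, c.cyi)]) (List.replicate c.q 2)) Helper7.idCode &&
  moves (evC (flat [(c.cx, c.cxi), (c.cy, c.cyi)]) [2]) &&
  Nat.beq (evC (flat [(c.cx, c.cxi), (c.cy, c.cyi)]) (zw c.r)) Helper7.idCode &&
  moves (evC (flat [(c.cx, c.cxi), (c.cy, c.cyi)]) [3, 1]) &&
  c.wA.all (fun j => decide (j < 4)) &&
  Nat.beq (evC (flat [(c.cx, c.cxi), (c.cy, c.cyi)]) c.wA) Helper7.cA &&
  c.wC.all (fun j => decide (j < 4)) &&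
  Nat.beq (evC (flat [(c.cx, c.cxi), (c.cy, c.cyi)]) c.wC) Helper7.cC

theorem Cert.spec (c : Cert) (h : c.ok = true) (hp : c.p.Prime) (hq : c.q.Prime) (hr : c.r.Prime) :
    ∃ x y z : Spor.M23, orderOf x = c.p ∧ orderOf y = c.q ∧ orderOf z = c.r ∧ x * y * z = 1 ∧
      Subgroup.closure {x, y} = ⊤ := by
  unfold Cert.ok at h
  simp only [Bool.and_eq_true] at h
  obtain ⟨⟨⟨⟨⟨⟨⟨⟨⟨⟨⟨⟨⟨⟨h1, h2⟩, h3⟩, h4⟩, h5⟩, h6⟩, h7⟩, h8⟩, h9⟩, h10⟩, h11⟩, h12⟩, h13⟩, h14⟩, h15⟩ := h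
  have h2' := Nat.eq_of_beq_eq_true h2
  have h4' := Nat.eq_of_beq_eq_true h4
  have h6' := Nat.eq_of_beq_eq_true h6
  have h8' := Nat.eq_of_beq_eq_true h8
  have h10' := Nat.eq_of_beq_eq_true h10
  have h13' := Nat.eq_of_beq_eq_true h13
  have h15' := Nat.eq_of_beq_eq_true h15
  let x : ↥Spor.M23 := ⟨Helper7.permOf c.cx, mem_M23_of_code h1 h2'⟩
  let y : ↥Spor.M23 := ⟨Helper7.permOf c.cy, mem_M23_of_code h3 h4'⟩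
  have hl : [x, y].map (Spor.M23).subtype = permsOf [(c.cx, c.cxi), (c.cy, c.cyi)] := rfl
  have g0 : gl [x, y] 0 = x := rfl
  have g1 : gl [x, y] 1 = x⁻¹ := rfl
  have g2 : gl [x, y] 2 = y := rfl
  have g3 : gl [x, y] 3 = y⁻¹ := rfl
  have hxp : x ^ c.p = 1 := by
    have := ev_eq_one Spor.M23 [x, y] _ hl h5 _ h6'
    rwa [ev_replicate, g0] at this
  have hx1 : x ≠ 1 := by
    obtain ⟨j, hj, hne⟩ := moves_spec h7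
    have := ev_ne_one Spor.M23 [x, y] _ hl h5 [0] j hj hne
    rwa [show ev (gl [x, y]) [0] = gl [x, y] 0 * 1 from rfl, g0, mul_one] at this
  have hyq : y ^ c.q = 1 := by
    have := ev_eq_one Spor.M23 [x, y] _ hl h5 _ h8'
    rwa [ev_replicate, g2] at this
  have hy1 : y ≠ 1 := by
    obtain ⟨j, hj, hne⟩ := moves_spec h9
    have := ev_ne_one Spor.M23 [x, y] _ hl h5 [2] j hj hne
    rwa [show ev (gl [x, y]) [2] = gl [x, y] 2 * 1 from rfl, g2, mul_one] at this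
  have hzr : (y⁻¹ * x⁻¹) ^ c.r = 1 := by
    have := ev_eq_one Spor.M23 [x, y] _ hl h5 _ h10'
    rwa [ev_zw, g3, g1] at this
  have hz1 : y⁻¹ * x⁻¹ ≠ 1 := by
    obtain ⟨j, hj, hne⟩ := moves_spec h11
    have := ev_ne_one Spor.M23 [x, y] _ hl h5 [3, 1] j hj hne
    rwa [show ev (gl [x, y]) [3, 1] = gl [x, y] 3 * (gl [x, y] 1 * 1) from rfl, g3, g1, mul_one] at this
  have := Fact.mk hp
  have := Fact.mk hq
  have := Fact.mk hr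
  refine ⟨x, y, y⁻¹ * x⁻¹, orderOf_eq_prime hxp hx1, orderOf_eq_prime hyq hy1,
    orderOf_eq_prime hzr hz1, by group, ?_⟩
  have hgen : Subgroup.closure (gl [x, y] '' Set.Iio 4) = ⊤ := by
    refine closure_eq_top Spor.M23 [x, y] _ hl h5 4 {Helper7.gA, cubeTwist} Helper7.M23_le ?_
    intro s hs
    simp only [Set.mem_insert_iff, Set.mem_singleton_iff] at hs
    rcases hs with rfl | rfl
    · refine ⟨c.wA, fun j hj => of_decide_eq_true (List.all_eq_true.1 h12 j hj), ?_⟩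
      rw [h13']
      exact Helper7.isTbl_gA
    · refine ⟨c.wC, fun j hj => of_decide_eq_true (List.all_eq_true.1 h14 j hj), ?_⟩
      rw [h15']
      exact Helper7.isTbl_cubeTwist
  rw [eq_top_iff, ← hgen, Subgroup.closure_le]
  rintro _ ⟨j, hj, rfl⟩
  have hj4 : j < 4 := hj
  have hxm : x ∈ Subgroup.closure ({x, y} : Set ↥Spor.M23) := Subgroup.subset_closure (Set.mem_insert _ _)
  have hym : y ∈ Subgroup.closure ({x, y} : Set ↥Spor.M23) :=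
    Subgroup.subset_closure (Set.mem_insert_of_mem _ rfl)
  interval_cases j
  · rw [g0]; exact hxm
  · rw [g1]; exact inv_mem hxm
  · rw [g2]; exact hym
  · rw [g3]; exact inv_mem hym

/-- The certificates, one for each triple of primes for which `M23` is generated. -/
def certs : List Cert := [
  ⟨2, 5, 11, 0xbd9b49a17078ea5884523918672540, 0xbd9b49a17078ea5884523918672540, 0xb9a63095806bad55c2475128f48a28, 0xbb585aa42a239f159c6045a46a0a70,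
    [2, 2, 0, 3, 3, 0, 3, 3, 0, 2, 0, 2, 0, 3, 3, 0, 3, 1, 2, 2, 1, 2, 1, 3, 1, 3],
    [3, 0, 3, 0, 3, 0, 2, 0, 3, 3, 0, 2, 2, 0, 3, 3, 1, 2, 1, 2, 1, 2, 1, 2]⟩,
  ⟨2, 5, 23, 0xbc56114ad07b9a0a99093a8642ce8c, 0xbc56114ad07b9a0a99093a8642ce8c, 0xbd8353bc806a60b1168a41a6c1c5d2, 0xbda892804d905e4621c7999511aeb0,
    [3, 3, 0, 2, 0, 3, 3, 0, 2, 0, 2, 0, 3, 3, 0, 2, 1, 2, 2, 1, 2, 1, 2, 1, 2],
    [3, 3, 0, 2, 0, 2, 2, 0, 3, 3, 0, 2, 2, 0, 3, 0, 3, 3, 1, 3, 3, 1, 3, 3, 1, 2, 1]⟩,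
  ⟨2, 7, 7, 0xbd86c3bdc1945b45a928994c0a8a04, 0xbd86c3bdc1945b45a928994c0a8a04, 0xbbecd9add010460491945165589d06, 0xbd48899470b468991d61100ca6bdcc,
    [0, 3, 0, 3, 3, 3, 0, 3, 3, 3, 0, 3, 3, 3, 0, 2, 2, 1, 2, 2, 1, 2, 1, 3],
    [2, 2, 0, 2, 2, 0, 2, 2, 2, 0, 2, 2, 2, 0, 2, 1, 2, 1, 3, 1, 3, 1, 3, 3, 3]⟩,
  ⟨2, 7, 11, 0xbc5f29d2d0a89a55808838d893382a, 0xbc5f29d2d0a89a55808838d893382a, 0xbd447951ed419c40b22bb28b04cc60, 0xb9ed214d248b60a4186fa38ac0d560,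
    [0, 2, 0, 2, 2, 0, 3, 3, 3, 0, 3, 0, 3, 3, 0, 3, 1, 2, 1, 2, 1, 2, 2, 1, 3, 1],
    [2, 0, 2, 0, 2, 2, 2, 0, 2, 0, 3, 3, 0, 2, 0, 2, 2, 1, 2, 1, 2, 1, 3, 1]⟩,
  ⟨2, 7, 23, 0xba5a69ad437baac946c12d0e480900, 0xba5a69ad437baac946c12d0e480900, 0xba264499d08b4b47b04a3d42090d76, 0xb80cca8df05c5ca0a2763c9b4124a4,
    [0, 2, 2, 0, 2, 0, 3, 0, 2, 2, 0, 2, 2, 0, 2, 2, 2, 1, 3, 3, 1, 3, 3],
    [2, 2, 0, 3, 0, 2, 2, 0, 2, 2, 0, 3, 0, 3, 1, 3, 3, 1, 2, 2, 1, 2, 1]⟩,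
  ⟨2, 11, 11, 0xbd86f9b220a39b24a16a394c1a8890, 0xbd86f9b220a39b24a16a394c1a8890, 0xb86cf29c8d8545102e48a394933263, 0xbd5c70a58fa1a025148890e71036cb,
    [3, 0, 2, 0, 2, 2, 0, 3, 0, 3, 0, 3, 0, 2, 1, 3, 1, 3, 3, 3, 1, 3],
    [2, 0, 2, 2, 2, 2, 2, 0, 2, 2, 0, 2, 2, 2, 1, 3, 1, 3, 3, 1, 2, 2, 1]⟩,
  ⟨2, 11, 23, 0xba2a93c23278d8d22a96998ab70022, 0xba2a93c23278d8d22a96998ab70022, 0xb91a34d948ab2142ae21138f37c8c0, 0xbc9ec2092d19aae5467028576a1d00,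
    [2, 2, 0, 2, 0, 3, 3, 0, 3, 0, 3, 0, 3, 0, 2, 2, 1, 2, 2, 1, 3, 1],
    [0, 2, 2, 2, 0, 2, 0, 2, 2, 2, 0, 2, 2, 0, 2, 2, 1, 2, 1, 2, 2, 1, 3]⟩,
  ⟨2, 23, 23, 0xbdaa99b22e4407252e8f088a4698e0, 0xbdaa99b22e4407252e8f088a4698e0, 0xba80b192458bd34430276c2c2355d3, 0xb944c045e6704eaa59ab40e1299135,
    [2, 0, 2, 2, 2, 2, 2, 0, 2, 0, 3, 3, 3, 3, 1, 2, 1, 3, 3],
    [3, 0, 2, 2, 2, 2, 2, 0, 2, 0, 2, 0, 3, 1, 3, 1, 3, 1, 3, 3, 1]⟩,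
  ⟨3, 3, 11, 0xbc133559d2a810c5d1e43982d28871, 0xbc9eaa40164c48c5cead39868088ae, 0xb8826aca8f4d80d51e085c4a41ba6c, 0xbba710c8c9809803ade8550a41daad,
    [1, 2, 1, 3, 0, 3, 0, 2, 0, 3, 1, 2, 1, 2, 1, 2, 1],
    [0, 2, 0, 3, 0, 2, 1, 2, 1, 2, 1, 3, 1, 3, 0, 2, 0, 3, 0, 3, 1, 3, 0]⟩,
  ⟨3, 3, 23, 0xb82727a1d0aa9a71c5342ad8435822, 0xb89e8ad1509c5a53393260ce458036, 0xbdaa39b482504f07adc89522533120, 0xbdaa699cac5a64253c2868c91a41c0,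
    [0, 3, 1, 2, 0, 2, 1, 3, 0, 2, 1, 3, 0, 3, 0, 2, 0, 3, 0, 3, 0],
    [1, 3, 1, 2, 0, 2, 0, 3, 1, 2, 0, 2, 1, 2, 1, 2, 1, 2, 1, 3]⟩,
  ⟨3, 5, 5, 0xb81e6aae419a1ac8d1233a8b075882, 0xb8a6a7c564a8dac9192e3d0a140216, 0xb98ea9c960a0d15496017348f60ad1, 0xb858f9c80921cc38d16dad94570910,
    [2, 1, 3, 0, 3, 3, 0, 2, 0, 2, 2, 0, 2, 0, 3, 1],
    [2, 0, 2, 1, 2, 2, 0, 3, 0, 3, 0, 3, 1]⟩,
  ⟨3, 5, 7, 0xba1d42cc557c02c6a8604c64439976, 0xb8214914ce7d56c0a8f618a644c5a8, 0xb8aac8492e28266520245be871c6cd, 0xb86a56c853340143ae2a231e81d92e,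
    [0, 3, 3, 1, 3, 1, 3, 1, 2, 2, 1, 2, 1, 3, 1, 2],
    [3, 0, 2, 1, 2, 0, 2, 2, 0, 3, 1, 2, 1, 2, 0, 2, 2]⟩,
  ⟨3, 5, 11, 0xbdaa6235456396092291824e21cc2f, 0xbdaa912d0703a4f6c4ca2d2131902c, 0xba0cd18a2772c3592ad04ce8463c05, 0xba58532e2813e83728f6854049c9a1,
    [1, 2, 1, 2, 1, 2, 1, 2, 0, 2, 2, 0, 2, 1, 2, 1, 2],
    [3, 0, 2, 2, 0, 3, 1, 3, 1, 2, 0, 2, 0, 3, 3, 0, 2]⟩,
  ⟨3, 5, 23, 0xbd2ae2a4867d9b3049503a1811ae22, 0xbbab6628287d1a5126463c2711808b, 0xbc5b4b22476052e58213a948a78866, 0xbccf4446c91b2af591b2800c5089ca,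
    [2, 0, 2, 2, 0, 2, 0, 2, 1, 2, 0, 2, 2, 0, 3, 0, 3, 3, 0, 3],
    [3, 0, 3, 3, 0, 3, 0, 2, 2, 0, 3, 3, 1, 2, 1, 2, 0, 2, 1, 2]⟩,
  ⟨3, 7, 7, 0xbd9935ca27a94cfa36084a8440b803, 0xbd9eba4a2960955998e8835c401461, 0xb89e5b55b051e6932d038919203834, 0xbce40690f0a8a2553d8972e8645823,
    [2, 2, 1, 2, 1, 3, 0, 3, 0, 3, 0, 2, 0, 3, 1, 3, 1],
    [1, 3, 1, 2, 1, 2, 1, 3, 3, 1, 2, 2, 0, 2, 2]⟩,
  ⟨3, 7, 11, 0xbd4328b1f09b934208683aca6682ca, 0xb86cc7d2708b872301a8390ab4aaa2, 0xb88956486d54288715e7026cb99831, 0xb968d1c80e4ae1323ccc409558d827,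
    [3, 1, 2, 0, 2, 1, 2, 1, 3, 1, 3, 3, 3, 0],
    [3, 0, 3, 0, 2, 2, 0, 3, 1, 3, 0, 3, 1, 3, 3, 3, 0]⟩,
  ⟨3, 7, 23, 0xbb61521c347b8ac1a97134ac24cd00, 0xb9690119157bacc4a86191db359220, 0xbb54301c509a4d47a0ab7122cb4835, 0xb8c0c788b059ec4455ca93526a4433,
    [2, 1, 2, 0, 2, 2, 2, 0, 2, 1, 2, 0, 3, 1, 3, 1],
    [2, 2, 1, 2, 1, 2, 0, 2, 2, 1, 3, 0, 3, 1, 3, 3, 1]⟩,
  ⟨3, 11, 11, 0xbc9886bcb5b09505cd263d064885c0, 0xbbe065586c906755b5343a2242b840, 0xb868201aadb494c9bc67215115b930, 0xbbe355b88050a0c1b425448c74d2d3,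
    [3, 3, 0, 3, 1, 3, 0, 3, 0, 2, 0, 3, 3, 0, 3, 1],
    [0, 3, 3, 0, 3, 0, 3, 0, 2, 1, 2, 2, 2, 0, 3, 3, 1]⟩,
  ⟨3, 11, 23, 0xbd96f9aa2323855614096c25431c28, 0xbd98499626a38ebac90010d4f83429, 0xbac91ab60814e817a8762c98071927, 0xba26d71a9158e45b2830008f54bd84,
    [0, 3, 3, 3, 3, 1, 3, 0, 2, 2, 0, 3, 0, 2, 1],
    [0, 3, 1, 3, 0, 2, 0, 2, 1, 2, 0, 2, 2, 2]⟩,
  ⟨3, 23, 23, 0xb92b47c5c9649b3b00413a0ab540c3, 0xbaeb463a429c5af20e06384b60250a, 0xbc66870ea0248a6b404a6a42c3d1eb, 0xbae22abaca0cce4020d41b1af924b0,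
    [1, 2, 0, 2, 2, 1, 3, 0, 2, 2, 0, 3, 1, 3, 0, 3, 3],
    [0, 2, 2, 0, 3, 0, 2, 1, 2, 0, 3, 3, 3, 0, 3, 3, 0]⟩,
  ⟨5, 5, 5, 0xbd003b1950905a75a5cfa950c14e24, 0xbccf613c30425a45c545648c0a0dd5, 0xbd9cda3c45205139192c3c6a050e0b, 0xbd8b362cc19568800d2d3aa0f145c4,
    [1, 2, 0, 3, 0, 2, 0, 3, 0, 0, 2, 0, 2, 1, 3, 1],
    [3, 1, 3, 1, 2, 0, 3, 1, 2, 0, 2, 1, 2, 0, 2]⟩,
  ⟨5, 5, 7, 0xb955214d944b9b631c115d50f24023, 0xbb0d095102239b13d5e552ec304c29, 0xbc0332480e5c5ec354e8515a2a0d36, 0xb8143a49d66c0ac79c284acd3112b1,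
    [0, 3, 0, 0, 2, 0, 2, 2, 0, 2, 2, 0, 2, 2, 0],
    [2, 2, 1, 3, 1, 3, 0, 2, 0, 3, 0, 0, 3, 3, 1, 1]⟩,
  ⟨5, 5, 11, 0xbc1eea4a6449aa80a8622c6c76ad80, 0xb95b38c8d6ad061129ec238f04a160, 0xb966231dd045a357b0144a9a41ae41, 0xbb988a85b05c4aa118ef94ec41d009,
    [0, 2, 1, 2, 1, 1, 2, 0, 2, 2, 0, 2, 1, 3, 3, 1, 1],
    [1, 3, 0, 3, 3, 0, 2, 1, 3, 0, 3, 1, 1, 2, 2]⟩,
  ⟨5, 5, 23, 0xb88ad09a35440e45aa747a403b324e, 0xb8e084862e382825a8cf6caac25a65, 0xb92b4625eb758a018a673351154032, 0xbbab4480828bcd380e4541db65a82c,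
    [0, 0, 3, 3, 1, 2, 1, 3, 0, 0, 3, 0, 3, 1, 2],
    [3, 0, 2, 2, 0, 3, 0, 0, 2, 0, 0, 2, 1, 2, 2, 1]⟩,
  ⟨5, 7, 7, 0xbaecd414c780c4c92a2f982a4a3921, 0xbd4a33ad2f40a8cb28338464473406, 0xbd5e3049691418e35a912166a69c28, 0xbaac92c90eab06d8920012cc7a3c33,
    [3, 0, 2, 0, 2, 0, 2, 1, 3, 0, 3, 3, 0, 0],
    [3, 0, 2, 2, 1, 2, 1, 1, 2, 1, 3, 3, 1, 3, 0, 0]⟩,
  ⟨5, 7, 11, 0xb888b9d19049a43534278d9cf416a0, 0xb98329b4f021551a2de34385565920, 0xbcdb261c862bdcb0a1361561418151, 0xba0c4b5005736b36052a941f119d62,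
    [1, 3, 1, 1, 3, 1, 2, 2, 1, 1, 3, 1, 1, 3, 3],
    [0, 3, 0, 2, 2, 0, 3, 0, 0, 3, 3, 0, 0, 2, 1]⟩,
  ⟨5, 7, 23, 0xbd8486d40c28d2f3a9d2898909d161, 0xbda421a0e4626700a9b4599e575411, 0xbb9a855a267958b1c85520030a1e69, 0xbc9030aa247daad64c14141c75a4a6,
    [1, 3, 0, 2, 2, 0, 2, 2, 2, 0, 3, 1, 1, 2],
    [0, 0, 3, 3, 1, 3, 3, 3, 1, 3, 3, 1, 2]⟩,
  ⟨5, 11, 11, 0xbcd26695c395a2c221413c16f00ab4, 0xbb820b3da62466c2a6aa3d24b80903, 0xb9c4195163045ae79675490d643150, 0xb91124cdc05b1a2884e3b15468568f,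
    [3, 1, 2, 2, 2, 0, 3, 3, 0, 3, 1, 3, 0, 2, 0],
    [2, 0, 2, 1, 3, 1, 3, 1, 3, 1, 2, 0, 3, 1, 1]⟩,
  ⟨5, 11, 23, 0xbd8c7889d043e836d553200ab90589, 0xbd94d40e70745612240fa54a764846, 0xb9e4fb020c454a4a4533734465046b, 0xbcdcb45551a1cd000d2fb11ac09452,
    [0, 2, 2, 1, 1, 3, 0, 2, 2, 2, 0, 2, 1, 2, 2, 1],
    [0, 0, 3, 3, 3, 0, 0, 3, 0, 2, 0, 3, 3, 0]⟩,
  ⟨5, 23, 23, 0xb8c1484ace384cd231558a4a87cc4b, 0xbc514148f31c18a024c47b4abb05d5, 0xbb981a59e298c0923571916aa320f0, 0xbc8b379d008d9554918208ccb7428d,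
    [3, 0, 0, 2, 1, 1, 3, 0, 2, 2, 2, 0, 3, 0, 2, 1],
    [2, 2, 2, 0, 2, 0, 2, 0, 3, 0, 2, 2, 0, 2, 1]⟩,
  ⟨7, 7, 7, 0xbd9008ace59d0cd509c1ac9301b1e4, 0xbd8ee79a640a58292cb58b6001a914, 0xb822c3d60a7a47624e8b938ad10506, 0xbb24951eb179894441c1980ab68c56,
    [2, 2, 0, 0, 2, 2, 1, 1, 3, 0, 0, 0, 2, 1, 3],
    [3, 0, 2, 0, 2, 2, 0, 2, 0, 2, 2, 0, 2, 1, 3]⟩,
  ⟨7, 7, 11, 0xbd225329909b88f6a029580f614875, 0xb901678ab0639713c90a2ce8d08d26, 0xb85d32cab44bccb1b4088b2d012887, 0xb9630a48e475546609e80366158ec9,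
    [1, 1, 2, 2, 0, 3, 1, 2, 0, 2, 0, 3, 0, 3],
    [0, 3, 1, 3, 1, 2, 2, 0, 3, 1, 1, 3, 3, 3, 0]⟩,
  ⟨7, 7, 23, 0xb96093c8d6651e122c751222d9b940, 0xbc10e1c8b56888f506869c6cb49d80, 0xbd1c9aaa367c02220e6b431b2380c5, 0xbc2764922e7d4a644a871840b531a2,
    [0, 2, 1, 1, 3, 1, 3, 1, 3, 3, 0, 2, 0, 3, 3, 1],
    [1, 2, 0, 2, 1, 3, 0, 0, 0, 3, 3, 0, 2, 1]⟩,
  ⟨7, 11, 11, 0xbc02a62cc3b2664895e83d2551380d, 0xbbc866957648813951c83c54c80ea1, 0xb81e6859489d16ca84a991c71135c4, 0xbc96e79c93a844c6c5103512028d56,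
    [2, 0, 3, 1, 3, 1, 3, 0, 3, 3, 1],
    [2, 2, 0, 0, 3, 1, 1, 2, 1, 1, 1, 3, 0, 0]⟩,
  ⟨7, 11, 23, 0xba6af681070ad5464890b167170866, 0xb9eac2a888a0e6b736d1800c9089f2, 0xbae51482037d98599d42091d5351a8, 0xbb8825d6917942db266050d86820f2,
    [0, 0, 0, 2, 2, 1, 2, 2, 2, 2, 0, 2, 2],
    [3, 3, 1, 3, 0, 3, 1, 1, 3, 1, 3, 0, 3, 3, 3]⟩,
  ⟨7, 23, 23, 0xbbd52321a123995582851a670b44e2, 0xb8d892d044b3a2d5d4d20cd0f3820a, 0xb88e85be0968eaea1584500d298636, 0xb81ab19031931e999e14a954875846,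
    [2, 1, 2, 0, 0, 3, 0, 0, 0, 3],
    [2, 2, 1, 2, 0, 2, 1, 2, 0, 0, 2, 0, 0]⟩,
  ⟨11, 11, 11, 0xbaea113891a01484c1e735a536146d, 0xb9aaf2160a4c803b356c41c510ce8e, 0xb8403aca6972acb43225a1047835e6, 0xbb6678c9230bc4a63a0b20106a16d5,
    [0, 3, 1, 3, 1, 1, 3, 1, 2, 0, 3],
    [2, 2, 2, 2, 2, 0, 2, 0, 2, 2, 2, 1, 1]⟩,
  ⟨11, 11, 23, 0xb89ab0b8857a232498679d41062a96, 0xb80c13b1a47caa3a096e42a114da65, 0xbd06c9ac48092d03ba4a302356a4af, 0xbb4969a4ac028749205059c2eac5e6,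
    [2, 0, 3, 0, 0, 0, 0, 0, 2, 1, 3, 0, 0, 3],
    [2, 1, 3, 3, 0, 2, 2, 2, 1, 1, 3, 3, 3, 0]⟩,
  ⟨11, 23, 23, 0xb9ea3829a59c9e16217624534038c2, 0xba2a47b8d368a2b4c8aab0607a0183, 0xba8ed23c28ad932601cb288d488e70, 0xbb9e40b0609268b459b0a94f311a2a,
    [1, 2, 1, 1, 2, 0, 3, 3, 1, 3, 3, 0],
    [1, 3, 1, 2, 2, 2, 0, 0, 0, 0, 0, 3, 3, 0, 2, 1]⟩,
  ⟨23, 23, 23, 0xbc2c31181191dc563eb442c819a92d, 0xbd5281be165340b3082774985a4c91, 0xbb94f40831801236919599e8b958c5, 0xb890538e0fa5969255b33040a64a2e,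
    [1, 3, 1, 3, 1, 3, 1, 3, 0, 0, 2, 1, 1, 2],
    [2, 0, 0, 0, 3, 1, 1, 2, 0, 2, 2, 1, 2, 0]⟩]

theorem certs_ok : certs.all Cert.ok = true := by decide +kernel

/-- The triples covered by the certificates. -/
def keys : List (ℕ × ℕ × ℕ) := certs.map (fun c => (c.p, c.q, c.r))

theorem cover : ∀ p ∈ [2, 3, 5, 7, 11, 23], ∀ q ∈ [2, 3, 5, 7, 11, 23], ∀ r ∈ [2, 3, 5, 7, 11, 23],
    p ≤ q → q ≤ r → ¬ (p = 2 ∧ q = 2) →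
    ¬ ((p = 2 ∧ q = 3) ∨ (p = 2 ∧ q = 5 ∧ r = 5) ∨ (p = 2 ∧ q = 5 ∧ r = 7) ∨ (p = 3 ∧ q = 3 ∧ r ≤ 7)) →
    (p, q, r) ∈ keys := by decide +kernel

theorem prime_mem {p : ℕ} (hp : p.Prime) (hd : p ∣ 10200960) : p ∈ [2, 3, 5, 7, 11, 23] := by
  have h : p ∣ 2 ^ 7 * 3 ^ 2 * 5 * 7 * 11 * 23 := by
    have e : (10200960 : ℕ) = 2 ^ 7 * 3 ^ 2 * 5 * 7 * 11 * 23 := by norm_num
    rwa [e] at hd
  have key : ∀ s : ℕ, s.Prime → p ∣ s → p = s := fun s hs h => (Nat.prime_dvd_prime_iff_eq hp hs).1 h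
  rcases (Nat.Prime.dvd_mul hp).1 h with h | h
  · rcases (Nat.Prime.dvd_mul hp).1 h with h | h
    · rcases (Nat.Prime.dvd_mul hp).1 h with h | h
      · rcases (Nat.Prime.dvd_mul hp).1 h with h | h
        · rcases (Nat.Prime.dvd_mul hp).1 h with h | h
          · have := key 2 (by norm_num) (hp.dvd_of_dvd_pow h)
            simp [this]
          · have := key 3 (by norm_num) (hp.dvd_of_dvd_pow h)
            simp [this]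
        · have := key 5 (by norm_num) h
          simp [this]
      · have := key 7 (by norm_num) h
        simp [this]
    · have := key 11 (by norm_num) h
      simp [this]
  · have := key 23 (by norm_num) h
    simp [this]

/-- Generation for the triples not excluded. -/
theorem gen_of_good {p q r : ℕ} (hp : p.Prime) (hq : q.Prime) (hr : r.Prime) (hpq : p ≤ q) (hqr : q ≤ r)
    (hp2 : ¬ (p = 2 ∧ q = 2)) (hdvd : p ∣ 10200960 ∧ q ∣ 10200960 ∧ r ∣ 10200960)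
    (hgood : ¬ ((p = 2 ∧ q = 3) ∨ (p = 2 ∧ q = 5 ∧ r = 5) ∨ (p = 2 ∧ q = 5 ∧ r = 7) ∨
      (p = 3 ∧ q = 3 ∧ r ≤ 7))) :
    ∃ x y z : Spor.M23, orderOf x = p ∧ orderOf y = q ∧ orderOf z = r ∧ x * y * z = 1 ∧
      Subgroup.closure {x, y} = ⊤ := by
  have hk := cover p (prime_mem hp hdvd.1) q (prime_mem hq hdvd.2.1) r (prime_mem hr hdvd.2.2)
    hpq hqr hp2 hgood
  obtain ⟨c, hc, he⟩ := List.mem_map.1 hk
  have e1 : c.p = p := congrArg Prod.fst he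
  have e2 : c.q = q := congrArg (fun t => t.2.1) he
  have e3 : c.r = r := congrArg (fun t => t.2.2) he
  have hok := List.all_eq_true.1 certs_ok c hc
  subst e1 e2 e3
  exact Cert.spec c hok hp hq hr

end Cfsg.Agent.Helper93.M23Gen
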