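/-
helper93: piece E21 of CALL S0978 (helper8): in a simple group of order 5040 with 120 Sylow 7-subgroups in
which proper subgroups have index at least nine, the centralizer of a Sylow 7-subgroup does not have order 21.
-/
import Cfsg.Agent.Helper9.OrdTools2
import Cfsg.Agent.Helper8.SylFix
import Cfsg.Agent.Helper8.SylSub

set_option autoImplicit false
set_option linter.style.haveILetI false
set_option maxHeartbeats 1000000

universe u

namespace Cfsg.Agent.Helper93

open Subgroup Cfsg.Agent.Helper9.OrdTools Cfsg.Agent.Helper8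

/-- an element commuting with `s` normalizes the cyclic group generated by `s`. -/
theorem o5040_mem_normalizer_zpowers {G : Type u} [Group G] {x s : G} (h : x * s = s * x) :
    x ∈ normalizer ((zpowers s : Subgroup G) : Set G) := by
  refine Subgroup.centralizer_le_normalizer _ ?_
  rw [Subgroup.mem_centralizer_iff]
  intro y hy
  obtain ⟨k, rfl⟩ := Subgroup.mem_zpowers_iff.mp hy
  have hc : Commute s x := h.symm
  exact (hc.zpow_left k).eq

/-- PIECE E21 of CALL S0978. -/
theorem o5040_c21 {G : Type u} [Group G] [Finite G] [IsSimpleGroup G]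
    (hG : Nat.card G = 5040) (hidx : ∀ H : Subgroup G, H ≠ ⊤ → 9 ≤ H.index)
    (hn : Nat.card (Sylow 7 G) = 120) (P : Sylow 7 G)
    (hC : Nat.card (Subgroup.centralizer ((P : Subgroup G) : Set G)) = 21) : False := by
  haveI : Fact (Nat.Prime 7) := ⟨by norm_num⟩
  haveI : Fact (Nat.Prime 3) := ⟨by norm_num⟩
  -- orders of Sylow 7-subgroups, their normalizers and centralizers
  have hS : ∀ Q : Sylow 7 G, Nat.card (Q : Subgroup G) = 7 := fun Q => by
    have := sylow_card (p := 7) 1 720 (by rw [hG]; norm_num) (by norm_num) Q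
    simpa using this
  have hN : ∀ Q : Sylow 7 G, Nat.card (normalizer ((Q : Subgroup G) : Set G)) = 42 := fun Q => by
    have h := (sylow_num Q (by rw [hS Q]; norm_num) (by rw [hS Q, hG]; norm_num)).2.2.2
    rw [hn, hG] at h
    omega
  have hCQ : ∀ Q : Sylow 7 G, Nat.card (centralizer ((Q : Subgroup G) : Set G)) = 21 := fun Q => by
    rw [card_centralizer_sylow_eq Q P, hC]
  -- an element `s` of order 3 in `C(P)`
  obtain ⟨s', hs'⟩ := exists_prime_orderOf_dvd_card'
    (G := centralizer ((P : Subgroup G) : Set G)) 3 (by rw [hC]; norm_num)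
  have hs3 : orderOf (s' : G) = 3 := by rw [Subgroup.orderOf_coe]; exact hs'
  have hsC : (s' : G) ∈ centralizer ((P : Subgroup G) : Set G) := s'.2
  generalize (s' : G) = s at hs3 hsC
  have hsP : ∀ x ∈ (P : Subgroup G), x * s = s * x := fun x hx =>
    (Subgroup.mem_centralizer_iff.mp hsC) x hx
  have hs_pow3 : s ^ 3 = 1 := by rw [← hs3]; exact pow_orderOf_eq_one s
  have hTcard : Nat.card (zpowers s) = 3 := by rw [Nat.card_zpowers, hs3]
  have hTp : IsPGroup 3 (zpowers s) := IsPGroup.of_card (n := 1) (by rw [hTcard, pow_one])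
  -- `C(P) = P ⊔ ⟨s⟩` normalizes `⟨s⟩`
  have hPK : (P : Subgroup G) ≤ centralizer ((P : Subgroup G) : Set G) :=
    le_centralizer_of_prime P (hS P)
  have hTK : zpowers s ≤ centralizer ((P : Subgroup G) : Set G) := (Subgroup.zpowers_le).mpr hsC
  have hsupK : (P : Subgroup G) ⊔ zpowers s = centralizer ((P : Subgroup G) : Set G) := by
    refine Subgroup.eq_of_le_of_card_ge (sup_le hPK hTK) ?_
    have h7 : 7 ∣ Nat.card ((P : Subgroup G) ⊔ zpowers s : Subgroup G) := by
      have := Subgroup.card_dvd_of_le (le_sup_left : (P : Subgroup G) ≤ (P : Subgroup G) ⊔ zpowers s)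
      rwa [hS P] at this
    have h3 : 3 ∣ Nat.card ((P : Subgroup G) ⊔ zpowers s : Subgroup G) := by
      have := Subgroup.card_dvd_of_le (le_sup_right : zpowers s ≤ (P : Subgroup G) ⊔ zpowers s)
      rwa [hTcard] at this
    have hpos : 0 < Nat.card ((P : Subgroup G) ⊔ zpowers s : Subgroup G) := Nat.card_pos
    rw [hC]
    omega
  have hKN : centralizer ((P : Subgroup G) : Set G) ≤ normalizer ((zpowers s : Subgroup G) : Set G) := by
    rw [← hsupK]
    exact sup_le (fun x hx => o5040_mem_normalizer_zpowers (hsP x hx)) Subgroup.le_normalizer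
  -- elements of order dividing 3 of `C(P)` lie in `⟨s⟩`
  have hA : ∀ t ∈ centralizer ((P : Subgroup G) : Set G), t ^ 3 = 1 → t ∈ zpowers s := by
    intro t ht ht3
    have hT'K : zpowers t ≤ centralizer ((P : Subgroup G) : Set G) := (Subgroup.zpowers_le).mpr ht
    have hT'p : IsPGroup 3 (zpowers t) := by
      have hdvd : orderOf t ∣ 3 := orderOf_dvd_of_pow_eq_one ht3
      rcases (Nat.dvd_prime (by norm_num : Nat.Prime 3)).mp hdvd with h1 | h1
      · exact IsPGroup.of_card (n := 0) (by rw [Nat.card_zpowers, h1, pow_zero])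
      · exact IsPGroup.of_card (n := 1) (by rw [Nat.card_zpowers, h1, pow_one])
    have hsup : IsPGroup 3 (zpowers t ⊔ zpowers s : Subgroup G) :=
      IsPGroup.to_sup_of_normal_right' hT'p hTp (hT'K.trans hKN)
    obtain ⟨k, hk⟩ := IsPGroup.iff_card.mp hsup
    have hdvd21 : Nat.card (zpowers t ⊔ zpowers s : Subgroup G) ∣ 21 := by
      have := Subgroup.card_dvd_of_le (sup_le hT'K hTK)
      rwa [hC] at this
    have hle3 : Nat.card (zpowers t ⊔ zpowers s : Subgroup G) ≤ 3 := by
      rw [hk] at hdvd21 ⊢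
      by_contra hcon
      have hk2 : 2 ≤ k := by
        by_contra hk2
        have : k = 0 ∨ k = 1 := by omega
        rcases this with rfl | rfl <;> simp at hcon
      have h9 : 3 ^ 2 ∣ 21 := (pow_dvd_pow 3 hk2).trans hdvd21
      omega
    have heq : zpowers s = zpowers t ⊔ zpowers s :=
      Subgroup.eq_of_le_of_card_ge le_sup_right (by rw [hTcard]; exact hle3)
    rw [heq]
    exact (le_sup_left : zpowers t ≤ zpowers t ⊔ zpowers s) (Subgroup.mem_zpowers t)
  -- `N(P)` normalizes `⟨s⟩`
  have hconj : ∀ g ∈ normalizer ((P : Subgroup G) : Set G), ∀ h ∈ zpowers s, g * h * g⁻¹ ∈ zpowers s := by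
    intro g hg h hh
    obtain ⟨k, rfl⟩ := Subgroup.mem_zpowers_iff.mp hh
    rw [← conj_zpow]
    refine Subgroup.zpow_mem _ (hA _ ?_ ?_) k
    · rw [Subgroup.mem_centralizer_iff]
      intro x hx
      have hx' : g⁻¹ * x * g ∈ (P : Subgroup G) := (Subgroup.mem_normalizer_iff''.mp hg x).mp hx
      have hcomm := hsP _ hx'
      calc x * (g * s * g⁻¹) = g * (g⁻¹ * x * g * s) * g⁻¹ := by group
        _ = g * (s * (g⁻¹ * x * g)) * g⁻¹ := by rw [hcomm]
        _ = g * s * g⁻¹ * x := by group
    · rw [conj_pow, hs_pow3, mul_one, mul_inv_cancel]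
  have hNX : normalizer ((P : Subgroup G) : Set G) ≤ normalizer ((zpowers s : Subgroup G) : Set G) := by
    intro g hg
    rw [Subgroup.mem_normalizer_iff]
    intro h
    refine ⟨fun hh => hconj g hg h hh, fun hh => ?_⟩
    have := hconj g⁻¹ (Subgroup.inv_mem _ hg) _ hh
    have e : g⁻¹ * (g * h * g⁻¹) * g⁻¹⁻¹ = h := by group
    rwa [e] at this
  -- `X = N(⟨s⟩)` is a proper subgroup
  have hXtop : normalizer ((zpowers s : Subgroup G) : Set G) ≠ ⊤ := by
    intro htop
    have hnorm : (zpowers s).Normal := Subgroup.normalizer_eq_top_iff.mp htop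
    rcases hnorm.eq_bot_or_eq_top with h | h
    · rw [h, Subgroup.card_bot] at hTcard
      omega
    · rw [h, Subgroup.card_top, hG] at hTcard
      omega
  have hXidx := hidx _ hXtop
  have hXmul := (normalizer ((zpowers s : Subgroup G) : Set G)).card_mul_index
  rw [hG] at hXmul
  -- counting Sylow 7-subgroups inside `X`
  have hPX : (P : Subgroup G) ≤ normalizer ((zpowers s : Subgroup G) : Set G) := hPK.trans hKN
  have hXcard := SylSub.card_eq_inf_normalizer_mul P _ hPX
  rw [inf_eq_right.mpr hNX, hN P] at hXcard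
  -- the Sylow 7-subgroups fixed by `s` lie in `X`
  have hfix : ∀ Q : Sylow 7 G, Q ∈ MulAction.fixedBy (Sylow 7 G) s →
      (Q : Subgroup G) ≤ normalizer ((zpowers s : Subgroup G) : Set G) := by
    intro Q hQ
    rw [MulAction.mem_fixedBy, Sylow.smul_eq_iff_mem_normalizer] at hQ
    have hCN : centralizer ((Q : Subgroup G) : Set G) ≤ normalizer ((Q : Subgroup G) : Set G) :=
      Subgroup.centralizer_le_normalizer _
    have hidx2 : ((centralizer ((Q : Subgroup G) : Set G)).subgroupOf
        (normalizer ((Q : Subgroup G) : Set G))).index = 2 := by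
      have h1 := ((centralizer ((Q : Subgroup G) : Set G)).subgroupOf
        (normalizer ((Q : Subgroup G) : Set G))).card_mul_index
      rw [Nat.card_congr (Subgroup.subgroupOfEquivOfLe hCN).toEquiv, hCQ Q, hN Q] at h1
      omega
    have hsq := Subgroup.sq_mem_of_index_two hidx2 (⟨s, hQ⟩ : normalizer ((Q : Subgroup G) : Set G))
    rw [Subgroup.mem_subgroupOf] at hsq
    have hs2 : s ^ 2 ∈ centralizer ((Q : Subgroup G) : Set G) := by simpa using hsq
    have hsQ : s ∈ centralizer ((Q : Subgroup G) : Set G) := by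
      have h4 : (s ^ 2) ^ 2 = s := by
        calc (s ^ 2) ^ 2 = s ^ 3 * s := by group
          _ = s := by rw [hs_pow3, one_mul]
      rw [← h4]
      exact Subgroup.pow_mem _ hs2 2
    intro x hx
    exact o5040_mem_normalizer_zpowers ((Subgroup.mem_centralizer_iff.mp hsQ) x hx)
  have hle1 : Nat.card (MulAction.fixedBy (Sylow 7 G) s) ≤
      Nat.card {S : Sylow 7 G // (S : Subgroup G) ≤ normalizer ((zpowers s : Subgroup G) : Set G)} := by
    refine Nat.card_le_card_of_injective
      (fun Q : MulAction.fixedBy (Sylow 7 G) s => (⟨Q.1, hfix Q.1 Q.2⟩ :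
        {S : Sylow 7 G // (S : Subgroup G) ≤ normalizer ((zpowers s : Subgroup G) : Set G)})) ?_
    intro a b hab
    have h1 : (a : Sylow 7 G) = (b : Sylow 7 G) := Subtype.mk.inj hab
    exact Subtype.ext h1
  have hle2 := SylSub.card_le_card_sylow 7 (normalizer ((zpowers s : Subgroup G) : Set G))
  have hmod7 : Nat.card (MulAction.fixedBy (Sylow 7 G) s) % 7 = 1 % 7 :=
    SylFix.card_fixedBy_modEq_one P s hsP
  have hmod3 : Nat.card (Sylow 7 G) % 3 = Nat.card (MulAction.fixedBy (Sylow 7 G) s) % 3 :=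
    SylFix.card_fixedBy_modEq (p := 7) (q := 3) (k := 1) s (by rw [hs3, pow_one])
  rw [hn] at hmod3
  have hf15 : 15 ≤ Nat.card (MulAction.fixedBy (Sylow 7 G) s) := by omega
  have h15 : 15 ≤ Nat.card (Sylow 7 (normalizer ((zpowers s : Subgroup G) : Set G))) :=
    hf15.trans (hle1.trans hle2)
  have h630 : 630 ≤ Nat.card (normalizer ((zpowers s : Subgroup G) : Set G)) := by
    rw [hXcard]
    omega
  have h9 : Nat.card (normalizer ((zpowers s : Subgroup G) : Set G)) * 9 ≤ 5040 := by
    rw [← hXmul]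
    exact Nat.mul_le_mul_left _ hXidx
  omega

end Cfsg.Agent.Helper93
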