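/-
Helper93: the stabiliser in `M24` of the octad `setOf O0` acts on the sixteen points outside the
octad as a group of affine maps of `F_2^4`; written with `5 x 5` matrices over `ZMod 2`, this
identifies the stabiliser with the matrices of `SL(5, 2)` whose row `1` is the vector `e_1`.
-/
import Cfsg.Agent.Helper7.OctStab
import Cfsg.Agent.Helper7.PermOf
import Cfsg.Agent.Helper91.Perm
import Cfsg.Agent.Helper93.M24Rigid

set_option autoImplicit false

namespace Cfsg.Agent.Helper93

open Cfsg Cfsg.Agent.Helper7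
open scoped Pointwise

/-! ### Labels -/

/-- Five codewords vanishing on the octad `setOf O0`; the second one is the complement of it. -/
def wMaskL : List ℕ := [0xecc040, 0xffeb60, 0x3da100, 0x7b4200, 0xe3a800]

/-- The `i`-th codeword vanishing on `setOf O0`. -/
def wMask (i : Fin 5) : ℕ := wMaskL.getD i.val 0

/-- The label of the point of index `k`. -/
def labN (k : ℕ) : Fin 5 → ZMod 2 := fun i => if (wMask i).testBit k = true then 1 else 0

/-- The label of a point: the values of the five codewords at it. -/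
def lab (p : GolayPt) : Fin 5 → ZMod 2 := labN (idx p)

theorem lab_apply (p : GolayPt) (i : Fin 5) : lab p i = wordOf (wMask i) p := rfl

theorem wMask_inCode : ∀ i : Fin 5, inCode (wMask i) = true := by decide +kernel

theorem wMask_and : ∀ i : Fin 5, ∀ k, k < 24 → O0.testBit k = true → (wMask i).testBit k = false := by
  decide +kernel

theorem wMask_one : ∀ k, k < 24 → O0.testBit k = false → (wMask 1).testBit k = true := by
  decide +kernel

theorem labN_inj : ∀ k, k < 24 → ∀ l, l < 24 → O0.testBit k = false → O0.testBit l = false →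
    (∀ i : Fin 5, (wMask i).testBit k = (wMask i).testBit l) → k = l := by
  decide +kernel

theorem lab_of_mem {p : GolayPt} (hp : p ∈ setOf O0) : lab p = 0 := by
  funext i
  rw [mem_setOf] at hp
  show (if (wMask i).testBit (idx p) = true then (1 : ZMod 2) else 0) = 0
  rw [wMask_and i _ (idx_lt p) hp]
  simp

theorem lab_one_of_not_mem {p : GolayPt} (hp : p ∉ setOf O0) : lab p 1 = 1 := by
  rw [mem_setOf, Bool.not_eq_true] at hp
  show (if (wMask 1).testBit (idx p) = true then (1 : ZMod 2) else 0) = 1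
  rw [wMask_one _ (idx_lt p) hp]
  simp

theorem lab_inj {p q : GolayPt} (hp : p ∉ setOf O0) (hq : q ∉ setOf O0) (h : lab p = lab q) :
    p = q := by
  rw [mem_setOf, Bool.not_eq_true] at hp hq
  apply idx_injective
  apply labN_inj _ (idx_lt p) _ (idx_lt q) hp hq
  intro i
  have h1 := congrFun h i
  have h2 : (if (wMask i).testBit (idx p) = true then (1 : ZMod 2) else 0)
      = (if (wMask i).testBit (idx q) = true then (1 : ZMod 2) else 0) := h1
  cases hb : (wMask i).testBit (idx p) <;> cases hc : (wMask i).testBit (idx q) <;>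
    simp [hb, hc] at h2 ⊢

/-! ### The codewords vanishing on the octad -/

/-- Disjunction over the two Booleans. -/
def bAny (f : Bool → Bool) : Bool := f false || f true

theorem bAny_iff (f : Bool → Bool) : bAny f = true ↔ ∃ b, f b = true := by
  rw [bAny, Bool.or_eq_true]
  constructor
  · rintro (h | h)
    · exact ⟨false, h⟩
    · exact ⟨true, h⟩
  · rintro ⟨b, h⟩
    cases b
    · exact Or.inl h
    · exact Or.inr h

/-- A mask or zero. -/
def mIf (b : Bool) (m : ℕ) : ℕ := bif b then m else 0

/-- The thirty-two sums of the five codewords. -/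
def comb5 (a b c d e : Bool) : ℕ :=
  mIf a 0xecc040 ^^^ mIf b 0xffeb60 ^^^ mIf c 0x3da100 ^^^ mIf d 0x7b4200 ^^^ mIf e 0xe3a800

/-- Test: a mask meets `O0` or is a sum of the five codewords. -/
def vanTest (m : ℕ) : Bool :=
  !(Nat.beq (m &&& O0) 0) || bAny fun a => bAny fun b => bAny fun c => bAny fun d => bAny fun e =>
    Nat.beq (comb5 a b c d e) m

theorem vanTest_all : allRange (fun c => vanTest (enc c)) 12 0 = true := by decide +kernel

/-- `0` or `1` according to a Boolean. -/
def bitZ (b : Bool) : ZMod 2 := bif b then 1 else 0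

theorem wordOf_mIf (b : Bool) (m : ℕ) (p : GolayPt) : wordOf (mIf b m) p = bitZ b * wordOf m p := by
  cases b
  · show wordOf 0 p = 0 * wordOf m p
    rw [wordOf_zero]; simp
  · show wordOf m p = 1 * wordOf m p
    rw [one_mul]

theorem and_O0_eq_zero {m : ℕ} (h0 : ∀ p ∈ setOf O0, wordOf m p = 0) : m &&& O0 = 0 := by
  have hlt : m &&& O0 < 2 ^ 24 :=
    lt_of_le_of_lt Nat.and_le_right (by decide)
  apply setOf_inj hlt (by norm_num)
  rw [setOf_and, setOf_zero]
  ext p
  simp only [Finset.mem_inter, Finset.notMem_empty, iff_false, not_and]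
  intro hp hp'
  have := h0 p hp'
  rw [mem_setOf] at hp
  simp [wordOf, hp] at this

/-- A codeword vanishing on the octad `setOf O0` is a combination of the five codewords. -/
theorem cw_vanish {w : GolayPt → ZMod 2} (hw : w ∈ golayCode) (h0 : ∀ p ∈ setOf O0, w p = 0) :
    ∃ c : Fin 5 → ZMod 2, ∀ p, w p = ∑ j, c j * lab p j := by
  obtain ⟨m, rfl, hm⟩ := forall_code vanTest vanTest_all hw
  rw [vanTest, Bool.or_eq_true] at hm
  rcases hm with hm | hm
  · exfalso
    rw [and_O0_eq_zero h0] at hm
    simp at hm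
  · rw [bAny_iff] at hm
    obtain ⟨a, hm⟩ := hm
    rw [bAny_iff] at hm
    obtain ⟨b, hm⟩ := hm
    rw [bAny_iff] at hm
    obtain ⟨c, hm⟩ := hm
    rw [bAny_iff] at hm
    obtain ⟨d, hm⟩ := hm
    rw [bAny_iff] at hm
    obtain ⟨e, hm⟩ := hm
    have hm' : comb5 a b c d e = m := Nat.eq_of_beq_eq_true hm
    subst hm'
    refine ⟨![bitZ a, bitZ b, bitZ c, bitZ d, bitZ e], fun p => ?_⟩
    rw [Fin.sum_univ_five, comb5, wordOf_xor, wordOf_xor, wordOf_xor, wordOf_xor]
    simp only [Pi.add_apply, wordOf_mIf]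
    rfl

/-! ### The matrix of an element of the octad stabiliser -/

/-- The stabiliser of the octad `setOf O0` in `M24`. -/
def octS : Subgroup (Equiv.Perm GolayPt) :=
  M24 ⊓ MulAction.stabilizer (Equiv.Perm GolayPt) (setOf O0)

theorem octS_le : octS ≤ M24 := inf_le_left

theorem octS_apply_mem {g : Equiv.Perm GolayPt} (hg : g ∈ octS) (p : GolayPt) :
    g p ∈ setOf O0 ↔ p ∈ setOf O0 :=
  MulAction.mem_stabilizer_finset.mp hg.2 p

theorem card_octS : Nat.card ↥octS = 322560 := card_stab_octad setOf_O0_mem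

theorem exists_mat {g : Equiv.Perm GolayPt} (hg : g ∈ octS) :
    ∃ M : Matrix (Fin 5) (Fin 5) (ZMod 2), ∀ p, lab (g p) = M.mulVec (lab p) := by
  have h1 : ∀ i : Fin 5, ∃ c : Fin 5 → ZMod 2,
      ∀ p, (wordOf (wMask i) ∘ g) p = ∑ j, c j * lab p j := by
    intro i
    have hw : wordOf (wMask i) ∘ g ∈ golayCode :=
      Helper91.comp_mem_of_mem_M24 hg.1 (wordOf_mem_of_inCode (wMask_inCode i))
    exact cw_vanish hw (fun p hp => by
      have h2 : g p ∈ setOf O0 := (octS_apply_mem hg p).mpr hp
      exact congrFun (lab_of_mem h2) i)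
  choose c hc using h1
  refine ⟨Matrix.of c, fun p => ?_⟩
  funext i
  rw [lab_apply]
  exact hc i p

/-- Indices of a frame: the point of index `5` has label `e_1`, the point of index `frameI j`
has label `e_1 + e_j` for `j ≠ 1`. -/
def frameI : Fin 5 → ℕ := ![6, 5, 8, 9, 11]

theorem labN_frame : ∀ j : Fin 5, ∀ i : Fin 5,
    labN (frameI j) i = if j = 1 then (Pi.single 1 1 : Fin 5 → ZMod 2) i
      else (Pi.single 1 1 + Pi.single j 1 : Fin 5 → ZMod 2) i := by
  decide +kernel

theorem lab_pt {k : ℕ} (hk : k < 24) : lab (pt k) = labN k := by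
  rw [lab, idx_pt hk]

theorem frameI_lt (j : Fin 5) : frameI j < 24 := by
  revert j; decide

theorem lab_frame_one : lab (pt 5) = Pi.single 1 1 := by
  rw [lab_pt (by norm_num)]
  funext i
  exact labN_frame 1 i

theorem lab_frame {j : Fin 5} (hj : j ≠ 1) : lab (pt (frameI j)) = Pi.single 1 1 + Pi.single j 1 := by
  rw [lab_pt (frameI_lt j)]
  funext i
  rw [labN_frame j i, if_neg hj]

theorem frame_not_mem (j : Fin 5) : pt (frameI j) ∉ setOf O0 := by
  rw [mem_setOf, idx_pt (frameI_lt j)]
  revert j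
  decide

/-- The matrix of a permutation, read off on the frame. -/
def matOf (g : Equiv.Perm GolayPt) : Matrix (Fin 5) (Fin 5) (ZMod 2) :=
  Matrix.of fun i j => if j = 1 then lab (g (pt 5)) i else lab (g (pt (frameI j))) i + lab (g (pt 5)) i

theorem zmod2_add_add (a b : ZMod 2) : a + b + a = b := by
  revert a b; decide

theorem matOf_unique {g : Equiv.Perm GolayPt} {M : Matrix (Fin 5) (Fin 5) (ZMod 2)}
    (h : ∀ p, lab (g p) = M.mulVec (lab p)) : matOf g = M := by
  have h5 : lab (g (pt 5)) = M.col 1 := by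
    rw [h, lab_frame_one, Matrix.mulVec_single_one]
  ext i j
  by_cases hj : j = 1
  · subst hj
    show (if (1 : Fin 5) = 1 then lab (g (pt 5)) i
      else lab (g (pt (frameI 1))) i + lab (g (pt 5)) i) = M i 1
    rw [if_pos rfl, h5]
    rfl
  · show (if j = 1 then lab (g (pt 5)) i
      else lab (g (pt (frameI j))) i + lab (g (pt 5)) i) = M i j
    rw [if_neg hj, h5, h, lab_frame hj, Matrix.mulVec_add, Matrix.mulVec_single_one,
      Matrix.mulVec_single_one]
    exact zmod2_add_add _ _

theorem matOf_spec {g : Equiv.Perm GolayPt} (hg : g ∈ octS) (p : GolayPt) :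
    lab (g p) = (matOf g).mulVec (lab p) := by
  obtain ⟨M, hM⟩ := exists_mat hg
  rw [matOf_unique hM]
  exact hM p

theorem matOf_mul {g h : Equiv.Perm GolayPt} (hg : g ∈ octS) (hh : h ∈ octS) :
    matOf (g * h) = matOf g * matOf h := by
  apply matOf_unique
  intro p
  rw [Equiv.Perm.mul_apply, matOf_spec hg, matOf_spec hh, Matrix.mulVec_mulVec]

theorem matOf_one : matOf 1 = 1 :=
  matOf_unique (fun p => by rw [Matrix.one_mulVec]; rfl)

theorem zmod2_eq_one_of_mul {a b : ZMod 2} (h : a * b = 1) : a = 1 := by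
  revert a b; decide

theorem matOf_det {g : Equiv.Perm GolayPt} (hg : g ∈ octS) : (matOf g).det = 1 := by
  have h := matOf_mul hg (inv_mem hg)
  rw [mul_inv_cancel, matOf_one] at h
  have h2 := congrArg Matrix.det h
  rw [Matrix.det_one, Matrix.det_mul] at h2
  exact zmod2_eq_one_of_mul h2.symm

theorem octS_not_mem {g : Equiv.Perm GolayPt} (hg : g ∈ octS) {p : GolayPt} (hp : p ∉ setOf O0) :
    g p ∉ setOf O0 := fun h => hp ((octS_apply_mem hg p).mp h)

theorem matOf_row {g : Equiv.Perm GolayPt} (hg : g ∈ octS) (j : Fin 5) :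
    matOf g 1 j = if j = 1 then 1 else 0 := by
  have h5 : lab (g (pt 5)) 1 = 1 := lab_one_of_not_mem (octS_not_mem hg (frame_not_mem 1))
  show (if j = 1 then lab (g (pt 5)) 1 else lab (g (pt (frameI j))) 1 + lab (g (pt 5)) 1) = _
  by_cases hj : j = 1
  · rw [if_pos hj, if_pos hj, h5]
  · rw [if_neg hj, if_neg hj, h5, lab_one_of_not_mem (octS_not_mem hg (frame_not_mem j))]
    decide

theorem card_golayPt : Fintype.card GolayPt = 24 := by decide

theorem eq_one_of_matOf {g : Equiv.Perm GolayPt} (hg : g ∈ octS) (h : matOf g = 1) : g = 1 := by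
  apply eq_one_of_nine_fixed hg.1
  have hsub : (Finset.univ \ setOf O0) ⊆ Finset.univ.filter (fun p => g p = p) := by
    intro p hp
    have hp' : p ∉ setOf O0 := (Finset.mem_sdiff.mp hp).2
    refine Finset.mem_filter.mpr ⟨Finset.mem_univ _, lab_inj (octS_not_mem hg hp') hp' ?_⟩
    rw [matOf_spec hg, h, Matrix.one_mulVec]
  have hc : (Finset.univ \ setOf O0).card = 16 := by
    rw [Finset.card_sdiff_of_subset (Finset.subset_univ _), Finset.card_univ, card_golayPt,
      card_setOf, O0_wt]
  have := Finset.card_le_card hsub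
  omega

theorem matOf_injOn {g h : Equiv.Perm GolayPt} (hg : g ∈ octS) (hh : h ∈ octS)
    (e : matOf g = matOf h) : g = h := by
  have h1 : matOf (g⁻¹ * h) = 1 := by
    rw [matOf_mul (inv_mem hg) hh, ← e, ← matOf_mul (inv_mem hg) hg, inv_mul_cancel, matOf_one]
  have h2 := eq_one_of_matOf (mul_mem (inv_mem hg) hh) h1
  exact inv_mul_eq_one.mp h2

end Cfsg.Agent.Helper93
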