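/-
Helper93: the centraliser in `M24` of an involution fixing the octad `setOf O0` pointwise is
isomorphic to the centraliser of a transvection in `SL(5, 2)`.
-/
import Cfsg.Agent.Helper93.OctAff

set_option autoImplicit false

namespace Cfsg.Agent.Helper93

open Cfsg Cfsg.Agent.Helper7
open scoped Pointwise

/-- `SL(5, 2)`. -/
abbrev SL5 : Type := Matrix.SpecialLinearGroup (Fin 5) (ZMod 2)

/-- The matrices of `SL(5, 2)` whose row `1` is `e_1`. -/
def affSet : Set SL5 := {m | ∀ j : Fin 5, (m : Matrix (Fin 5) (Fin 5) (ZMod 2)) 1 j = if j = 1 then 1 else 0}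

theorem det_minor {m : Matrix (Fin 5) (Fin 5) (ZMod 2)}
    (hrow : ∀ j : Fin 5, m 1 j = if j = 1 then 1 else 0) :
    (m.submatrix (Fin.succAbove 1) (Fin.succAbove 1)).det = m.det := by
  rw [Matrix.det_succ_row m 1, Finset.sum_eq_single 1]
  · rw [hrow 1, if_pos rfl]
    norm_num
  · intro j _ hj
    rw [hrow j, if_neg hj]
    simp
  · intro h
    exact absurd (Finset.mem_univ _) h

/-- The map used to count `affSet`. -/
noncomputable def affEmb (m : ↥affSet) : GL (Fin 4) (ZMod 2) × (Fin 4 → ZMod 2) :=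
  (Matrix.GeneralLinearGroup.mkOfDetNeZero
      ((m.1 : Matrix (Fin 5) (Fin 5) (ZMod 2)).submatrix (Fin.succAbove 1) (Fin.succAbove 1)) (by
        rw [det_minor m.2, m.1.2]
        exact one_ne_zero),
    fun i => (m.1 : Matrix (Fin 5) (Fin 5) (ZMod 2)) (Fin.succAbove 1 i) 1)

theorem affEmb_injective : Function.Injective affEmb := by
  intro m m' h
  have h1 := congrArg (fun x : GL (Fin 4) (ZMod 2) × (Fin 4 → ZMod 2) =>
    (x.1 : Matrix (Fin 4) (Fin 4) (ZMod 2))) h
  have h2 := congrArg Prod.snd h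
  have h1' : (m.1 : Matrix (Fin 5) (Fin 5) (ZMod 2)).submatrix (Fin.succAbove 1) (Fin.succAbove 1)
      = (m'.1 : Matrix (Fin 5) (Fin 5) (ZMod 2)).submatrix (Fin.succAbove 1) (Fin.succAbove 1) := h1
  have h2' : (fun i => (m.1 : Matrix (Fin 5) (Fin 5) (ZMod 2)) (Fin.succAbove 1 i) 1)
      = (fun i => (m'.1 : Matrix (Fin 5) (Fin 5) (ZMod 2)) (Fin.succAbove 1 i) 1) := h2
  apply Subtype.ext
  apply Matrix.SpecialLinearGroup.ext
  intro i j
  by_cases hi : i = 1
  · subst hi
    rw [m.2 j, m'.2 j]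
  · obtain ⟨i', rfl⟩ := Fin.exists_succAbove_eq hi
    by_cases hj : j = 1
    · subst hj
      exact congrFun h2' i'
    · obtain ⟨j', rfl⟩ := Fin.exists_succAbove_eq hj
      exact congrFun (congrFun h1' i') j'

theorem card_GL4 : Nat.card (GL (Fin 4) (ZMod 2)) = 20160 := by
  rw [Matrix.card_GL_field, ZMod.card, Fin.prod_univ_four]
  rfl

theorem card_affSet_le : Nat.card ↥affSet ≤ 322560 := by
  have h := Nat.card_le_card_of_injective affEmb affEmb_injective
  rw [Nat.card_prod, card_GL4, Nat.card_fun] at h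
  simpa using h

/-- The matrix of an element of the octad stabiliser, as an element of `affSet`. -/
def affMap (g : ↥octS) : ↥affSet := ⟨⟨matOf g.1, matOf_det g.2⟩, matOf_row g.2⟩

theorem affMap_injective : Function.Injective affMap := by
  intro g h e
  apply Subtype.ext
  apply matOf_injOn g.2 h.2
  exact congrArg (fun x : ↥affSet => (x.1 : Matrix (Fin 5) (Fin 5) (ZMod 2))) e

theorem affMap_bijective : Function.Bijective affMap :=
  affMap_injective.bijective_of_nat_card_le (by rw [card_octS]; exact card_affSet_le)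

theorem exists_of_affSet {m : SL5} (hm : m ∈ affSet) :
    ∃ g ∈ octS, matOf g = (m : Matrix (Fin 5) (Fin 5) (ZMod 2)) := by
  obtain ⟨g, hg⟩ := affMap_bijective.2 ⟨m, hm⟩
  exact ⟨g.1, g.2, congrArg (fun x : ↥affSet => (x.1 : Matrix (Fin 5) (Fin 5) (ZMod 2))) hg⟩

/-! ### The involution -/

/-- Table code of the translation by `e_0`. -/
def z0code : ℕ := 0x5c613a22d56a5ecba9d2394c418820

theorem z0_codeM24 : codeM24 z0code = true := by decide +kernel

/-- The translation by `e_0`: an involution of `M24` fixing the octad `setOf O0` pointwise. -/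
noncomputable def z0 : Equiv.Perm GolayPt := permOf z0code

theorem z0_mem : z0 ∈ M24 := permOf_mem_M24 z0_codeM24

theorem z0_tbl : IsTbl z0 z0code := by
  have h := z0_codeM24
  rw [codeM24, Bool.and_eq_true] at h
  exact isTbl_permOf h.1

theorem z0_tbl_fix : ∀ k, k < 24 → (tbl z0code k = k ↔ O0.testBit k = true) := by decide +kernel

theorem z0_fix (p : GolayPt) : z0 p = p ↔ p ∈ setOf O0 := by
  rw [mem_setOf, ← z0_tbl_fix _ (idx_lt p), ← z0_tbl p]
  exact ⟨fun h => congrArg idx h, fun h => idx_injective h⟩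

theorem z0_octS : z0 ∈ octS := by
  refine ⟨z0_mem, MulAction.mem_stabilizer_finset'.mpr ?_⟩
  intro b hb
  show z0 b ∈ setOf O0
  rw [(z0_fix b).mpr hb]
  exact hb

theorem z0_matN : ∀ i j : Fin 5,
    (if j = 1 then labN (tbl z0code 5) i else labN (tbl z0code (frameI j)) i + labN (tbl z0code 5) i)
      = (if i = j then (1 : ZMod 2) else if i = 0 ∧ j = 1 then 1 else 0) := by
  decide +kernel

theorem lab_z0_pt {k : ℕ} (hk : k < 24) : lab (z0 (pt k)) = labN (tbl z0code k) := by
  rw [lab, z0_tbl (pt k), idx_pt hk]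

theorem transv_apply (i j : Fin 5) : (Matrix.transvection 0 1 1 : Matrix (Fin 5) (Fin 5) (ZMod 2)) i j
    = (if i = j then (1 : ZMod 2) else if i = 0 ∧ j = 1 then 1 else 0) := by
  have key : ∀ i j : Fin 5, ((if i = j then (1 : ZMod 2) else 0) + (if 0 = i ∧ 1 = j then 1 else 0))
      = (if i = j then (1 : ZMod 2) else if i = 0 ∧ j = 1 then 1 else 0) := by decide
  rw [Matrix.transvection, Matrix.add_apply, Matrix.one_apply, Matrix.single_apply]
  exact key i j

theorem matOf_z0 : matOf z0 = Matrix.transvection 0 1 1 := by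
  ext i j
  rw [transv_apply, ← z0_matN i j]
  show (if j = 1 then lab (z0 (pt 5)) i else lab (z0 (pt (frameI j))) i + lab (z0 (pt 5)) i) = _
  rw [lab_z0_pt (by norm_num), lab_z0_pt (frameI_lt j)]

theorem z0_order : orderOf z0 = 2 :=
  orderOf_of_tbl z0_tbl 2 (hp := ⟨by norm_num⟩) (by decide +kernel) (j := 5) (by norm_num)
    (by decide +kernel)

/-! ### Centralisers -/

theorem cent_octS {g : Equiv.Perm GolayPt} (hg : g ∈ M24) (hc : g * z0 = z0 * g) : g ∈ octS := by
  refine ⟨hg, MulAction.mem_stabilizer_finset'.mpr ?_⟩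
  intro b hb
  show g b ∈ setOf O0
  rw [← z0_fix]
  have h1 : z0 (g b) = (z0 * g) b := rfl
  rw [h1, ← hc, Equiv.Perm.mul_apply, (z0_fix b).mpr hb]

theorem zmod2_eq_one_of_ne {a : ZMod 2} (h : a ≠ 0) : a = 1 := by
  revert a; decide

theorem cent_transv_row {m : Matrix (Fin 5) (Fin 5) (ZMod 2)} (hdet : m.det = 1)
    (hc : m * Matrix.transvection 0 1 1 = Matrix.transvection 0 1 1 * m) (j : Fin 5) :
    m 1 j = if j = 1 then 1 else 0 := by
  have h1 : m * Matrix.single 0 1 (1 : ZMod 2) = Matrix.single 0 1 (1 : ZMod 2) * m := by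
    rw [Matrix.transvection, mul_add, add_mul, mul_one, one_mul] at hc
    exact add_left_cancel hc
  have h2 : ∀ j : Fin 5, j ≠ 1 → m 1 j = 0 := by
    intro j hj
    have h3 := congrFun (congrFun h1 0) j
    rw [Matrix.mul_single_apply_of_ne _ _ _ _ _ hj, Matrix.single_mul_apply_same, one_mul] at h3
    exact h3.symm
  by_cases hj : j = 1
  · subst hj
    rw [if_pos rfl]
    apply zmod2_eq_one_of_ne
    intro h0
    have : m.det = 0 := Matrix.det_eq_zero_of_row_eq_zero 1 (fun j => by
      by_cases hj : j = 1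
      · rw [hj]; exact h0
      · exact h2 j hj)
    rw [hdet] at this
    exact one_ne_zero this
  · rw [if_neg hj]
    exact h2 j hj

/-- The centraliser of `z0` in `M24` is isomorphic to the centraliser of a transvection in
`SL(5, 2)`. -/
theorem cent_z0_iso (s : SL5)
    (hs : (s : Matrix (Fin 5) (Fin 5) (ZMod 2)) = Matrix.transvection 0 1 1) :
    Nonempty (↥(Subgroup.centralizer ({⟨z0, z0_mem⟩} : Set ↥M24)) ≃*
      ↥(Subgroup.centralizer ({s} : Set SL5))) := by
  have hoct : ∀ g : ↥(Subgroup.centralizer ({⟨z0, z0_mem⟩} : Set ↥M24)),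
      ((g : ↥M24) : Equiv.Perm GolayPt) ∈ octS := by
    intro g
    have h := Subgroup.mem_centralizer_singleton_iff.mp g.2
    exact cent_octS g.1.2 (congrArg Subtype.val h)
  have hcomm : ∀ g : ↥(Subgroup.centralizer ({⟨z0, z0_mem⟩} : Set ↥M24)),
      ((g : ↥M24) : Equiv.Perm GolayPt) * z0 = z0 * ((g : ↥M24) : Equiv.Perm GolayPt) := by
    intro g
    have h := Subgroup.mem_centralizer_singleton_iff.mp g.2
    exact congrArg Subtype.val h
  let φ : ↥(Subgroup.centralizer ({⟨z0, z0_mem⟩} : Set ↥M24)) →*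
      ↥(Subgroup.centralizer ({s} : Set SL5)) :=
    { toFun := fun g => ⟨(⟨matOf g.1.1, matOf_det (hoct g)⟩ : SL5), by
        refine (Subgroup.mem_centralizer_singleton_iff (G := SL5)).mpr ?_
        apply Subtype.ext
        show matOf g.1.1 * (s : Matrix (Fin 5) (Fin 5) (ZMod 2))
          = (s : Matrix (Fin 5) (Fin 5) (ZMod 2)) * matOf g.1.1
        rw [hs, ← matOf_z0, ← matOf_mul (hoct g) z0_octS, ← matOf_mul z0_octS (hoct g), hcomm g]⟩
      map_one' := by
        apply Subtype.ext
        apply Subtype.ext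
        exact matOf_one
      map_mul' := fun g h => by
        apply Subtype.ext
        apply Subtype.ext
        exact matOf_mul (hoct g) (hoct h) }
  have hφ : ∀ g, ((φ g : SL5) : Matrix (Fin 5) (Fin 5) (ZMod 2)) = matOf g.1.1 := fun g => rfl
  refine ⟨MulEquiv.ofBijective φ ⟨?_, ?_⟩⟩
  · intro g h e
    apply Subtype.ext
    apply Subtype.ext
    apply matOf_injOn (hoct g) (hoct h)
    rw [← hφ g, ← hφ h, e]
  · intro m
    have hm := Subgroup.mem_centralizer_singleton_iff.mp m.2
    have hm' : (m.1 : Matrix (Fin 5) (Fin 5) (ZMod 2)) * Matrix.transvection 0 1 1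
        = Matrix.transvection 0 1 1 * (m.1 : Matrix (Fin 5) (Fin 5) (ZMod 2)) := by
      rw [← hs]
      exact congrArg Subtype.val hm
    have hrow : m.1 ∈ affSet := fun j => cent_transv_row m.1.2 hm' j
    obtain ⟨g, hg, hgm⟩ := exists_of_affSet hrow
    have hgz : g * z0 = z0 * g := by
      apply matOf_injOn (mul_mem hg z0_octS) (mul_mem z0_octS hg)
      rw [matOf_mul hg z0_octS, matOf_mul z0_octS hg, matOf_z0, hgm]
      exact hm'
    refine ⟨⟨⟨g, hg.1⟩, Subgroup.mem_centralizer_singleton_iff.mpr (Subtype.ext hgz)⟩, ?_⟩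
    apply Subtype.ext
    apply Subtype.ext
    exact hgm

end Cfsg.Agent.Helper93
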