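/-
Helper93: an inequality of Ree type for permutations, by linear algebra on the permutation module.

For permutations `x`, `y` of a finite set such that all points but one lie in a single orbit of the group they
generate, the numbers of orbits of `x`, `y` and `x * y` add up to at most `n + 4`.
-/
import Mathlib

set_option autoImplicit false

namespace Cfsg.Agent.Helper93.Ree

open Module

section LA

variable {K V : Type*} [Field K] [AddCommGroup V] [Module K V] [FiniteDimensional K V]

/-- The fixed space of a composition is bounded by the common fixed space and the common image. -/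
theorem ker_comp_le (S T : V →ₗ[K] V) :
    finrank K (LinearMap.ker (S ∘ₗ T - 1)) ≤
      finrank K (LinearMap.ker (S - 1) ⊓ LinearMap.ker (T - 1) : Submodule K V) +
      finrank K (LinearMap.range (S - 1) ⊓ LinearMap.range (T - 1) : Submodule K V) := by
  let ψ : ↥(LinearMap.ker (S ∘ₗ T - 1)) →ₗ[K] V := (T - 1) ∘ₗ (LinearMap.ker (S ∘ₗ T - 1)).subtype
  have hST : ∀ v : ↥(LinearMap.ker (S ∘ₗ T - 1)), S (T (v : V)) = (v : V) := by
    intro v
    have h := v.2
    rw [LinearMap.mem_ker] at h
    simp only [LinearMap.sub_apply, LinearMap.comp_apply, Module.End.one_apply] at h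
    exact sub_eq_zero.1 h
  have h1 := LinearMap.finrank_range_add_finrank_ker ψ
  have h2 : finrank K (LinearMap.range ψ) ≤
      finrank K (LinearMap.range (S - 1) ⊓ LinearMap.range (T - 1) : Submodule K V) := by
    apply Submodule.finrank_mono
    rintro _ ⟨v, rfl⟩
    refine ⟨⟨-(T (v : V)), ?_⟩, ⟨(v : V), rfl⟩⟩
    simp only [ψ, LinearMap.comp_apply, Submodule.subtype_apply, LinearMap.sub_apply, Module.End.one_apply,
      map_neg, hST v]
    abel
  have h3 : finrank K (LinearMap.ker ψ) ≤
      finrank K (LinearMap.ker (S - 1) ⊓ LinearMap.ker (T - 1) : Submodule K V) := by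
    let ι : ↥(LinearMap.ker ψ) →ₗ[K] V :=
      (LinearMap.ker (S ∘ₗ T - 1)).subtype ∘ₗ (LinearMap.ker ψ).subtype
    have hι : Function.Injective ι :=
      (Submodule.injective_subtype _).comp (Submodule.injective_subtype _)
    rw [← LinearMap.finrank_range_of_inj hι]
    apply Submodule.finrank_mono
    rintro _ ⟨w, rfl⟩
    have hw := w.2
    rw [LinearMap.mem_ker] at hw
    simp only [ψ, LinearMap.comp_apply, Submodule.subtype_apply, LinearMap.sub_apply,
      Module.End.one_apply] at hw
    have hT : T ((w : ↥(LinearMap.ker (S ∘ₗ T - 1))) : V) = ((w : ↥(LinearMap.ker (S ∘ₗ T - 1))) : V) :=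
      sub_eq_zero.1 hw
    have hS := hST (w : ↥(LinearMap.ker (S ∘ₗ T - 1)))
    rw [hT] at hS
    refine ⟨?_, ?_⟩
    · simp only [ι, LinearMap.comp_apply, Submodule.subtype_apply, SetLike.mem_coe, LinearMap.mem_ker,
        LinearMap.sub_apply, Module.End.one_apply, hS, sub_self]
    · simp only [ι, LinearMap.comp_apply, Submodule.subtype_apply, SetLike.mem_coe, LinearMap.mem_ker,
        LinearMap.sub_apply, Module.End.one_apply, hT, sub_self]
  omega

/-- The three fixed spaces have total dimension at most `dim V + k₁ + k₂`. -/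
theorem fix_sum_le (S T : V →ₗ[K] V) (k1 k2 : ℕ)
    (h1 : finrank K (LinearMap.ker (S - 1) ⊓ LinearMap.ker (T - 1) : Submodule K V) ≤ k1)
    (h2 : finrank K V ≤
      finrank K (LinearMap.range (S - 1) ⊔ LinearMap.range (T - 1) : Submodule K V) + k2) :
    finrank K (LinearMap.ker (S - 1)) + finrank K (LinearMap.ker (T - 1)) +
      finrank K (LinearMap.ker (S ∘ₗ T - 1)) ≤ finrank K V + k1 + k2 := by
  have hA := LinearMap.finrank_range_add_finrank_ker (S - 1)
  have hB := LinearMap.finrank_range_add_finrank_ker (T - 1)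
  have hsi := Submodule.finrank_sup_add_finrank_inf_eq (LinearMap.range (S - 1)) (LinearMap.range (T - 1))
  have hC := ker_comp_le S T
  omega

end LA

section perm

variable {α : Type*}

/-- The functions fixed by a permutation. -/
noncomputable def fixF (g : Equiv.Perm α) : Submodule ℚ (α → ℚ) :=
  LinearMap.ker (LinearMap.funLeft ℚ ℚ (⇑g) - 1)

theorem mem_fixF {g : Equiv.Perm α} {f : α → ℚ} : f ∈ fixF g ↔ ∀ a, f (g a) = f a := by
  unfold fixF
  rw [LinearMap.mem_ker, LinearMap.sub_apply, sub_eq_zero]
  constructor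
  · intro h a
    exact congrFun h a
  · intro h
    funext a
    exact h a

theorem funLeft_mul (x y : Equiv.Perm α) :
    LinearMap.funLeft ℚ ℚ (⇑(x * y)) = LinearMap.funLeft ℚ ℚ (⇑y) ∘ₗ LinearMap.funLeft ℚ ℚ (⇑x) := by
  apply LinearMap.ext
  intro f
  funext a
  rfl

variable [Fintype α] [DecidableEq α]

omit [Fintype α] [DecidableEq α] in
/-- Fixed functions of `x` and `y` are fixed by the group they generate. -/
theorem fix_closure {x y : Equiv.Perm α} {f : α → ℚ} (hx : f ∈ fixF x) (hy : f ∈ fixF y)
    {g : Equiv.Perm α} (hg : g ∈ Subgroup.closure ({x, y} : Set (Equiv.Perm α))) (a : α) :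
    f (g a) = f a := by
  let H : Subgroup (Equiv.Perm α) :=
    { carrier := {g | ∀ a, f (g a) = f a}
      one_mem' := fun a => rfl
      mul_mem' := fun {g h} hg hh a => by
        rw [Equiv.Perm.mul_apply, hg, hh]
      inv_mem' := fun {g} hg a => by
        have := hg (g⁻¹ a)
        have e : g (g⁻¹ a) = a := by simp
        rw [e] at this
        exact this.symm }
  have hle : Subgroup.closure ({x, y} : Set (Equiv.Perm α)) ≤ H := by
    rw [Subgroup.closure_le]
    intro z hz
    rcases hz with rfl | rfl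
    · exact mem_fixF.1 hx
    · exact mem_fixF.1 hy
  exact hle hg a

omit [Fintype α] in
/-- Differences of basis vectors along the group generated lie in the sum of the two images. -/
theorem single_sub_mem {x y : Equiv.Perm α} {g : Equiv.Perm α}
    (hg : g ∈ Subgroup.closure ({x, y} : Set (Equiv.Perm α))) (a : α) :
    (Pi.single (g a) (1 : ℚ) - Pi.single a 1 : α → ℚ) ∈
      (LinearMap.range (LinearMap.funLeft ℚ ℚ (⇑y) - 1) ⊔
        LinearMap.range (LinearMap.funLeft ℚ ℚ (⇑x) - 1) : Submodule ℚ (α → ℚ)) := by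
  set W : Submodule ℚ (α → ℚ) := LinearMap.range (LinearMap.funLeft ℚ ℚ (⇑y) - 1) ⊔
        LinearMap.range (LinearMap.funLeft ℚ ℚ (⇑x) - 1) with hW
  have key : ∀ z : Equiv.Perm α, ∀ a : α,
      (Pi.single (z a) (1 : ℚ) - Pi.single a 1 : α → ℚ) ∈
        LinearMap.range (LinearMap.funLeft ℚ ℚ (⇑z) - 1) := by
    intro z a
    refine ⟨-Pi.single (z a) 1, ?_⟩
    funext b
    simp only [LinearMap.sub_apply, LinearMap.funLeft_apply, Module.End.one_apply, Pi.neg_apply,
      Pi.sub_apply, Pi.single_apply]
    by_cases h1 : b = a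
    · subst h1
      by_cases h2 : z b = b
      · simp [h2]
      · have h3 : b ≠ z b := fun h => h2 h.symm
        simp [h3]
    · have h2 : z b ≠ z a := fun h => h1 (z.injective h)
      simp [h1, h2]
  let H : Subgroup (Equiv.Perm α) :=
    { carrier := {g | ∀ a, (Pi.single (g a) (1 : ℚ) - Pi.single a 1 : α → ℚ) ∈ W}
      one_mem' := fun a => by
        simp only [Equiv.Perm.coe_one, id_eq, sub_self]
        exact W.zero_mem
      mul_mem' := fun {g h} hg hh a => by
        have h1 := hg (h a)
        have h2 := hh a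
        have := W.add_mem h1 h2
        rw [Equiv.Perm.mul_apply]
        convert this using 1
        abel
      inv_mem' := fun {g} hg a => by
        have h1 := hg (g⁻¹ a)
        have e : g (g⁻¹ a) = a := by simp
        rw [e] at h1
        have := W.neg_mem h1
        convert this using 1
        abel }
  have hle : Subgroup.closure ({x, y} : Set (Equiv.Perm α)) ≤ H := by
    rw [Subgroup.closure_le]
    intro z hz
    rcases hz with rfl | rfl
    · intro a
      exact (le_sup_right : _ ≤ W) (key z a)
    · intro a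
      exact (le_sup_left : _ ≤ W) (key z a)
  exact hle hg a

/-- The inequality of Ree type, when all points but `a0` lie in the orbit of `a1`. -/
theorem ree_two {x y : Equiv.Perm α} (a0 a1 : α)
    (htr : ∀ b, b ≠ a0 → ∃ g ∈ Subgroup.closure ({x, y} : Set (Equiv.Perm α)), g a1 = b) :
    finrank ℚ (fixF x) + finrank ℚ (fixF y) + finrank ℚ (fixF (x * y)) ≤ Fintype.card α + 4 := by
  have hk1 : finrank ℚ (LinearMap.ker (LinearMap.funLeft ℚ ℚ (⇑y) - 1) ⊓
      LinearMap.ker (LinearMap.funLeft ℚ ℚ (⇑x) - 1) : Submodule ℚ (α → ℚ)) ≤ 2 := by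
    set W : Submodule ℚ (α → ℚ) := LinearMap.ker (LinearMap.funLeft ℚ ℚ (⇑y) - 1) ⊓
      LinearMap.ker (LinearMap.funLeft ℚ ℚ (⇑x) - 1) with hW
    let E : ↥W →ₗ[ℚ] ℚ × ℚ :=
      (LinearMap.prod (LinearMap.proj a0) (LinearMap.proj a1)) ∘ₗ W.subtype
    have hE : Function.Injective E := by
      rw [← LinearMap.ker_eq_bot, LinearMap.ker_eq_bot']
      intro f hf
      have h0 : (f : α → ℚ) a0 = 0 := congrArg Prod.fst hf
      have h1 : (f : α → ℚ) a1 = 0 := congrArg Prod.snd hf
      have hfy : (f : α → ℚ) ∈ fixF y := f.2.1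
      have hfx : (f : α → ℚ) ∈ fixF x := f.2.2
      apply Subtype.ext
      funext b
      by_cases hb : b = a0
      · rw [hb]; exact h0
      · obtain ⟨g, hg, rfl⟩ := htr b hb
        rw [fix_closure hfx hfy hg a1]
        exact h1
    have := LinearMap.finrank_le_finrank_of_injective hE
    rw [Module.finrank_prod, Module.finrank_self] at this
    exact this
  have hk2 : finrank ℚ (α → ℚ) ≤
      finrank ℚ (LinearMap.range (LinearMap.funLeft ℚ ℚ (⇑y) - 1) ⊔
        LinearMap.range (LinearMap.funLeft ℚ ℚ (⇑x) - 1) : Submodule ℚ (α → ℚ)) + 2 := by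
    set W : Submodule ℚ (α → ℚ) := LinearMap.range (LinearMap.funLeft ℚ ℚ (⇑y) - 1) ⊔
        LinearMap.range (LinearMap.funLeft ℚ ℚ (⇑x) - 1) with hW
    let U : Submodule ℚ (α → ℚ) :=
      Submodule.span ℚ ({Pi.single a0 1, Pi.single a1 1} : Set (α → ℚ))
    have htop : (⊤ : Submodule ℚ (α → ℚ)) ≤ W ⊔ U := by
      rw [← (Pi.basisFun ℚ α).span_eq, Submodule.span_le]
      rintro _ ⟨b, rfl⟩
      rw [Pi.basisFun_apply]
      by_cases hb : b = a0
      · rw [hb]
        exact (le_sup_right : U ≤ W ⊔ U) (Submodule.subset_span (Set.mem_insert _ _))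
      · obtain ⟨g, hg, rfl⟩ := htr b hb
        have h1 := single_sub_mem hg a1
        have h2 : (Pi.single a1 (1 : ℚ) : α → ℚ) ∈ U :=
          Submodule.subset_span (Set.mem_insert_of_mem _ rfl)
        have := (W ⊔ U).add_mem ((le_sup_left : W ≤ W ⊔ U) h1) ((le_sup_right : U ≤ W ⊔ U) h2)
        rw [sub_add_cancel] at this
        exact this
    have h1 : finrank ℚ (α → ℚ) ≤ finrank ℚ ↥(W ⊔ U) := by
      rw [← finrank_top ℚ (α → ℚ)]
      exact Submodule.finrank_mono htop
    have h2 := Submodule.finrank_add_le_finrank_add_finrank W U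
    have h3 : finrank ℚ ↥U ≤ 2 := by
      have := finrank_span_le_card (R := ℚ) ({Pi.single a0 1, Pi.single a1 1} : Set (α → ℚ))
      refine this.trans ?_
      rw [Set.toFinset_card]
      exact (Fintype.card_le_of_injective _ (Set.inclusion_injective
        (show ({Pi.single a0 1, Pi.single a1 1} : Set (α → ℚ)) ⊆ {Pi.single a0 1, Pi.single a1 1} from
          le_rfl))).trans (by
        rw [← Set.toFinset_card]
        simp only [Set.toFinset_insert, Set.toFinset_singleton]
        exact Finset.card_le_two)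
    omega
  have key := fix_sum_le (LinearMap.funLeft ℚ ℚ (⇑y)) (LinearMap.funLeft ℚ ℚ (⇑x)) 2 2 hk1 hk2
  rw [← funLeft_mul x y, Module.finrank_fintype_fun_eq_card] at key
  have e1 : finrank ℚ (fixF x) = finrank ℚ (LinearMap.ker (LinearMap.funLeft ℚ ℚ (⇑x) - 1)) := rfl
  have e2 : finrank ℚ (fixF y) = finrank ℚ (LinearMap.ker (LinearMap.funLeft ℚ ℚ (⇑y) - 1)) := rfl
  have e3 : finrank ℚ (fixF (x * y)) =
      finrank ℚ (LinearMap.ker (LinearMap.funLeft ℚ ℚ (⇑(x * y)) - 1)) := rfl
  omega

/-! ### Orbits of a permutation of prime order -/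

omit [DecidableEq α] in
/-- The fixed space of `g` has dimension at least the number of orbits of `g`. -/
theorem card_orbits_le (g : Equiv.Perm α) :
    Nat.card (MulAction.orbitRel.Quotient (Subgroup.zpowers g) α) ≤ finrank ℚ (fixF g) := by
  classical
  have : Fintype (MulAction.orbitRel.Quotient (Subgroup.zpowers g) α) := Fintype.ofFinite _
  let mk : α → MulAction.orbitRel.Quotient (Subgroup.zpowers g) α := Quotient.mk''
  let L : (MulAction.orbitRel.Quotient (Subgroup.zpowers g) α → ℚ) →ₗ[ℚ] (α → ℚ) :=
    LinearMap.funLeft ℚ ℚ mk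
  have hL : Function.Injective L :=
    LinearMap.funLeft_injective_of_surjective ℚ ℚ mk Quotient.mk''_surjective
  have h1 := LinearMap.finrank_range_of_inj hL
  rw [Module.finrank_fintype_fun_eq_card, ← Nat.card_eq_fintype_card] at h1
  rw [← h1]
  apply Submodule.finrank_mono
  rintro _ ⟨h, rfl⟩
  rw [mem_fixF]
  intro a
  show h (mk (g a)) = h (mk a)
  have : mk (g a) = mk a := by
    apply Quotient.sound
    exact ⟨⟨g, Subgroup.mem_zpowers g⟩, rfl⟩
  rw [this]

/-- Burnside's count for a permutation of prime order. -/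
theorem card_orbits_mul {g : Equiv.Perm α} {p : ℕ} (hp : p.Prime) (hg : orderOf g = p) :
    Nat.card (MulAction.orbitRel.Quotient (Subgroup.zpowers g) α) * p =
      Fintype.card α + (p - 1) * (Finset.univ.filter (fun a => g a = a)).card := by
  classical
  have : Fintype (MulAction.orbitRel.Quotient (Subgroup.zpowers g) α) := Fintype.ofFinite _
  have : Fintype ↥(Subgroup.zpowers g) := Fintype.ofFinite _
  have hB := MulAction.sum_card_fixedBy_eq_card_orbits_mul_card_group (↥(Subgroup.zpowers g)) α
  have hcard : Fintype.card ↥(Subgroup.zpowers g) = p := by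
    rw [← Nat.card_eq_fintype_card, Nat.card_zpowers, hg]
  rw [hcard, ← Nat.card_eq_fintype_card] at hB
  have hQ : Nat.card (Quotient (MulAction.orbitRel (↥(Subgroup.zpowers g)) α)) =
      Nat.card (MulAction.orbitRel.Quotient (Subgroup.zpowers g) α) := rfl
  rw [hQ] at hB
  rw [← hB]
  -- the fixed points of a nontrivial power of `g`
  have hfix : ∀ h : ↥(Subgroup.zpowers g), h ≠ 1 →
      Fintype.card (MulAction.fixedBy α h) = (Finset.univ.filter (fun a => g a = a)).card := by
    intro h hne
    have hh1 : (h : Equiv.Perm α) ≠ 1 := fun e => hne (Subtype.ext e)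
    have hord : orderOf (h : Equiv.Perm α) = p := by
      have hdvd : orderOf (h : Equiv.Perm α) ∣ p := by
        apply orderOf_dvd_of_pow_eq_one
        obtain ⟨k, hk⟩ := Subgroup.mem_zpowers_iff.1 h.2
        rw [← hk, ← zpow_natCast, ← zpow_mul, mul_comm, zpow_mul, zpow_natCast, ← hg,
          pow_orderOf_eq_one, one_zpow]
      rcases (Nat.dvd_prime hp).1 hdvd with h1 | h1
      · exact absurd (orderOf_eq_one_iff.1 h1) hh1
      · exact h1
    have hz : Subgroup.zpowers (h : Equiv.Perm α) = Subgroup.zpowers g := by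
      apply Subgroup.eq_of_le_of_card_ge
      · rw [Subgroup.zpowers_le]
        exact h.2
      · rw [Nat.card_zpowers, Nat.card_zpowers, hord, hg]
    have hgm : g ∈ Subgroup.zpowers (h : Equiv.Perm α) := by
      rw [hz]
      exact Subgroup.mem_zpowers g
    rw [← Fintype.card_subtype]
    apply Fintype.card_congr
    apply Equiv.subtypeEquivRight
    intro a
    rw [MulAction.mem_fixedBy]
    show (h : Equiv.Perm α) a = a ↔ g a = a
    constructor
    · intro ha
      obtain ⟨k, hk⟩ := Subgroup.mem_zpowers_iff.1 hgm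
      rw [← hk]
      exact Equiv.Perm.zpow_apply_eq_self_of_apply_eq_self ha k
    · intro ha
      obtain ⟨k, hk⟩ := Subgroup.mem_zpowers_iff.1 h.2
      rw [← hk]
      exact Equiv.Perm.zpow_apply_eq_self_of_apply_eq_self ha k
  have hone : Fintype.card (MulAction.fixedBy α (1 : ↥(Subgroup.zpowers g))) = Fintype.card α := by
    apply Fintype.card_congr
    refine (Equiv.subtypeUnivEquiv ?_)
    intro a
    rw [MulAction.mem_fixedBy, one_smul]
  rw [← Finset.add_sum_erase Finset.univ _ (Finset.mem_univ (1 : ↥(Subgroup.zpowers g))), hone]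
  congr 1
  rw [Finset.sum_congr rfl (fun h hh => hfix h (Finset.ne_of_mem_erase hh)), Finset.sum_const,
    Finset.card_erase_of_mem (Finset.mem_univ _), Finset.card_univ, hcard, smul_eq_mul]

/-- The fixed space of a permutation of prime order `p` with `f` fixed points has dimension at least
`(n + (p - 1) f) / p`, the number of its orbits. -/
theorem fix_dim_ge {g : Equiv.Perm α} {p : ℕ} (hp : p.Prime) (hg : orderOf g = p) :
    ∃ c : ℕ, c * p = Fintype.card α + (p - 1) * (Finset.univ.filter (fun a => g a = a)).card ∧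
      c ≤ finrank ℚ (fixF g) :=
  ⟨_, card_orbits_mul hp hg, card_orbits_le g⟩

end perm

end Cfsg.Agent.Helper93.Ree
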